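import Cfsg.Agent.H05.CT1
import Cfsg.Agent.H17.CF3
import Cfsg.Agent.S3058
import Cfsg.Agent.H03.PResidual

/-!
# Alperin–Goldschmidt, strong form: steps in `O^p(X)` for essential subgroups (`H12.Alp.main`)
-/

namespace H12.Alp
open Subgroup Cfsg H26 H17

variable {G : Type*} [Group G] [Finite G] {p : ℕ} [hp : Fact p.Prime]

/-- radical, centric, extremal -/
def Gd (p : ℕ) (P D : Subgroup G) : Prop := D ≤ P ∧ ¬ p ∣ (P ⊓ normalizer (D : Set G)).relIndex (normalizer (D : Set G)) ∧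
  P ⊓ centralizer (D : Set G) ≤ D ∧ (pPrimePCore p (normalizer (D : Set G))).map (normalizer (D : Set G)).subtype = D ⊔ centralizer (D : Set G)

/-- admissible steps -/
def R (p : ℕ) (P : Subgroup G) (i : Subgroup G × Subgroup G) (x : G) : Prop := Gd p P i.1 ∧
  ¬ IsSylowChainConnected p (normalizer (i.1 : Set G) ⧸ i.1.subgroupOf (normalizer (i.1 : Set G))) ∧
  (i.1 ≤ i.2 ∧ i.2 ≤ normalizer (i.1 : Set G) ∧ (i.2.subgroupOf (normalizer (i.1 : Set G))).Normal ∧ p ∣ i.1.relIndex i.2 ∧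
    ∀ Y : Subgroup G, i.1 ≤ Y → Y ≤ normalizer (i.1 : Set G) → (Y.subgroupOf (normalizer (i.1 : Set G))).Normal → p ∣ i.1.relIndex Y → i.2 ≤ Y) ∧
  x ∈ (pResidual p i.2).map i.2.subtype

/-- chain followed by an element of `N(P)` -/
def M₀ (p : ℕ) (P A : Subgroup G) (g : G) : Prop := ∃ y ∈ normalizer (P : Set G), ∃ h,
  Ch (fun B x => ∃ i, R p P i x⁻¹ ∧ B ≤ i.1) A h ∧ h⁻¹ * y⁻¹ * g ∈ centralizer (A : Set G)

/-- the invariant form -/
def M (p : ℕ) (P A : Subgroup G) (g : G) : Prop := ∀ y ∈ normalizer (P : Set G), M₀ p P cj(y, A) (g * y⁻¹)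

omit [Finite G] hp in
theorem core_cj (w : G) (N : Subgroup G) {N' : Subgroup G} (h : cj(w, N) = N') :
    (pPrimePCore p N').map N'.subtype = cj(w, (pPrimePCore p N).map N.subtype) := by
  subst h
  exact (congrArg (map _) (H02.pPrimePCore_map_equiv ((MulAut.conj w).subgroupMap N)).symm).trans ((map_map ..).trans
    (map_map _ (MulAut.conj w).toMonoidHom N.subtype).symm)

omit [Finite G] hp in
theorem Gd.cj {P D : Subgroup G} (h : Gd p P D) {w : G} (hw : w ∈ normalizer (P : Set G)) : Gd p P cj(w, D) := by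
  obtain ⟨a, b, c, d⟩ := h
  have e := cj_eq_of_mem_normalizer hw
  refine ⟨e ▸ cj_mono w a, ?_, ?_, ?_⟩
  · rwa [← e, ← cj_normalizer, ← cj_inf, relIndex_cj]
  · rw [← e, ← cj_centralizer, ← cj_inf]; exact cj_mono w c
  · rw [core_cj w _ (cj_normalizer w D), d, cj_sup, cj_centralizer]

omit [Finite G] hp in
theorem M.mul {P A : Subgroup G} {g k : G} (h1 : M p P A g) (h2 : M p P cj(g, A) k) : M p P A (k * g) := fun y hy => by
  obtain ⟨y₁, a, h₁, b, c⟩ := h1 y hy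
  obtain ⟨y₂, d, h₂, e, f⟩ := h2 y₁⁻¹ (inv_mem a)
  have : cj(y₁⁻¹, cj(g, A)) = cj(h₁, cj(y, A)) := by
    rw [← cj_eq_of_mem_normalizer (Subgroup.centralizer_le_normalizer _ c)]; simp only [cj_cj]; congr 3; group
  rw [this] at e f
  refine ⟨y₂, d, h₂ * h₁, Ch.mul _ _ _ b e, ?_⟩
  rw [← cj_centralizer, mem_cj] at f
  simpa [mul_assoc] using mul_mem f c

theorem exists_X (h : ¬ IsSylowChainConnected p G) : ∃ X : Subgroup G, X.Normal ∧ p ∣ Nat.card X ∧
    ∀ Y : Subgroup G, Y.Normal → p ∣ Nat.card Y → X ≤ Y := by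
  obtain ⟨M, hM⟩ := not_chainConnected_iff.1 h
  obtain ⟨X, ⟨a, b⟩, c⟩ := Set.exists_min_image {X : Subgroup G | X.Normal ∧ p ∣ Nat.card X} (fun X => Nat.card X) (Set.toFinite _)
    ⟨⊤, inferInstance, hM.dvd.trans (card_dvd_of_le le_top)⟩
  exact ⟨X, a, b, fun Y d e => inf_eq_left.1 (eq_of_le_of_card_ge inf_le_left
    (c (X ⊓ Y) ⟨inferInstance, Cfsg.Agent.S3058.result p h X Y b e⟩))⟩

theorem base (P : Sylow p G) {D : Subgroup G} (hD : Gd p P D)
    (ih : ∀ B g, D < B → B ≤ P → (∀ a ∈ B, g * a * g⁻¹ ∈ P) → M p P B g) {x : G} (hx : x ∈ normalizer (D : Set G)) : M₀ p P D x := by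
  by_cases e : D = P
  · exact ⟨x, e ▸ hx, 1, .one, by simp⟩
  let N := normalizer (D : Set G)
  have nD : (D.subgroupOf N).Normal := normal_in_normalizer
  let L : Subgroup G := subgroupOfIdempotent {x | x ∈ N ∧ M p P D x} ⟨1, one_mem _, fun y hy => ⟨y⁻¹, inv_mem hy, 1, .one, by simp⟩⟩
    (Set.Subset.antisymm (by
      rintro _ ⟨a, ha, b, hb, rfl⟩
      exact ⟨mul_mem ha.1 hb.1, hb.2.mul (by rw [cj_eq_of_mem_normalizer hb.1]; exact ha.2)⟩)
      fun a ha => ⟨a, ha, 1, ⟨one_mem _, fun y hy => ⟨y⁻¹, inv_mem hy, 1, .one, by simp⟩⟩, mul_one a⟩)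
  have hT : IsSyl p (P.1 ⊓ N) N := isSyl_of_not_dvd inf_le_right P.2.to_inf_left hD.2.1
  have DT : D < P.1 ⊓ N := H26.lt_inf_normalizer P.2 (hD.1.lt_of_ne e)
  have mL : ∀ B g, D < B → B ≤ P → g ∈ N → (∀ a ∈ B, g * a * g⁻¹ ∈ P) → g ∈ L := fun B g a b c d => ⟨c, fun y hy => by
    obtain ⟨y₁, a1, h, a2, a3⟩ := ih B g a b d y hy
    exact ⟨y₁, a1, h, Ch.mono (fun A B x hAB ⟨T, h1, h2⟩ => ⟨T, h1, hAB.trans h2⟩) _ _ h (cj_mono y a.le) a2,
      centralizer_le (cj_mono y a.le) a3⟩⟩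
  have TL : P.1 ⊓ N ≤ L := fun g hg => mL _ g DT inf_le_left hg.2 fun a ha => mul_mem (mul_mem hg.1 ha.1) (inv_mem hg.1)
  have fin : ∀ s ∈ L, M₀ p P D s := fun s hs => by simpa only [cj_one, inv_one, mul_one] using hs.2 1 (one_mem _)
  by_cases xL : x ∈ L
  · exact fin x xL
  let f := QuotientGroup.mk' (D.subgroupOf N)
  have pD : IsPGroup p D := P.2.to_le hD.1
  have mf : ∀ g : N, f g ∈ (L.subgroupOf N).map f → g.1 ∈ L := by
    rintro g ⟨a, ha, h⟩
    change g ∈ L.subgroupOf N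
    simpa using mul_mem ha (show a⁻¹ * g ∈ L.subgroupOf N from TL (DT.le (QuotientGroup.eq (s := D.subgroupOf N).1 h)))
  have cv : ∀ a : N, a.1 ∈ L → orderOf (f a) = p → ∃ l ∈ L, l * a * l⁻¹ ∈ P := fun a ha o => by
    obtain ⟨k, hk⟩ := isPGroup_iff_mem.1 pD (a ^ p) ((QuotientGroup.eq_one_iff (a ^ p)).1 (o ▸ pow_orderOf_eq_one (f a)))
    obtain ⟨l, a1, a2⟩ := (hT.mono TL fun _ h => h.1).exists_cj_le (isPGroup_zpowers ⟨k + 1, by rw [pow_succ', pow_mul, hk]⟩) (zpowers_le.2 ha)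
    exact ⟨l, a1, (a2 (conj_mem_cj (mem_zpowers _))).1⟩
  have nc : ¬ IsSylowChainConnected p (N ⧸ D.subgroupOf N) := not_chainConnected_iff.2 ⟨(L.subgroupOf N).map f,
    fun h => xL (mf ⟨x, hx⟩ (h.ge trivial)), by
      obtain ⟨z, a, b⟩ := exists_mem_orderOf_eq (dvd_card_of_isPGroup ((hT.pg.comap_subtype (K := N)).map f) (fun h => DT.not_ge fun g hg =>
        (QuotientGroup.eq_one_iff (⟨g, hg.2⟩ : N)).1 (h.le ⟨⟨g, hg.2⟩, hg, rfl⟩)) le_rfl)
      exact ⟨z, map_mono (comap_mono TL) a, b⟩, by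
      rintro _ ⟨a, ha, rfl⟩ o ⟨g⟩ hg
      obtain ⟨l, l1, l2⟩ := cv a ha o
      obtain ⟨m, m1, m2⟩ := cv (g * a * g⁻¹) (mf _ hg) ((H26.orderOf_conj (f g) (f a)).trans o)
      have aD : l * a * l⁻¹ ∉ D := fun h => hp.out.one_lt.ne' (o.symm.trans (orderOf_eq_one_iff.2
        ((QuotientGroup.eq_one_iff a).2 ((mem_normalizer_iff.1 l1.1 a).2 h))))
      have k : m * g * l⁻¹ ∈ N := mul_mem (mul_mem m1.1 g.2) (inv_mem l1.1)
      have := mL (D ⊔ zpowers (l * a * l⁻¹)) _ (left_lt_sup.2 (mt zpowers_le.1 aD)) (sup_le hD.1 (zpowers_le.2 l2)) k (cj_le_iff.1 (by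
        rw [cj_sup, cj_eq_of_mem_normalizer k, cj_zpowers]
        exact sup_le hD.1 (zpowers_le.2 (show _ ∈ P by simpa [mul_assoc] using m2))))
      exact ⟨g, show g.1 ∈ L by simpa [mul_assoc] using mul_mem (mul_mem (inv_mem m1) this) l1, rfl⟩⟩
  obtain ⟨X, _, x1, x2⟩ := exists_X nc
  have s := QuotientGroup.mk'_surjective (D.subgroupOf N)
  have ri : ∀ Y ≤ N, D.relIndex Y = Nat.card ((Y.subgroupOf N).map f) := fun Y h => by
    rw [← relIndex_subgroupOf h, ← relIndex_ker, QuotientGroup.ker_mk']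
  let X' := (X.comap f).map N.subtype
  have e' : X'.subgroupOf N = X.comap f := map_subtype_subgroupOf _
  have DX : D ≤ X' := (map_subgroupOf_eq_of_le le_normalizer).ge.trans (map_mono (QuotientGroup.le_comap_mk' _ _))
  have pX : p ∣ D.relIndex X' := by rwa [ri _ (map_subtype_le _), e', map_comap_eq_self_of_surjective s]
  have hX := hT.inf_of_le (map_subtype_le (X.comap f)) (le_normalizer_map_subtype _)
  obtain ⟨y, y1, n, n1, rfl⟩ := hX.frattini' (le_normalizer_map_subtype _) hx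
  obtain ⟨S, -, hS⟩ := hX.exists_sylow
  obtain ⟨t, t1, u, u1, h⟩ := mem_sup_of_normal_right.1 (((sup_comm ..).trans (H03.pResidual_sup_sylow S)).ge (mem_top ⟨n, n1⟩))
  obtain rfl : t.1 * u.1 = n := congrArg Subtype.val h
  have yL : y ∈ L := mL (P.1 ⊓ N ⊓ X') y ((le_inf DT.le DX).lt_of_ne fun h => hX.not_dvd (h ▸ pX)) (inf_le_left.trans inf_le_left)
    ((mul_mem_cancel_right (map_subtype_le _ n1)).1 hx) fun a ha => ((mem_normalizer_iff.1 y1 a).1 ha).1.1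
  obtain ⟨y₂, a, h₂, b, c⟩ := fin _ (mul_mem yL (TL (hS.le ⟨t, t1, rfl⟩).1))
  have uN : u.1 ∈ N := map_subtype_le _ u.2
  refine ⟨y₂, a, h₂ * u, Ch.mul _ _ _ (Ch.single ⟨(D, X'), ⟨hD, nc, ⟨DX, map_subtype_le _, e' ▸ inferInstance, pX, fun Y a b c d => ?_⟩,
    inv_mem ⟨u, u1, rfl⟩⟩, le_rfl⟩) (by rwa [cj_eq_of_mem_normalizer uN]), ?_⟩
  · refine map_le_iff_le_comap.2 ((comap_mono (x2 _ (c.map f s) (ri Y b ▸ d))).trans ?_)
    rw [comap_map_eq, QuotientGroup.ker_mk']; exact sup_le le_rfl (comap_mono a)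
  · have := cj_centralizer u.1 D
    rw [cj_eq_of_mem_normalizer uN (H := D)] at this
    simpa [mul_assoc] using mem_cj.1 (this.ge c)

theorem main (P : Sylow p G) (A : Subgroup G) (g : G) (hA : A ≤ P) (hg : ∀ a ∈ A, g * a * g⁻¹ ∈ P) : M₀ p P A g := by
  have : ∀ n (A : Subgroup G) g, A ≤ P → (∀ a ∈ A, g * a * g⁻¹ ∈ P) → Nat.card G < Nat.card A + n → M p P A g := fun n => by
    induction n with
    | zero => exact fun A _ _ _ h => absurd (card_le_card_group A) h.not_ge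
    | succ n ih =>
      refine H05.alperin_goldschmidt P (fun A g => Nat.card G < Nat.card A + (n + 1) → M p P A g) (fun A B g h1 h2 h3 y hy => ?_)
        (fun A g h h1 h2 h3 => by
          have a := h1 h3
          have b := h2 (by rwa [card_cj])
          exact a.mul b) (fun A _ c hc _ y hy => ⟨y⁻¹, inv_mem hy, 1, .one, ?_⟩)
        fun D hD x hx h y hy => ?_
      · obtain ⟨y₁, a1, h, a2, a3⟩ := h2 (by have := card_le_of_le h1; omega) y hy
        exact ⟨y₁, a1, h, Ch.mono (fun A B x hAB ⟨T, h1, h2⟩ => ⟨T, h1, hAB.trans h2⟩) _ _ h (cj_mono y h1) a2,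
          centralizer_le (cj_mono y h1) a3⟩
      · rw [← cj_centralizer]; simpa [mul_assoc] using conj_mem_cj (g := y) hc
      · obtain ⟨y₁, a, k, b, c⟩ := base P (Gd.cj (D := D) ⟨hD.le, by rw [inf_relIndex_right]; exact hD.syl, hD.centric,
          le_antisymm (hD.prod.2.2.2.2.ge.trans (sup_le (le_sup_of_le_right fun a ha b hb => (hD.prod.2.2.1 a ha b hb).symm) le_sup_left))
            (sup_le hD.prod.2.1 hD.cent)⟩ hy) (fun B g a b c => ih B g b c (by have := H04.card_lt_of_lt a; rw [card_cj] at this; omega))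
          (x := y * x * y⁻¹) (cj_normalizer y D ▸ conj_mem_cj hx)
        exact ⟨y⁻¹ * y₁, mul_mem (inv_mem hy) a, k, b, by simpa [mul_assoc] using c⟩
  simpa only [cj_one, inv_one, mul_one] using this (Nat.card G + 1) A g hA hg (by omega) 1 (one_mem _)

end H12.Alp
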