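import Cfsg.Agent.H24.PSolv
import Cfsg.Agent.H01.Hall

/-!
# Automizers of order divisible by `q`; Hall `{p,q}`-subgroups of `p`-soluble groups
-/

namespace H12.Atm
open Subgroup Cfsg H24

universe u
variable {G : Type u} [Group G] {p q : ℕ}

theorem lt_top' [Finite G] {M : Subgroup G} (h : M ≠ ⊤) : Nat.card M < Nat.card G :=
  (card_le_card_group M).lt_of_ne fun e => h (eq_top_of_card_eq M e)

theorem hall_pq [hp : Fact p.Prime] [hq : Fact q.Prime] (G : Type u) [Group G] [Finite G] (h : IsPSolvable p G) :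
    ∃ D : Subgroup G, H01.PiNum {p, q} (Nat.card D) ∧ H01.PiNum {p, q}ᶜ D.index := by
  induction hn : Nat.card G using Nat.strong_induction_on generalizing G with | _ n ih => ?_
  subst hn
  have quo : ∀ (M : Subgroup G) [M.Normal], M ≠ ⊥ → ∃ D : Subgroup G, M ≤ D ∧ H01.PiNum {p, q} (M.relIndex D) ∧ H01.PiNum {p, q}ᶜ D.index :=
    fun M _ h1 => by
      obtain ⟨D, a, b⟩ := ih _ (by
        rw [← M.index_eq_card, ← M.card_mul_index]
        exact lt_mul_left (Nat.pos_of_ne_zero index_ne_zero_of_finite) ((one_lt_card_iff_ne_bot M).2 h1)) (G ⧸ M) (PS.quotient h M) rfl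
      exact ⟨D.comap (QuotientGroup.mk' M), QuotientGroup.le_comap_mk' M D, by
        rwa [relIndex_eq_card_map, map_comap_eq_self_of_surjective (QuotientGroup.mk'_surjective M)],
        by rwa [index_comap_of_surjective _ (QuotientGroup.mk'_surjective M)]⟩
  have pi : ∀ (M : Subgroup G) [M.Normal], M ≠ ⊥ → H01.PiNum {p, q} (Nat.card M) → ∃ D : Subgroup G, H01.PiNum {p, q} (Nat.card D) ∧
      H01.PiNum {p, q}ᶜ D.index := fun M _ h1 h2 => by
    obtain ⟨D, a, b, c⟩ := quo M h1
    exact ⟨D, by rw [← H01.card_mul_relIndex a]; exact h2.mul b, c⟩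
  rcases subsingleton_or_nontrivial G with _ | _
  · exact ⟨⊤, by simpa using H01.piNum_one _, by simpa using H01.piNum_one _⟩
  obtain ⟨M, _, m1, -, m2 | m2⟩ := PS.exists_normal_le ⊤ (PS.top_iff.2 h) top_ne_bot
  · exact pi M m1 (H01.piNum_of_isPGroup hp.out m2 (by simp))
  obtain ⟨Q⟩ : Nonempty (Sylow q M) := inferInstance
  by_cases e : normalizer (Q.map M.subtype : Set G) = ⊤
  · have := normalizer_eq_top_iff.1 e
    by_cases e1 : Q.map M.subtype = ⊥
    · obtain ⟨D, a, b, c⟩ := quo M m1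
      have m3 : H01.PiNum {p, q}ᶜ (Nat.card M) := by
        rintro r hr d (rfl | rfl)
        · exact hr.one_lt.ne' (Nat.eq_one_of_dvd_coprimes m2 d dvd_rfl)
        · refine Q.not_dvd_index ?_
          rwa [(map_eq_bot_iff_of_injective _ M.subtype_injective).1 e1, index_bot]
      have cM := Nat.card_congr (subgroupOfEquivOfLe a).toEquiv
      obtain ⟨K, hK⟩ := exists_right_complement'_of_coprime (N := M.subgroupOf D) (cM ▸ (b.coprime m3).symm)
      refine ⟨K.map D.subtype, by rwa [card_subtype, ← hK.symm.index_eq_card], ?_⟩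
      rw [index_map_subtype, hK.index_eq_card, cM]
      exact m3.mul c
    · exact pi _ e1 (H01.piNum_of_isPGroup hq.out (Q.2.map _) (by simp))
  · obtain ⟨D, a, b⟩ := ih _ (lt_top' e) _ (PS.subgroup h _) rfl
    refine ⟨D.map (Subgroup.subtype _), by rwa [card_subtype], ?_⟩
    rw [index_map_subtype]
    refine b.mul ?_
    have h1 := H01.card_sup_mul_card_inf (normalizer (Q.map M.subtype : Set G)) M
    rw [Q.normalizer_sup_eq_top, card_top, ← (normalizer (Q.map M.subtype : Set G)).card_mul_index, mul_assoc,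
      mul_right_inj' Nat.card_pos.ne', ← Q.1.card_mul_index, ← card_subtype M Q, ← H01.card_mul_relIndex
        (le_inf le_normalizer (map_subtype_le _)), mul_left_comm, mul_right_inj' Nat.card_pos.ne'] at h1
    rintro r hr d (rfl | rfl)
    · exact hr.one_lt.ne' (Nat.eq_one_of_dvd_coprimes m2 ((d.trans ⟨_, h1.symm⟩).trans Q.1.index_dvd_card) dvd_rfl)
    · exact Q.not_dvd_index (d.trans ⟨_, h1.symm⟩)

/-- `q` divides the order of the automizer -/
def Q (q : ℕ) (H : Subgroup G) : Prop := ∃ x ∈ normalizer (H : Set G), ∀ m : ℕ, x ^ m ∈ centralizer (H : Set G) → q ∣ m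

theorem Q_iff [Finite G] [hq : Fact q.Prime] {H : Subgroup G} :
    Q q H ↔ q ∣ ((centralizer (H : Set G)).subgroupOf (normalizer (H : Set G))).index := by
  refine ⟨fun ⟨x, hx, h⟩ => h _ (pow_index_mem (H := (centralizer (H : Set G)).subgroupOf (normalizer (H : Set G))) ⟨x, hx⟩), fun h => ?_⟩
  obtain ⟨x, hx⟩ := exists_prime_orderOf_dvd_card' q (h.trans (index_eq_card _).dvd)
  obtain ⟨x, rfl⟩ := QuotientGroup.mk_surjective x
  exact ⟨x, x.2, fun m hm => hx ▸ orderOf_dvd_of_pow_eq_one ((QuotientGroup.eq_one_iff (x ^ m)).2 hm)⟩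

theorem Q_of [hq : Fact q.Prime] {H : Subgroup G} {x : G} {k : ℕ} (h1 : x ∈ normalizer (H : Set G)) (h2 : x ^ q ^ k = 1)
    (h3 : x ∉ centralizer (H : Set G)) : Q q H := ⟨x, h1, fun m hm => by_contra fun n => h3 (by
  obtain ⟨j, hj⟩ := exists_pow_eq_self_of_coprime (x := x) (n := m) (((hq.out.coprime_iff_not_dvd.2 n).symm.pow_right k).coprime_dvd_right
    (orderOf_dvd_of_pow_eq_one h2))
  exact hj ▸ pow_mem hm j)⟩

theorem Q.elt [Finite G] [hq : Fact q.Prime] {H : Subgroup G} (h : Q q H) :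
    ∃ x ∈ normalizer (H : Set G), (∃ k, x ^ q ^ k = 1) ∧ x ∉ centralizer (H : Set G) := by
  obtain ⟨x, hx, h⟩ := h
  obtain ⟨k, m, n, e⟩ := Nat.exists_eq_pow_mul_and_not_dvd (orderOf_pos x).ne' q hq.out.ne_one
  exact ⟨x ^ m, pow_mem hx m, ⟨k, by rw [← pow_mul, mul_comm, ← e, pow_orderOf_eq_one]⟩, fun c => n (h m c)⟩

theorem pow_cent {H : Subgroup G} {x y : G} (hy : y ∈ normalizer (H : Set G)) (e : ∀ a ∈ H, x * a * x⁻¹ = y * a * y⁻¹) (m : ℕ)
    (h : y ^ m ∈ centralizer (H : Set G)) : x ^ m ∈ centralizer (H : Set G) := fun a ha => by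
  have : ∀ m : ℕ, ∀ a ∈ H, x ^ m * a * (x ^ m)⁻¹ = y ^ m * a * (y ^ m)⁻¹ := fun m => by
    induction m with
    | zero => simp
    | succ m ih =>
      intro a ha
      have := ih _ ((mem_normalizer_iff.1 hy a).1 ha)
      nth_rw 1 [← e a ha] at this
      simpa [pow_succ, mul_assoc] using this
  rw [eq_comm, ← mul_inv_eq_iff_eq_mul, this m a ha, ← h a ha, mul_inv_cancel_right]

/-- all automizers are `p`-soluble -/
def HS (p : ℕ) (G : Type u) [Group G] : Prop := ∀ H : Subgroup G, IsPGroup p H →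
  IsPSolvable p (normalizer (H : Set G) ⧸ (centralizer (H : Set G)).subgroupOf (normalizer (H : Set G)))

theorem HS.sub [Finite G] [Fact p.Prime] (h : HS p G) (M : Subgroup G) : HS p M := fun H hH => by
  let f : normalizer (H : Set M) →* normalizer (H.map M.subtype : Set G) :=
    (M.subtype.comp (Subgroup.subtype _)).codRestrict _ fun x => le_normalizer_map M.subtype ⟨x, x.2, rfl⟩
  refine PS.of_injective (h _ (hH.map M.subtype)) (QuotientGroup.map _ _ f fun x hx => ?_) ((injective_iff_map_eq_one _).2 ?_)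
  · rintro _ ⟨a, ha, rfl⟩; exact congrArg Subtype.val (hx a ha)
  · rintro ⟨x⟩ hx
    exact (QuotientGroup.eq_one_iff x).2 fun a ha => Subtype.ext ((QuotientGroup.eq_one_iff (f x)).1 hx a.1 ⟨a, ha, rfl⟩)

theorem HS.quot [Finite G] [Fact p.Prime] (h : HS p G) (W : Subgroup G) [W.Normal] (hW : IsPGroup p W) : HS p (G ⧸ W) := fun H hH => by
  have s := QuotientGroup.mk'_surjective W
  have e := comap_normalizer_eq_of_surjective H s
  let f : normalizer (H.comap (QuotientGroup.mk' W) : Set G) →* normalizer (H : Set (G ⧸ W)) :=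
    ((QuotientGroup.mk' W).comp (Subgroup.subtype _)).codRestrict _ fun x => e.ge x.2
  refine PS.of_surjective (h _ (hH.comap_of_ker_isPGroup _ (by rwa [QuotientGroup.ker_mk']))) (QuotientGroup.map _ _ f fun x hx => ?_)
    (QuotientGroup.map_surjective_of_surjective _ _ _ (QuotientGroup.mk_surjective.comp fun ⟨x, hx⟩ => ?_) _)
  · rintro ⟨a⟩ ha; exact congrArg (QuotientGroup.mk' W) (hx a ha)
  · obtain ⟨x, rfl⟩ := s x; exact ⟨⟨x, e.le hx⟩, rfl⟩

end H12.Atm
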