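import Mathlib
import Cfsg.Agent.H19.Dm0
import Cfsg.Agent.S0058

/-!
# Part AB3 of the 3-local characterization of `S₈`
-/

set_option synthInstance.maxSize 4000

namespace H12.Dm
open Subgroup H19.Dm

variable {X : Type*} [Group X] [Finite X]

theorem dih {x y : X} (hx : x * x = 1) (hy : y * y = 1) :
    IsConj x y ∨ ∃ k : X, k ≠ 1 ∧ k * k = 1 ∧ k * x = x * k ∧ k * y = y * k := by
  have e : y = (x * y)⁻¹ * x := by rw [eq_inv_mul_iff_mul_eq, mul_assoc, hy, mul_one]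
  have s : SemiconjBy x (x * y)⁻¹ (x * y) := by
    rw [SemiconjBy, mul_inv_rev, inv_eq_of_mul_eq_one_right hx, inv_eq_of_mul_eq_one_right hy, mul_assoc]
  generalize x * y = r at *
  have o := pow_orderOf_eq_one r
  have := orderOf_pos r
  obtain ⟨j, hj | hj⟩ := Nat.even_or_odd' (orderOf r)
  · have k2 : r ^ j * r ^ j = 1 := by rw [← pow_add, ← two_mul, ← hj, o]
    have k3 : r ^ j * x = x * r ^ j := by rw [← (s.pow_right j).eq, inv_pow, inv_eq_of_mul_eq_one_right k2]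
    refine .inr ⟨r ^ j, pow_ne_one_of_lt_orderOf (by omega) (by omega), k2, k3, ?_⟩
    rw [e, mul_assoc, ← k3, ← mul_assoc, ← mul_assoc, ((Commute.refl r).pow_left j).inv_right.eq]
  · refine .inl (isConj_iff.2 ⟨r ^ j, ?_⟩)
    rw [mul_assoc, ← inv_pow, (s.pow_right j).eq, ← mul_assoc, ← pow_add, e, ← two_mul,
      eq_inv_of_mul_eq_one_left (show r ^ (2 * j) * r = 1 by rw [← pow_succ, ← hj, o])]

theorem syl (n : ¬ 32 ∣ Nat.card X) {K H : Subgroup X} (hK : Nat.card K = 16) (l : K ≤ H) :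
    ∃ P : Sylow 2 H, (P : Subgroup H) = K.subgroupOf H := by
  have c : Nat.card (K.subgroupOf H) = 16 := (Nat.card_congr (subgroupOfEquivOfLe l).toEquiv).trans hK
  refine ⟨(IsPGroup.of_card (n := 4) c).toSylow fun ⟨m, r⟩ => n (Dvd.dvd.trans ⟨m, ?_⟩ H.card_subgroup_dvd_card), rfl⟩
  rw [← (K.subgroupOf H).card_mul_index, c, r]; ring

theorem scj (n : ¬ 32 ∣ Nat.card X) {K K' H : Subgroup X} (hK : Nat.card K = 16) (l : K ≤ H) (hK' : Nat.card K' = 16) (l' : K' ≤ H) :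
    ∃ c ∈ H, ∀ x ∈ K, c * x * c⁻¹ ∈ K' := by
  obtain ⟨P, p⟩ := syl n hK l
  obtain ⟨Q, q⟩ := syl n hK' l'
  obtain ⟨c, e⟩ := MulAction.exists_smul_eq H P Q
  refine ⟨c, c.2, fun x hx => ?_⟩
  have := smul_mem_pointwise_smul (⟨x, l hx⟩ : H) (MulAut.conj c) P (p ▸ hx)
  rw [← Sylow.coe_subgroup_smul, e, q] at this
  exact this

theorem f1 : ∀ x : A5, a1 * x = x * a1 → x = 1 ∨ x = a1 ∨ x = a2 ∨ x = a1 * a2 := by decide +kernel
theorem f2 : ∀ x : A5, x * x = 1 → ∃ y, y * x * y⁻¹ = 1 ∨ y * x * y⁻¹ = a1 := by decide +kernel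
theorem f3 : a1 * a2 = a2 * a1 ∧ a1 * a1 = 1 ∧ a2 * a2 = 1 ∧ a1 ≠ 1 ∧ (Finset.univ.filter fun x : A5 => a1 * x = x * a1).card = 4 := by
  decide +kernel

theorem cV : Nat.card (centralizer {a1} : Subgroup A5) = 4 := by
  rw [← f3.2.2.2.2, ← Fintype.card_subtype, ← Nat.card_eq_fintype_card]
  exact Nat.card_congr (Equiv.subtypeEquivRight fun x => by simp [mem_centralizer_iff])

theorem sV : ∀ x ∈ (centralizer {a1} : Subgroup A5), x * x = 1 := fun x hx => by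
  obtain rfl | rfl | rfl | rfl := f1 x (hx _ rfl)
  exacts [one_mul _, f3.2.1, f3.2.2.1, by rw [mul_assoc, ← mul_assoc a2, ← f3.1, mul_assoc, f3.2.2.1, mul_one, f3.2.1]]

theorem mV : ∀ x ∈ (centralizer {a1} : Subgroup A5), ∀ y ∈ (centralizer {a1} : Subgroup A5), x * y = y * x := fun x hx y hy => by
  rw [← inv_eq_of_mul_eq_one_right (sV _ (mul_mem hx hy)), mul_inv_rev, inv_eq_of_mul_eq_one_right (sV x hx),
    inv_eq_of_mul_eq_one_right (sV y hy)]

omit [Finite X] in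
theorem eE (φ : A5 × A5 →* X) : E φ = ((centralizer {a1}).prod (centralizer {a1})).map φ := by
  have m1 : a1 ∈ (centralizer {a1} : Subgroup A5) := mem_centralizer_singleton_iff.2 rfl
  have m2 : a2 ∈ (centralizer {a1} : Subgroup A5) := mem_centralizer_singleton_iff.2 f3.1.symm
  refine le_antisymm ((closure_le _).2 ?_) ?_
  · rintro _ (rfl | rfl | rfl | rfl) <;> exact ⟨_, ⟨by simp [m1, m2], by simp [m1, m2]⟩, rfl⟩
  rintro _ ⟨⟨x, y⟩, ⟨hx, hy⟩, rfl⟩
  have g : ∀ {a}, a ∈ ({φ (a1, 1), φ (a2, 1), φ (1, a1), φ (1, a2)} : Set X) → a ∈ E φ := fun h => subset_closure h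
  rw [show (x, y) = (x, 1) * (1, y) by simp, map_mul]
  refine mul_mem ?_ ?_
  · obtain rfl | rfl | rfl | rfl := f1 x (hx _ rfl)
    exacts [φ.map_one ▸ one_mem _, g (by simp), g (by simp), by simpa [← map_mul] using mul_mem (g (.inl rfl)) (g (.inr (.inl rfl)))]
  · obtain rfl | rfl | rfl | rfl := f1 y (hy _ rfl)
    exacts [φ.map_one ▸ one_mem _, g (by simp), g (by simp), by
      simpa [← map_mul] using mul_mem (g (.inr (.inr (.inl rfl)))) (g (.inr (.inr (.inr rfl))))]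

omit [Finite X] in
theorem cj {R : Subgroup X} {k r : X} (hk : k ∈ R) (h : centralizer {k * r * k⁻¹} ≤ R) : centralizer {r} ≤ R := fun g hg => by
  have := h (x := k * g * k⁻¹) (mem_centralizer_singleton_iff.2 (by
    rw [show k * g * k⁻¹ * (k * r * k⁻¹) = k * (g * r) * k⁻¹ by group, mem_centralizer_singleton_iff.1 hg]; group))
  simpa [mul_assoc] using mul_mem (mul_mem (inv_mem hk) this) hk

theorem ab3 {φ : A5 × A5 →* X} (h : AB φ) (h1 : AB1 φ) (h2 : AB2 φ) : φ.range = ⊤ := by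
  have cE : Nat.card (E φ) = 16 := by
    rw [eE, card_map_of_injective h.inj, Nat.card_congr (prodEquiv _ _).toEquiv, Nat.card_prod, cV]
  have aE : ∀ x ∈ E φ, ∀ y ∈ E φ, x * y = y * x := by
    rw [eE]; rintro _ ⟨x, hx, rfl⟩ _ ⟨y, hy, rfl⟩
    rw [← map_mul, ← map_mul, show x * y = y * x from Prod.ext (mV _ hx.1 _ hy.1) (mV _ hx.2 _ hy.2)]
  have m1 : a1 ∈ (centralizer {a1} : Subgroup A5) := mem_centralizer_singleton_iff.2 rfl
  have ER : E φ ≤ φ.range := eE φ ▸ map_le_range _ _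
  have c3 : centralizer {φ (a1, a1)} ≤ φ.range := by
    have l : E φ ≤ centralizer {φ (a1, a1)} := fun x hx =>
      mem_centralizer_singleton_iff.2 (aE x hx _ (eE φ ▸ ⟨_, ⟨m1, m1⟩, rfl⟩))
    obtain ⟨P, p⟩ := syl h.n32 cE l
    replace p : ∀ x : (centralizer {φ (a1, a1)} : Subgroup X), x ∈ P.toSubgroup ↔ x.1 ∈ E φ := fun x => by rw [p]; rfl
    have hP : normalizer (P : Set (centralizer {φ (a1, a1)} : Subgroup X)) ≤ centralizer (P : Set (centralizer {φ (a1, a1)} : Subgroup X)) := by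
      rintro ⟨g, hg⟩ n ⟨y, hy⟩ r
      obtain ⟨⟨a, b⟩, rfl⟩ := h1 (x := g) (mem_normalizer_fintype fun x hx => (p _).1 ((n ⟨x, l hx⟩).1 ((p _).2 hx)))
      have := mem_centralizer_singleton_iff.1 hg
      rw [← map_mul, ← map_mul, h.inj.eq_iff, Prod.ext_iff] at this
      exact Subtype.ext (aE y ((p _).1 r) _
        (eE φ ▸ ⟨_, ⟨mem_centralizer_singleton_iff.2 this.1, mem_centralizer_singleton_iff.2 this.2⟩, rfl⟩))
    have cp := MonoidHom.ker_transferSylow_isComplement' P hP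
    have od := MonoidHom.not_dvd_card_ker_transferSylow P hP
    have nr : (MonoidHom.transferSylow P hP).ker.Normal := inferInstance
    generalize (MonoidHom.transferSylow P hP).ker = O at *
    set A := ((centralizer {a1} : Subgroup A5).prod ⊥).map φ with eA
    have AE : A ≤ E φ := eE φ ▸ map_mono (prod_mono le_rfl bot_le)
    have cA : Nat.card A = 4 := by
      rw [eA, card_map_of_injective h.inj, Nat.card_congr (prodEquiv _ _).toEquiv, Nat.card_prod, cV]; simp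
    have sA : ∀ x ∈ A, ∃ y, y * y = 1 ∧ x = φ (y, 1) := by
      rintro _ ⟨⟨x, y⟩, ⟨hx, hy⟩, rfl⟩
      obtain rfl : y = 1 := hy
      exact ⟨x, sV x hx, rfl⟩
    have : IsMulCommutative A := ⟨⟨fun x y => Subtype.ext (aE _ (AE x.2) _ (AE y.2))⟩⟩
    have g := Cfsg.Agent.S0058.result A (O.map (Subgroup.subtype _)) (fun c => by
      obtain ⟨⟨x, hx⟩, r⟩ := c.exists_ofOrder_eq_natCard
      obtain ⟨y, y1, rfl⟩ := sA x hx
      have := orderOf_dvd_of_pow_eq_one (x := (⟨_, hx⟩ : A)) (n := 2) (Subtype.ext (by simp [sq, ← map_mul, y1, Prod.one_eq_mk.symm]))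
      rw [r, cA] at this; omega) (fun a ha => mem_normalizer_fintype (by
        rintro _ ⟨x, hx, rfl⟩; exact ⟨_, nr.conj_mem x hx ⟨a, l (AE ha)⟩, rfl⟩)) (by
      rw [cA, card_map_of_injective (subtype_injective _)]
      exact Nat.Coprime.pow_left 2 ((Nat.Prime.coprime_iff_not_dvd Nat.prime_two).2 od))
    have OR : O.map (Subgroup.subtype _) ≤ φ.range := g ▸ iSup₂_le fun a ha => inf_le_right.trans (by
      obtain ⟨y, y1, rfl⟩ := sA a ha.1
      obtain ⟨k, r | r⟩ := f2 y y1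
      · exact (ha.2 (by rw [show y = 1 by simpa using r]; exact φ.map_one)).elim
      · exact cj (k := φ (k, 1)) ⟨_, rfl⟩ (by simpa [← map_mul, ← map_inv, r] using h2.1))
    intro x hx
    obtain ⟨⟨⟨a, ha⟩, ⟨b, hb⟩⟩, r⟩ := cp.existsUnique ⟨x, hx⟩ |>.exists
    rw [← show (a : X) * b = x from congrArg Subtype.val r]
    exact mul_mem (OR ⟨a, ha, rfl⟩) (ER ((p _).1 hb))
  have cen : ∀ r ∈ φ.range, r * r = 1 → r ≠ 1 → centralizer {r} ≤ φ.range ∧ ∃ k ∈ φ.range, k * r * k⁻¹ ∈ E φ := by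
    rintro _ ⟨⟨x, y⟩, rfl⟩ s r
    rw [← map_mul, ← φ.map_one, h.inj.eq_iff, Prod.ext_iff] at s
    obtain ⟨k, hk⟩ := f2 x s.1
    obtain ⟨l, hl⟩ := f2 y s.2
    have e : φ (k, l) * φ (x, y) * (φ (k, l))⁻¹ = φ (k * x * k⁻¹, l * y * l⁻¹) := by simp [← map_mul, ← map_inv]
    refine ⟨cj (k := φ (k, l)) ⟨_, rfl⟩ ?_, _, ⟨(k, l), rfl⟩, ?_⟩
    · rw [e]
      obtain u | u := hk <;> obtain v | v := hl <;> rw [u, v]
      exacts [(r (by rw [show x = 1 by simpa using u, show y = 1 by simpa using v]; exact φ.map_one)).elim, h2.2, h2.1, c3]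
    · rw [e, eE]
      exact ⟨_, ⟨by obtain u | u := hk <;> simp [u, m1], by obtain u | u := hl <;> simp [u, m1]⟩, rfl⟩
  have fus : ∀ g, ∀ r ∈ E φ, r * r = 1 → r ≠ 1 → g * r * g⁻¹ ∈ φ.range → g ∈ φ.range := fun g r r1 r2 r3 r4 => by
    obtain ⟨-, k, k1, k2⟩ := cen _ r4 (by simp [conj_mul, r2]) (by simpa)
    rw [show k * (g * r * g⁻¹) * k⁻¹ = k * g * r * (k * g)⁻¹ by group] at k2
    rw [← mul_mem_cancel_left k1]
    generalize k * g = g at k2
    obtain ⟨c, c1, c2⟩ := scj h.n32 (K := (E φ).map (MulAut.conj g).toMonoidHom) (H := centralizer {g * r * g⁻¹})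
      ((card_map_of_injective (MulAut.conj g).injective).trans cE) (by
        rintro _ ⟨x, hx, rfl⟩; exact mem_centralizer_singleton_iff.2 (by simp [conj_mul, aE x hx r r1])) cE
      fun x hx => mem_centralizer_singleton_iff.2 (aE x hx _ k2)
    rw [← mul_mem_cancel_left ((cen _ (ER k2) (by simp [conj_mul, r2]) (by simpa)).1 c1)]
    exact h1 (mem_normalizer_fintype fun x hx => by simpa [mul_assoc] using c2 _ ⟨x, hx, rfl⟩)
  have e1 : φ (a1, 1) ∈ E φ := subset_closure (by simp)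
  have e2 : φ (1, a1) ∈ E φ := subset_closure (by simp)
  have s1 : φ (a1, 1) * φ (a1, 1) = 1 := by rw [← map_mul, ← φ.map_one]; simp [f3.2.1, Prod.one_eq_mk]
  have s2 : φ (1, a1) * φ (1, a1) = 1 := by rw [← map_mul, ← φ.map_one]; simp [f3.2.1, Prod.one_eq_mk]
  have n1 : φ (a1, 1) ≠ 1 := by rw [← φ.map_one, h.inj.ne_iff]; simp [f3.2.2.2.1]
  have n2 : φ (1, a1) ≠ 1 := by rw [← φ.map_one, h.inj.ne_iff]; simp [f3.2.2.2.1]
  refine eq_top_iff.2 fun g _ => ?_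
  obtain r | ⟨k, k1, k2, k3, k4⟩ := dih s1 (y := g * φ (1, a1) * g⁻¹) (by simp [conj_mul, s2])
  · obtain ⟨c, r⟩ := isConj_iff.1 r
    replace r : g⁻¹ * c * φ (a1, 1) * (g⁻¹ * c)⁻¹ = φ (1, a1) := by rw [← mul_left_cancel_iff (a := g), ← mul_right_cancel_iff (a := g⁻¹), ← r]; group
    obtain ⟨⟨a, b⟩, e⟩ := fus _ _ e1 s1 n1 (r ▸ ER e2)
    rw [← e, ← map_mul, ← map_inv, ← map_mul, h.inj.eq_iff] at r
    simp [f3.2.2.2.1] at r
  exact fus _ _ e2 s2 n2 ((cen k ((cen _ (ER e1) s1 n1).1 (mem_centralizer_singleton_iff.2 k3)) k2 k1).1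
    (mem_centralizer_singleton_iff.2 k4.symm))

end H12.Dm
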