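import Mathlib
import Cfsg.Prelude.Def_RootSubgroups
import Cfsg.Agent.H09.SLBasic

/-! # Root subgroups given by extremal elements of an algebra (namespace `H12.Ext`)

For an injective `ρ : G →* R` into a `k`-algebra and a set `E` of square zero elements with
`N M N = l N`, `M N M = l M` (`Sys k ρ E`), the groups `rt k ρ N = {1 + c N}` form a set of
`k`-root subgroups: `Sys.isK`, `Sys.degenerate`, `Sys.connected`, `Sys.cls`, `Sys.hom`. -/

set_option autoImplicit false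
open Cfsg
open scoped commutatorElement

namespace H12.Ext

variable (k : Type*) {R G : Type*} [Field k] [Ring R] [Algebra k R] [Group G] (ρ : G →* R)

/-- The root subgroup of `N`. -/
def rt (N : R) : Subgroup G := Subgroup.closure {g | ∃ c : k, ρ g = 1 + c • N}

/-- The family of root subgroups. -/
def fam (E : Set R) : Set (Subgroup G) := {A | ∃ N ∈ E, A = rt k ρ N}

/-- Opposite elements. -/
def Opp (N M : R) : Prop := ∃ l : k, l ≠ 0 ∧ N * M * N = l • N ∧ M * N * M = l • M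

structure Sys (E : Set R) : Prop where
  inj : Function.Injective ρ
  sq : ∀ N ∈ E, N * N = 0
  ne : ∀ N ∈ E, N ≠ 0
  ex : ∀ N ∈ E, ∀ c : k, ∃ g, ρ g = 1 + c • N
  conj : ∀ N ∈ E, ∀ g, ρ g * N * ρ g⁻¹ ∈ E
  pair : ∀ N ∈ E, ∀ M ∈ E, ∃ l : k, N * M * N = l • N ∧ M * N * M = l • M ∧
    (l = 0 → N * M = M * N ∨ N * M - M * N ∈ E)

variable {k ρ}

theorem mul_one_add {N : R} (hN : N * N = 0) (c d : k) :
    (1 + c • N) * (1 + d • N) = 1 + (c + d) • N := by
  simp only [mul_add, add_mul, one_mul, mul_one, smul_mul_smul_comm, hN, smul_zero, add_zero,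
    add_smul]
  abel

theorem map_inv_eq {N : R} (hN : N * N = 0) {g : G} {c : k} (h : ρ g = 1 + c • N) :
    ρ g⁻¹ = 1 + (-c) • N := by
  have h1 : ρ g * (1 + (-c) • N) = 1 := by rw [h, mul_one_add hN]; simp
  calc ρ g⁻¹ = ρ g⁻¹ * (ρ g * (1 + (-c) • N)) := by rw [h1, mul_one]
    _ = _ := by rw [← mul_assoc, ← map_mul, inv_mul_cancel, map_one, one_mul]

theorem mem_rt {N : R} (hN : N * N = 0) {g : G} : g ∈ rt k ρ N ↔ ∃ c : k, ρ g = 1 + c • N := by
  refine ⟨fun h => ?_, fun h => Subgroup.subset_closure h⟩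
  induction h using Subgroup.closure_induction with
  | mem x hx => exact hx
  | one => exact ⟨0, by simp⟩
  | mul x y _ _ hx hy =>
    obtain ⟨c, hc⟩ := hx
    obtain ⟨d, hd⟩ := hy
    exact ⟨c + d, by rw [map_mul, hc, hd, mul_one_add hN]⟩
  | inv x _ hx =>
    obtain ⟨c, hc⟩ := hx
    exact ⟨-c, map_inv_eq hN hc⟩

theorem rt_smul (N : R) {m : k} (hm : m ≠ 0) : rt k ρ (m • N) = rt k ρ N := by
  unfold rt
  congr 1
  ext g
  refine ⟨fun ⟨c, hc⟩ => ⟨c * m, by rw [hc, smul_smul]⟩, fun ⟨c, hc⟩ => ⟨c / m, ?_⟩⟩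
  rw [hc, smul_smul, div_mul_cancel₀ _ hm]

theorem conjBy_rt (N : R) (g : G) : conjBy (rt k ρ N) g = rt k ρ (ρ g * N * ρ g⁻¹) := by
  unfold rt conjBy
  rw [MonoidHom.map_closure]
  congr 1
  ext x
  have e1 : ρ g * ρ g⁻¹ = 1 := by rw [← map_mul]; simp
  have e2 : ρ g⁻¹ * ρ g = 1 := by rw [← map_mul]; simp
  constructor
  · rintro ⟨y, ⟨c, hc⟩, rfl⟩
    refine ⟨c, ?_⟩
    simp only [MulEquiv.toMonoidHom_eq_coe, MonoidHom.coe_coe, MulAut.conj_apply, map_mul, hc,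
      mul_add, add_mul, mul_one, e1, mul_smul_comm, smul_mul_assoc]
  · rintro ⟨c, hc⟩
    refine ⟨g⁻¹ * x * g, ⟨c, ?_⟩, by simp [mul_assoc]⟩
    simp only [map_mul, hc, mul_add, add_mul, mul_one, e2, mul_smul_comm, smul_mul_assoc]
    rw [← mul_assoc, ← mul_assoc, e2, one_mul, mul_assoc, e2, mul_one]

theorem comm_rt (hρ : Function.Injective ρ) {N M : R} (hN : N * N = 0) (hM : M * M = 0)
    (h : N * M = M * N) {a b : G} (ha : a ∈ rt k ρ N) (hb : b ∈ rt k ρ M) : a * b = b * a := by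
  obtain ⟨c, hc⟩ := (mem_rt hN).1 ha
  obtain ⟨d, hd⟩ := (mem_rt hM).1 hb
  apply hρ
  simp only [map_mul, hc, hd, mul_add, add_mul, one_mul, mul_one, smul_mul_smul_comm, h,
    mul_comm c d]
  abel

theorem isMulCommutative_rt (hρ : Function.Injective ρ) {N : R} (hN : N * N = 0) :
    IsMulCommutative (rt k ρ N) :=
  ⟨⟨fun a b => Subtype.ext (comm_rt hρ hN hN rfl a.2 b.2)⟩⟩

theorem commutator_eq_bot (hρ : Function.Injective ρ) {N M : R} (hN : N * N = 0) (hM : M * M = 0)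
    (h : N * M = M * N) : ⁅rt k ρ N, rt k ρ M⁆ = ⊥ := by
  rw [Subgroup.commutator_eq_bot_iff_le_centralizer]
  intro a ha
  rw [Subgroup.mem_centralizer_iff]
  intro b hb
  exact (comm_rt hρ hN hM h ha hb).symm

theorem ne_zero_of_ne_one (hρ : Function.Injective ρ) {N : R} {g : G} {c : k}
    (h : ρ g = 1 + c • N) (hg : g ≠ 1) : c ≠ 0 := by
  rintro rfl
  exact hg (hρ (by simpa using h))

theorem ne_one_of_ne_zero {N : R} (hN : N ≠ 0) {g : G} {c : k}
    (h : ρ g = 1 + c • N) (hc : c ≠ 0) : g ≠ 1 := by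
  rintro rfl
  rw [map_one, left_eq_add, smul_eq_zero] at h
  exact h.elim hc hN

theorem comm_formula {x y : R} (hx : x * x = 0) (hy : y * y = 0) (h1 : x * y * x = 0)
    (h2 : y * x * y = 0) :
    (1 + x) * (1 + y) * (1 - x) * (1 - y) = 1 + (x * y - y * x) := by
  have a1 : (1 + x) * (1 + y) * (1 - x) = 1 + y + x * y - y * x := by
    have : (1 + x) * (1 + y) * (1 - x) = 1 + y + x * y - y * x - x * x - x * y * x := by
      noncomm_ring
    rw [this, hx, h1]; simp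
  rw [a1]
  have : (1 + y + x * y - y * x) * (1 - y) =
      1 + (x * y - y * x) - y * y - x * (y * y) + y * x * y := by noncomm_ring
  rw [this, hy, h2]; simp

theorem map_comm {N M : R} (hN : N * N = 0) (hM : M * M = 0) (h1 : N * M * N = 0)
    (h2 : M * N * M = 0) {a b : G} {c d : k} (hc : ρ a = 1 + c • N) (hd : ρ b = 1 + d • M) :
    ρ (a * b * a⁻¹ * b⁻¹) = 1 + (c * d) • (N * M - M * N) := by
  rw [map_mul, map_mul, map_mul, map_inv_eq hN hc, map_inv_eq hM hd, hc, hd, neg_smul, neg_smul,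
    ← sub_eq_add_neg, ← sub_eq_add_neg, comm_formula]
  · simp only [smul_mul_smul_comm, smul_sub, mul_comm d c]
  all_goals simp only [smul_mul_smul_comm, hN, hM, h1, h2, smul_zero]

theorem rankOneCondition {E : Set R} (h : Sys k ρ E) {N M : R} (hN : N ∈ E) (hM : M ∈ E) {l : k}
    (hl : l ≠ 0) (h1 : N * M * N = l • N) (h2 : M * N * M = l • M) :
    RankOneCondition (rt k ρ N) (rt k ρ M) := by
  intro a ha ha1
  obtain ⟨c, hc⟩ := (mem_rt (h.sq N hN)).1 ha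
  have hc0 := ne_zero_of_ne_one h.inj hc ha1
  obtain ⟨b, hb⟩ := h.ex M hM (c * l)⁻¹
  have hcl : c * l ≠ 0 := mul_ne_zero hc0 hl
  refine ⟨b, (mem_rt (h.sq M hM)).2 ⟨_, hb⟩, ne_one_of_ne_zero (h.ne M hM) hb (inv_ne_zero hcl), ?_⟩
  rw [conjBy_rt, conjBy_rt, inv_inv, inv_inv, map_inv_eq (h.sq N hN) hc,
    map_inv_eq (h.sq M hM) hb, hb, hc,
    ← rt_smul (k := k) ((1 + -c • N) * M * (1 + c • N)) (m := -((c * l)⁻¹ ^ 2 * l))
      (neg_ne_zero.2 (mul_ne_zero (pow_ne_zero _ (inv_ne_zero hcl)) hl))]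
  congr 1
  simp only [mul_add, add_mul, one_mul, mul_one, smul_mul_assoc, mul_smul_comm, h1, h2, smul_add,
    smul_smul]
  match_scalars <;> field_simp

theorem Opp.symm {N M : R} (h : Opp k N M) : Opp k M N :=
  let ⟨l, h0, h1, h2⟩ := h; ⟨l, h0, h2, h1⟩

theorem Sys.rankOne {E : Set R} (h : Sys k ρ E) {N M : R} (hN : N ∈ E) (hM : M ∈ E)
    (ho : Opp k N M) : IsRankOnePair (rt k ρ N) (rt k ρ M) := by
  obtain ⟨l, hl, h1, h2⟩ := ho
  have nil : ∀ X ∈ E, Group.IsNilpotent (rt k ρ X) := fun X hX => by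
    have := isMulCommutative_rt (k := k) h.inj (h.sq X hX)
    exact ⟨1, Subgroup.upperCentralSeries_one_eq_top_iff.2 this⟩
  refine ⟨fun e => ?_, nil N hN, nil M hM, rankOneCondition h hN hM hl h1 h2,
    rankOneCondition h hM hN hl h2 h1⟩
  obtain ⟨a, ha⟩ := h.ex N hN 1
  have : a ∈ rt k ρ M := e ▸ (mem_rt (h.sq N hN)).2 ⟨1, ha⟩
  obtain ⟨c, hc⟩ := (mem_rt (h.sq M hM)).1 this
  have e2 : N = c • M := by simpa [ha] using hc
  have : l • M = 0 := by
    rw [← h2, e2, mul_smul_comm, h.sq M hM]; simp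
  exact h.ne M hM ((smul_eq_zero.1 this).resolve_left hl)

theorem Sys.opp_of_rankOne {E : Set R} (h : Sys k ρ E) {N M : R} (hN : N ∈ E) (hM : M ∈ E)
    (hr : IsRankOnePair (rt k ρ N) (rt k ρ M)) : Opp k N M := by
  obtain ⟨l, h1, h2, -⟩ := h.pair N hN M hM
  refine ⟨l, ?_, h1, h2⟩
  rintro rfl
  rw [zero_smul] at h1 h2
  have hNN := h.sq N hN
  have hMM := h.sq M hM
  obtain ⟨a, ha⟩ := h.ex N hN 1
  obtain ⟨b, hb, hb1, e⟩ := hr.cond_left a ((mem_rt hNN).2 ⟨1, ha⟩)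
    (ne_one_of_ne_zero (h.ne N hN) ha one_ne_zero)
  obtain ⟨d, hd⟩ := (mem_rt hMM).1 hb
  have hd0 := ne_zero_of_ne_one h.inj hd hb1
  have m1 : a⁻¹ * b * a ∈ conjBy (rt k ρ N) b⁻¹ := e ▸ ⟨b, hb, by simp⟩
  obtain ⟨a', ha', e'⟩ := m1
  obtain ⟨c, hc⟩ := (mem_rt hNN).1 ha'
  have e3 : a' = b * (a⁻¹ * b * a) * b⁻¹ := by
    rw [← e']; simp [mul_assoc]
  have e4 : c • N = d • (M - N * M + M * N) := by
    have := congrArg ρ e3
    rw [hc, map_mul, map_mul, map_mul, map_mul, map_inv_eq hNN ha, map_inv_eq hMM hd, ha, hd]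
      at this
    have t1 : (1 + (-1 : k) • N) * (1 + d • M) * (1 + (1 : k) • N) =
        1 + d • (M - N * M + M * N) := by
      simp only [mul_add, add_mul, one_mul, mul_one, smul_mul_assoc, mul_smul_comm, h1, hNN,
        smul_zero, smul_add, smul_sub, smul_smul]
      module
    have t2 : (1 + d • M) * (1 + d • (M - N * M + M * N)) * (1 + (-d) • M) =
        1 + d • (M - N * M + M * N) := by
      have u1 : M * (N * M) = 0 := by rw [← mul_assoc, h2]
      have u2 : M * (M * N) = 0 := by rw [← mul_assoc, hMM, zero_mul]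
      have u3 : N * M * M = 0 := by rw [mul_assoc, hMM, mul_zero]
      simp only [mul_add, add_mul, mul_sub, sub_mul, one_mul, mul_one, smul_mul_assoc,
        mul_smul_comm, h2, hMM, u1, u2, u3, smul_zero, smul_add, smul_sub, smul_smul, zero_mul]
      module
    rw [t1, t2] at this
    exact add_left_cancel this
  have f1 : N * M = 0 := by
    have := congrArg (N * ·) e4
    simp only [mul_smul_comm, hNN, smul_zero, mul_add, mul_sub, ← mul_assoc, h1, zero_mul,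
      sub_zero, add_zero] at this
    exact (smul_eq_zero.1 this.symm).resolve_left hd0
  have f2 : M * N = 0 := by
    have := congrArg (· * N) e4
    simp only [smul_mul_assoc, hNN, smul_zero, add_mul, sub_mul, h1, sub_zero, mul_assoc M N N,
      mul_zero, add_zero] at this
    exact (smul_eq_zero.1 this.symm).resolve_left hd0
  rw [f1, f2, sub_zero, add_zero] at e4
  have hc0 : c ≠ 0 := by
    rintro rfl
    rw [zero_smul] at e4
    exact h.ne M hM ((smul_eq_zero.1 e4.symm).resolve_left hd0)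
  exact hr.ne (by rw [← rt_smul N hc0, e4, rt_smul M hd0])

theorem Sys.commCase {E : Set R} (h : Sys k ρ E) {N M : R} (hN : N ∈ E) (hM : M ∈ E)
    (h1 : N * M * N = 0) (h2 : M * N * M = 0) (hC : N * M - M * N ∈ E) :
    RootCommutatorCase (fam k ρ E) (rt k ρ N) (rt k ρ M) := by
  have hNN := h.sq N hN
  have hMM := h.sq M hM
  have hCC := h.sq _ hC
  have le1 : ⁅rt k ρ N, rt k ρ M⁆ ≤ rt k ρ (N * M - M * N) := by
    rw [Subgroup.commutator_le]
    intro a ha b hb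
    obtain ⟨c, hc⟩ := (mem_rt hNN).1 ha
    obtain ⟨d, hd⟩ := (mem_rt hMM).1 hb
    exact (mem_rt hCC).2 ⟨_, map_comm hNN hMM h1 h2 hc hd⟩
  have l2 : ∀ a ∈ rt k ρ N, a ≠ 1 → rt k ρ (N * M - M * N) ≤
      Subgroup.closure ((fun b : G => a * b * a⁻¹ * b⁻¹) '' (rt k ρ M : Set G)) := by
    intro a ha ha1 x hx
    obtain ⟨c, hc⟩ := (mem_rt hNN).1 ha
    have hc0 := ne_zero_of_ne_one h.inj hc ha1
    obtain ⟨e, he⟩ := (mem_rt hCC).1 hx
    obtain ⟨b, hb⟩ := h.ex M hM (e / c)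
    refine Subgroup.subset_closure ⟨b, (mem_rt hMM).2 ⟨_, hb⟩, h.inj ?_⟩
    rw [map_comm hNN hMM h1 h2 hc hb, he, mul_div_cancel₀ _ hc0]
  have l3 : ∀ b ∈ rt k ρ M, b ≠ 1 → rt k ρ (N * M - M * N) ≤
      Subgroup.closure ((fun a : G => a * b * a⁻¹ * b⁻¹) '' (rt k ρ N : Set G)) := by
    intro b hb hb1 x hx
    obtain ⟨c, hc⟩ := (mem_rt hMM).1 hb
    have hc0 := ne_zero_of_ne_one h.inj hc hb1
    obtain ⟨e, he⟩ := (mem_rt hCC).1 hx
    obtain ⟨a, ha⟩ := h.ex N hN (e / c)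
    refine Subgroup.subset_closure ⟨a, (mem_rt hNN).2 ⟨_, ha⟩, h.inj ?_⟩
    rw [map_comm hNN hMM h1 h2 ha hc, he, div_mul_cancel₀ _ hc0]
  have l4 : ∀ a ∈ rt k ρ N, Subgroup.closure ((fun b : G => a * b * a⁻¹ * b⁻¹) ''
      (rt k ρ M : Set G)) ≤ ⁅rt k ρ N, rt k ρ M⁆ := fun a ha => by
    rw [Subgroup.closure_le]
    rintro _ ⟨b, hb, rfl⟩
    exact Subgroup.commutator_mem_commutator ha hb
  have l5 : ∀ b ∈ rt k ρ M, Subgroup.closure ((fun a : G => a * b * a⁻¹ * b⁻¹) ''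
      (rt k ρ N : Set G)) ≤ ⁅rt k ρ N, rt k ρ M⁆ := fun b hb => by
    rw [Subgroup.closure_le]
    rintro _ ⟨a, ha, rfl⟩
    exact Subgroup.commutator_mem_commutator ha hb
  have eq1 : ⁅rt k ρ N, rt k ρ M⁆ = rt k ρ (N * M - M * N) := by
    obtain ⟨a, ha⟩ := h.ex N hN 1
    have ha' := (mem_rt hNN).2 ⟨1, ha⟩
    exact le_antisymm le1 ((l2 a ha' (ne_one_of_ne_zero (h.ne N hN) ha one_ne_zero)).trans
      (l4 a ha'))
  refine ⟨⟨_, hC, eq1⟩, fun c hc x hx => ?_, fun a ha ha1 => le_antisymm (l4 a ha)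
    (eq1 ▸ l2 a ha ha1), fun b hb hb1 => le_antisymm (l5 b hb) (eq1 ▸ l3 b hb hb1)⟩
  rw [eq1] at hc
  have : rt k ρ N ⊔ rt k ρ M ≤ Subgroup.centralizer {c} := by
    refine sup_le (fun y hy => ?_) (fun y hy => ?_) <;> rw [Subgroup.mem_centralizer_singleton_iff]
    · refine (comm_rt h.inj hCC hNN ?_ hc hy).symm
      rw [sub_mul, mul_sub, h1, mul_assoc, hNN, ← mul_assoc, ← mul_assoc, hNN, h1]; simp
    · refine (comm_rt h.inj hCC hMM ?_ hc hy).symm
      rw [sub_mul, mul_sub, h2, mul_assoc, hMM, ← mul_assoc, ← mul_assoc, hMM, h2]; simp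
  exact (Subgroup.mem_centralizer_singleton_iff.1 (this hx)).symm

section Hom

variable {e f : R}

/-- The homomorphism `SL₂(k) → R` given by an `sl₂`-pair. -/
def Phi (he : e * e = 0) (hf : f * f = 0) (h1 : e * f * e = e) (h2 : f * e * f = f) :
    Matrix.SpecialLinearGroup (Fin 2) k →* R where
  toFun X := 1 + (X.1 0 0 - 1) • (e * f) + X.1 0 1 • e + X.1 1 0 • f + (X.1 1 1 - 1) • (f * e)
  map_one' := by simp
  map_mul' X Y := by
    have a1 : e * (f * e) = e := by rw [← mul_assoc, h1]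
    have a2 : f * (e * f) = f := by rw [← mul_assoc, h2]
    have a3 : ∀ x, e * (e * x) = 0 := fun x => by rw [← mul_assoc, he, zero_mul]
    have a4 : ∀ x, f * (f * x) = 0 := fun x => by rw [← mul_assoc, hf, zero_mul]
    have a5 : ∀ x, e * (f * (e * x)) = e * x := fun x => by rw [← mul_assoc, ← mul_assoc, h1]
    have a6 : ∀ x, f * (e * (f * x)) = f * x := fun x => by rw [← mul_assoc, ← mul_assoc, h2]
    simp only [Matrix.SpecialLinearGroup.coe_mul, Matrix.mul_apply, Fin.sum_univ_two, mul_add,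
      add_mul, one_mul, mul_one, smul_mul_assoc, mul_smul_comm, mul_assoc, a1, a2, a3, a4, a5, a6,
      he, hf, mul_zero, smul_zero, add_zero, smul_add, smul_smul]
    module

theorem Phi_apply (he : e * e = 0) (hf : f * f = 0) (h1 : e * f * e = e) (h2 : f * e * f = f)
    (X : Matrix.SpecialLinearGroup (Fin 2) k) : Phi he hf h1 h2 X =
    1 + (X.1 0 0 - 1) • (e * f) + X.1 0 1 • e + X.1 1 0 • f + (X.1 1 1 - 1) • (f * e) := rfl

theorem Phi_inj (he : e * e = 0) (hf : f * f = 0) (h1 : e * f * e = e) (h2 : f * e * f = f)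
    (h0 : e ≠ 0) (X : Matrix.SpecialLinearGroup (Fin 2) k) (h : Phi he hf h1 h2 X = 1) : X = 1 := by
  rw [Phi_apply] at h
  have a1 : e * (f * e) = e := by rw [← mul_assoc, h1]
  have a3 : ∀ x, e * (e * x) = 0 := fun x => by rw [← mul_assoc, he, zero_mul]
  have a4 : ∀ x, f * (f * x) = 0 := fun x => by rw [← mul_assoc, hf, zero_mul]
  have a5 : ∀ x, e * (f * (e * x)) = e * x := fun x => by rw [← mul_assoc, ← mul_assoc, h1]
  have a6 : ∀ x, f * (e * (f * x)) = f * x := fun x => by rw [← mul_assoc, ← mul_assoc, h2]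
  have h' : (X.1 0 0 - 1) • (e * f) + X.1 0 1 • e + X.1 1 0 • f + (X.1 1 1 - 1) • (f * e) = 0 := by
    have : (1 : R) + ((X.1 0 0 - 1) • (e * f) + X.1 0 1 • e + X.1 1 0 • f +
      (X.1 1 1 - 1) • (f * e)) = 1 := by
      simpa only [add_assoc] using h
    simpa using this
  have k1 := congrArg (fun z => e * f * z * e) h'
  have k2 := congrArg (fun z => e * f * z * (f * e)) h'
  have k3 := congrArg (fun z => e * z * e) h'
  have k4 := congrArg (fun z => e * z * (f * e)) h'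
  simp only [mul_add, add_mul, smul_mul_assoc, mul_smul_comm, mul_assoc, a1, a3, a4, a5, a6, he, hf,
    mul_zero, zero_mul, smul_zero, add_zero, zero_add, smul_eq_zero, h0, or_false] at k1 k2 k3 k4
  ext i j
  fin_cases i <;> fin_cases j <;> simp_all [sub_eq_zero]

end Hom

/-- upper unitriangular matrices -/
abbrev up (c : k) : Matrix.SpecialLinearGroup (Fin 2) k :=
  Matrix.SpecialLinearGroup.transvection (show (0 : Fin 2) ≠ 1 by decide) c

/-- lower unitriangular matrices -/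
abbrev lo (c : k) : Matrix.SpecialLinearGroup (Fin 2) k :=
  Matrix.SpecialLinearGroup.transvection (show (1 : Fin 2) ≠ 0 by decide) c

theorem up_coe (c : k) : (up c).1 = !![1, c; 0, 1] := by
  ext i j
  fin_cases i <;> fin_cases j <;>
    simp [up, Matrix.SpecialLinearGroup.transvection, Matrix.transvection]

theorem lo_coe (c : k) : (lo c).1 = !![1, 0; c, 1] := by
  ext i j
  fin_cases i <;> fin_cases j <;>
    simp [lo, Matrix.SpecialLinearGroup.transvection, Matrix.transvection]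

theorem Sys.hom {E : Set R} (h : Sys k ρ E) {N M : R} (hN : N ∈ E) (hM : M ∈ E) {l : k}
    (hl : l ≠ 0) (h1 : N * M * N = l • N) (h2 : M * N * M = l • M) :
    ∃ φ : Matrix.SpecialLinearGroup (Fin 2) k →* G, Function.Injective φ ∧
      (∀ c, ρ (φ (up c)) = 1 + c • N) ∧ ∀ c, ρ (φ (lo c)) = 1 + (c / l) • M := by
  have he := h.sq N hN
  have hf : (l⁻¹ • M) * (l⁻¹ • M) = 0 := by simp [smul_mul_smul_comm, h.sq M hM]
  have g1 : N * (l⁻¹ • M) * N = N := by
    rw [mul_smul_comm, smul_mul_assoc, h1, smul_smul, inv_mul_cancel₀ hl, one_smul]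
  have g2 : (l⁻¹ • M) * N * (l⁻¹ • M) = l⁻¹ • M := by
    rw [smul_mul_assoc, smul_mul_smul_comm, h2, smul_smul, mul_assoc, inv_mul_cancel₀ hl, mul_one]
  have u1 : ∀ c : k, Phi he hf g1 g2 (up c) = 1 + c • N := fun c => by
    simp [Phi_apply, up_coe]
  have u2 : ∀ c : k, Phi he hf g1 g2 (lo c) = 1 + (c / l) • M := fun c => by
    simp [Phi_apply, lo_coe, smul_smul, div_eq_mul_inv]
  have ex : ∀ X : Matrix.SpecialLinearGroup (Fin 2) k, ∃ g, ρ g = Phi he hf g1 g2 X := by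
    intro X
    induction X using H09.SL_transvection_induction with
    | h1 => exact ⟨1, by simp⟩
    | htransvec i j hij c =>
      fin_cases i <;> fin_cases j
      · exact absurd rfl hij
      · exact u1 c ▸ h.ex N hN c
      · exact u2 c ▸ h.ex M hM _
      · exact absurd rfl hij
    | hmul A B hA hB =>
      obtain ⟨a, ha⟩ := hA
      obtain ⟨b, hb⟩ := hB
      exact ⟨a * b, by rw [map_mul, map_mul, ha, hb]⟩
  choose F hF using ex
  refine ⟨MonoidHom.mk' F fun X Y => h.inj (by rw [map_mul, hF, hF, hF, map_mul]), ?_,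
    fun c => (hF _).trans (u1 c), fun c => (hF _).trans (u2 c)⟩
  rw [injective_iff_map_eq_one]
  intro X hX
  refine Phi_inj he hf g1 g2 (h.ne N hN) X ?_
  rw [← hF, show F X = 1 from hX, map_one]

theorem upper_eq : upperUnipotentSL2 k = Subgroup.closure (Set.range (up (k := k))) := by
  unfold upperUnipotentSL2
  congr 1
  ext g
  refine ⟨fun ⟨a, b, c⟩ => ⟨g.1 0 1, Subtype.ext ?_⟩, ?_⟩
  · rw [up_coe]
    ext i j
    fin_cases i <;> fin_cases j <;> simp [a, b, c]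
  · rintro ⟨c, rfl⟩
    simp [up_coe]

theorem lower_eq : lowerUnipotentSL2 k = Subgroup.closure (Set.range (lo (k := k))) := by
  unfold lowerUnipotentSL2
  congr 1
  ext g
  refine ⟨fun ⟨a, b, c⟩ => ⟨g.1 1 0, Subtype.ext ?_⟩, ?_⟩
  · rw [lo_coe]
    ext i j
    fin_cases i <;> fin_cases j <;> simp [a, b, c]
  · rintro ⟨c, rfl⟩
    simp [lo_coe]

theorem upper_sup_lower : upperUnipotentSL2 k ⊔ lowerUnipotentSL2 k = ⊤ := by
  refine H09.eq_top_of_transvection_mem _ fun i j hij c => ?_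
  fin_cases i <;> fin_cases j
  · exact absurd rfl hij
  · exact Subgroup.mem_sup_left (upper_eq (k := k) ▸ Subgroup.subset_closure ⟨c, rfl⟩)
  · exact Subgroup.mem_sup_right (lower_eq (k := k) ▸ Subgroup.subset_closure ⟨c, rfl⟩)
  · exact absurd rfl hij

theorem Sys.psl2 {E : Set R} (h : Sys k ρ E) {N M : R} (hN : N ∈ E) (hM : M ∈ E)
    (ho : Opp k N M) : IsPSL2PairOver k (rt k ρ N) (rt k ρ M) := by
  obtain ⟨l, hl, h1, h2⟩ := ho
  obtain ⟨φ, hφ, u1, u2⟩ := h.hom hN hM hl h1 h2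
  have e1 : (upperUnipotentSL2 k).map φ = rt k ρ N := by
    rw [upper_eq, MonoidHom.map_closure, rt]
    congr 1
    ext g
    refine ⟨?_, fun ⟨c, hc⟩ => ⟨_, ⟨c, rfl⟩, h.inj (by rw [u1, hc])⟩⟩
    rintro ⟨_, ⟨c, rfl⟩, rfl⟩
    exact ⟨c, u1 c⟩
  have e2 : (lowerUnipotentSL2 k).map φ = rt k ρ M := by
    rw [lower_eq, MonoidHom.map_closure, rt]
    congr 1
    ext g
    refine ⟨?_, fun ⟨c, hc⟩ => ⟨_, ⟨c * l, rfl⟩, h.inj (by rw [u2, hc, mul_div_cancel_right₀ _ hl])⟩⟩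
    rintro ⟨_, ⟨c, rfl⟩, rfl⟩
    exact ⟨_, u2 c⟩
  refine ⟨φ, ?_, ?_, e1, e2⟩
  · rw [← e1, ← e2, ← Subgroup.map_sup, upper_sup_lower, MonoidHom.range_eq_map]
  · rw [(MonoidHom.ker_eq_bot_iff φ).2 hφ]; exact bot_le

theorem Sys.rt_ne_bot {E : Set R} (h : Sys k ρ E) {N : R} (hN : N ∈ E) : rt k ρ N ≠ ⊥ := by
  obtain ⟨a, ha⟩ := h.ex N hN 1
  intro e
  have : a ∈ rt k ρ N := (mem_rt (h.sq N hN)).2 ⟨1, ha⟩
  rw [e, Subgroup.mem_bot] at this
  exact ne_one_of_ne_zero (h.ne N hN) ha one_ne_zero this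

theorem Sys.isK {E : Set R} (h : Sys k ρ E) (hgen : (⨆ A ∈ fam k ρ E, A) = ⊤) :
    IsKRootSubgroupSet k (fam k ρ E) := by
  refine ⟨⟨?_, ?_, hgen, ?_, ?_⟩, ?_⟩
  · rintro _ ⟨N, hN, rfl⟩
    exact isMulCommutative_rt h.inj (h.sq N hN)
  · rintro _ ⟨N, hN, rfl⟩
    exact h.rt_ne_bot hN
  · rintro _ ⟨N, hN, rfl⟩ g
    exact ⟨_, h.conj N hN g, conjBy_rt N g⟩
  · rintro _ ⟨N, hN, rfl⟩ _ ⟨M, hM, rfl⟩
    obtain ⟨l, h1, h2, h3⟩ := h.pair N hN M hM
    by_cases hl : l = 0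
    · rcases h3 hl with h4 | h4
      · exact Or.inl (commutator_eq_bot h.inj (h.sq N hN) (h.sq M hM) h4)
      · subst hl
        exact Or.inr (Or.inr (h.commCase hN hM (by simpa using h1) (by simpa using h2) h4))
    · exact Or.inr (Or.inl (h.rankOne hN hM ⟨l, hl, h1, h2⟩))
  · rintro _ ⟨N, hN, rfl⟩ _ ⟨M, hM, rfl⟩ hr
    exact h.psl2 hN hM (h.opp_of_rankOne hN hM hr)

theorem Sys.degenerate {E : Set R} (h : Sys k ρ E)
    (hd : ∀ N ∈ E, ∀ M ∈ E, Opp k N M ∨ N * M = M * N) : IsDegenerateRootSet (fam k ρ E) := by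
  rintro _ ⟨N, hN, rfl⟩ _ ⟨M, hM, rfl⟩ ⟨⟨C, hC, e⟩, hc, -⟩
  rcases hd N hN M hM with ⟨l, hl, h1, h2⟩ | h1
  · obtain ⟨φ, hφ, u1, u2⟩ := h.hom hN hM hl h1 h2
    have m1 : φ (up 1) ∈ rt k ρ N := (mem_rt (h.sq N hN)).2 ⟨_, u1 1⟩
    have m2 : φ (lo 1) ∈ rt k ρ M := (mem_rt (h.sq M hM)).2 ⟨_, u2 1⟩
    have := hc _ (Subgroup.commutator_mem_commutator m1 m2) _ (Subgroup.mem_sup_left m1)
    rw [← map_commutatorElement, ← map_mul, ← map_mul] at this
    have t := congrArg (fun X => X.1 0 0) (hφ this)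
    simp [commutatorElement_def, up_coe, lo_coe, Matrix.SpecialLinearGroup.coe_inv,
      Matrix.adjugate_fin_two, Matrix.mul_apply, Fin.sum_univ_two] at t
  · rw [commutator_eq_bot h.inj (h.sq N hN) (h.sq M hM) h1] at e
    exact h.rt_ne_bot hC e.symm

theorem Sys.connected {E : Set R} (h : Sys k ρ E)
    (hc : ∀ N ∈ E, ∀ M ∈ E, Relation.ReflTransGen (fun X Y => X ∈ E ∧ Y ∈ E ∧ Opp k X Y) N M) :
    IsConnectedFamily (FAdj (fam k ρ E)) (fam k ρ E) := by
  rintro _ ⟨N, hN, rfl⟩ _ ⟨M, hM, rfl⟩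
  have := hc N hN M hM
  clear hM
  induction this with
  | refl => exact .refl
  | @tail X Y h1 h2 ih =>
    exact ih.tail ⟨⟨X, h2.1, rfl⟩, ⟨Y, h2.2.1, rfl⟩, h.rankOne h2.1 h2.2.1 h2.2.2⟩

theorem conjBy_mul (A : Subgroup G) (g h : G) : conjBy (conjBy A g) h = conjBy A (h * g) := by
  unfold conjBy
  rw [Subgroup.map_map]
  congr 1
  ext x
  simp [mul_assoc]

theorem conjBy_one (A : Subgroup G) : conjBy A 1 = A := by
  unfold conjBy
  ext x
  simp

theorem cls_of_connected {S : Set (Subgroup G)} (hb : ∀ A ∈ S, A ≠ ⊥) (hne : S.Nonempty)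
    (hc : IsConnectedFamily (FAdj S) S) : IsConjClassOfSubgroups S := by
  refine ⟨hne, fun A hA B hB => ?_⟩
  have := hc A hA B hB
  clear hB
  induction this with
  | refl => exact ⟨1, (conjBy_one A).symm⟩
  | @tail X Y _ h2 ih =>
    obtain ⟨g, rfl⟩ := ih
    obtain ⟨a, ha⟩ := Subgroup.ne_bot_iff_exists_ne_one.1 (hb _ h2.1)
    obtain ⟨b, -, -, e⟩ := h2.2.2.cond_left a a.2 (fun e => ha (Subtype.ext e))
    refine ⟨a * b⁻¹ * g, ?_⟩
    rw [← conjBy_mul, ← conjBy_mul, e, conjBy_mul, mul_inv_cancel, conjBy_one]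

theorem Sys.cls {E : Set R} (h : Sys k ρ E) (hne : E.Nonempty)
    (hc : ∀ N ∈ E, ∀ M ∈ E, Relation.ReflTransGen (fun X Y => X ∈ E ∧ Y ∈ E ∧ Opp k X Y) N M) :
    IsConjClassOfSubgroups (fam k ρ E) :=
  cls_of_connected (by rintro _ ⟨N, hN, rfl⟩; exact h.rt_ne_bot hN)
    (let ⟨N, hN⟩ := hne; ⟨_, N, hN, rfl⟩) (h.connected hc)

/-- The subgroup generated by the family. -/
abbrev gen (E : Set R) : Subgroup G := ⨆ A ∈ fam k ρ E, A

theorem Sys.restrict {E : Set R} (h : Sys k ρ E) :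
    Sys k (ρ.comp (gen (k := k) (ρ := ρ) E).subtype) E where
  inj := h.inj.comp Subtype.val_injective
  sq := h.sq
  ne := h.ne
  ex N hN c := by
    obtain ⟨g, hg⟩ := h.ex N hN c
    exact ⟨⟨g, (le_iSup₂_of_le (f := fun A (_ : A ∈ fam k ρ E) => A) _ ⟨N, hN, rfl⟩ le_rfl)
      ((mem_rt (h.sq N hN)).2 ⟨c, hg⟩)⟩, hg⟩
  conj N hN g := h.conj N hN g
  pair := h.pair

theorem Sys.fam_restrict {E : Set R} (h : Sys k ρ E) :
    (fun A : Subgroup G => A.subgroupOf (⨆ B ∈ fam k ρ E, B)) '' fam k ρ E =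
      fam k (ρ.comp (gen (k := k) (ρ := ρ) E).subtype) E := by
  have e : ∀ N ∈ E, (rt k ρ N).subgroupOf (⨆ B ∈ fam k ρ E, B) =
      rt k (ρ.comp (gen (k := k) (ρ := ρ) E).subtype) N := fun N hN => by
    ext g
    rw [Subgroup.mem_subgroupOf, mem_rt (h.sq N hN), mem_rt (h.sq N hN)]
    rfl
  ext A
  constructor
  · rintro ⟨_, ⟨N, hN, rfl⟩, rfl⟩
    exact ⟨N, hN, e N hN⟩
  · rintro ⟨N, hN, rfl⟩
    exact ⟨_, ⟨N, hN, rfl⟩, e N hN⟩

theorem Sys.gen_restrict {E : Set R} (h : Sys k ρ E) :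
    (⨆ A ∈ fam k (ρ.comp (gen (k := k) (ρ := ρ) E).subtype) E, A) = ⊤ := by
  rw [← h.fam_restrict, iSup_image]
  apply Subgroup.map_injective (gen (k := k) (ρ := ρ) E).subtype_injective
  rw [← MonoidHom.range_eq_map, Subgroup.range_subtype]
  simp only [Subgroup.map_iSup]
  refine iSup_congr fun A => iSup_congr fun hA => ?_
  rw [Subgroup.subgroupOf_map_subtype]
  exact inf_eq_left.2 (le_iSup₂_of_le (f := fun A (_ : A ∈ fam k ρ E) => A) _ hA le_rfl)

end H12.Ext
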