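import Cfsg.Agent.H12.ExtA
import Cfsg.Agent.H09.Sp

/-! # Extremal systems: root involutions, transvections of `SL` and `Sp` (namespace `H12.Ext`)

`Sys.nondeg`, `Sys.rootInv` (characteristic two), `slE`, `sl_sys`, `sl_fam`, `spE`, `sp_sys`. -/

set_option autoImplicit false
open Cfsg Matrix
open scoped commutatorElement

namespace H12.Ext

section Gen
variable {k R G : Type*} [Field k] [Ring R] [Algebra k R] [Group G] {ρ : G →* R}

theorem Sys.nondeg {E : Set R} (h : Sys k ρ E) (h1 : ∃ N ∈ E, ∃ M ∈ E, Opp k N M)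
    (h2 : ∃ N ∈ E, ∃ M ∈ E, M * N = 0 ∧ N * M ∈ E) : IsNondegenerateRootSet (fam k ρ E) := by
  obtain ⟨N, hN, M, hM, h3, h4⟩ := h2
  have hNN := h.sq N hN
  refine ⟨⟨_, ⟨N, hN, rfl⟩, _, ⟨N * M, h4, rfl⟩, fun e => ?_, ?_⟩, ?_,
    ⟨_, ⟨N, hN, rfl⟩, _, ⟨M, hM, rfl⟩, h.commCase hN hM (by rw [mul_assoc, h3, mul_zero])
      (by rw [h3, zero_mul]) (by rwa [h3, sub_zero])⟩⟩
  · obtain ⟨a, ha⟩ := h.ex N hN 1
    have : a ∈ rt k ρ (N * M) := e ▸ (mem_rt hNN).2 ⟨1, ha⟩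
    obtain ⟨c, hc⟩ := (mem_rt (h.sq _ h4)).1 this
    have e2 : N = c • (N * M) := by simpa [ha] using hc
    have : N * M = 0 := by
      rw [e2, smul_mul_assoc, mul_assoc, h.sq M hM]; simp
    exact h.ne _ h4 this
  · refine commutator_eq_bot h.inj hNN (h.sq _ h4) ?_
    rw [← mul_assoc, hNN, zero_mul, mul_assoc, h3, mul_zero]
  · obtain ⟨X, hX, Y, hY, ho⟩ := h1
    exact ⟨_, ⟨X, hX, rfl⟩, _, ⟨Y, hY, rfl⟩, h.rankOne hX hY ho⟩

theorem odd_sl2 [Finite k] [CharP k 2] {l : k} (hl : l ≠ 0) : Odd (orderOf (up 1 * lo l)) := by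
  rw [← Nat.not_even_iff_odd]
  rintro ⟨m, hm⟩
  have hpos := orderOf_pos (up (1 : k) * lo l)
  have h2 : (2 : k) = 0 := CharTwo.two_eq_zero
  obtain ⟨Y, hY⟩ : ∃ Y, Y = (up (1 : k) * lo l) ^ m := ⟨_, rfl⟩
  have hY1 : Y ≠ 1 := by
    rw [hY]
    exact pow_ne_one_of_lt_orderOf (by omega) (by omega)
  have hYY : Y⁻¹ = Y := by
    rw [inv_eq_iff_mul_eq_one, hY, ← pow_add, ← hm, pow_orderOf_eq_one]
  have hc : (up (1 : k) * lo l) * Y = Y * (up (1 : k) * lo l) := by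
    rw [hY, ← pow_succ, ← pow_succ']
  have c1 := congrArg (fun X => X.1 0 0) hc
  have c2 := congrArg (fun X => X.1 0 1) hc
  have c3 := congrArg (fun X => X.1 0 0) hYY
  have d : Y.1.det = 1 := Y.det_coe
  rw [Matrix.det_fin_two] at d
  simp [up_coe, lo_coe, Matrix.mul_apply, Fin.sum_univ_two, Matrix.adjugate_fin_two] at c1 c2 c3
  have b0 : Y.1 0 1 = 0 := by
    have : l * Y.1 0 1 = 0 := by linear_combination c2 - c3
    exact (mul_eq_zero.1 this).resolve_left hl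
  have c0 : Y.1 1 0 = 0 := by rw [b0] at c1; linear_combination c1
  have a1 : Y.1 0 0 = 1 := by
    have : (Y.1 0 0 - 1) ^ 2 = 0 := by
      rw [c3, b0] at d; linear_combination d + (1 - Y.1 0 0) * h2
    exact sub_eq_zero.1 (pow_eq_zero_iff two_ne_zero |>.1 this)
  apply hY1
  ext i j
  fin_cases i <;> fin_cases j <;> simp [a1, b0, c0, c3]

/-- The root elements. -/
def elts (ρ : G →* R) (E : Set R) : Set G := {g | ∃ N ∈ E, ρ g = 1 + N}

theorem Sys.rootInv [Finite k] [CharP k 2] {E : Set R} (h : Sys k ρ E)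
    (hgen : Subgroup.closure (elts ρ E) = ⊤) : IsRootInvolutionSet (elts ρ E) ∧
      (Nat.card k = 2 → IsThreeFourPlusTranspositionSet (elts ρ E)) := by
  have h2 : (2 : k) = 0 := CharTwo.two_eq_zero
  have sq : ∀ a ∈ elts ρ E, a * a = 1 := by
    rintro a ⟨N, hN, ha⟩
    apply h.inj
    have := mul_one_add (k := k) (h.sq N hN) 1 1
    rw [one_add_one_eq_two, h2] at this
    simpa [ha] using this
  have ne : ∀ a ∈ elts ρ E, a ≠ 1 := by
    rintro a ⟨N, hN, ha⟩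
    exact ne_one_of_ne_zero (k := k) (c := 1) (h.ne N hN) (by simpa using ha) one_ne_zero
  have ord : ∀ a ∈ elts ρ E, orderOf a = 2 := fun a ha =>
    orderOf_eq_prime (by rw [pow_two, sq a ha]) (ne a ha)
  have tri : ∀ a ∈ elts ρ E, ∀ b ∈ elts ρ E, a * b = b * a ∨
      (∃ l : k, l ≠ 0 ∧ orderOf (a * b) = orderOf (up 1 * lo l)) ∨
      (orderOf (a * b) = 4 ∧ (a * b) ^ 2 ∈ elts ρ E) := by
    intro a ha b hb
    have ha2 := sq a ha
    have hb2 := sq b hb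
    obtain ⟨N, hN, ha⟩ := ha
    obtain ⟨M, hM, hb⟩ := hb
    have ha' : ρ a = 1 + (1 : k) • N := by simpa using ha
    have hb' : ρ b = 1 + (1 : k) • M := by simpa using hb
    obtain ⟨l, h1, h3, h4⟩ := h.pair N hN M hM
    by_cases hl : l = 0
    · rcases h4 hl with h5 | h5
      · exact Or.inl (comm_rt (k := k) h.inj (h.sq N hN) (h.sq M hM) h5
          ((mem_rt (h.sq N hN)).2 ⟨1, ha'⟩) ((mem_rt (h.sq M hM)).2 ⟨1, hb'⟩))
      · subst hl
        have e := map_comm (h.sq N hN) (h.sq M hM) (by simpa using h1) (by simpa using h3) ha' hb'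
        rw [inv_eq_of_mul_eq_one_right ha2, inv_eq_of_mul_eq_one_right hb2] at e
        have m : (a * b) ^ 2 ∈ elts ρ E :=
          ⟨_, h5, by rw [pow_two, ← mul_assoc, e]; simp⟩
        refine Or.inr (Or.inr ⟨?_, m⟩)
        have := orderOf_eq_prime_pow (p := 2) (n := 1) (x := a * b) (by simpa using ne _ m)
          (by rw [show 2 ^ (1 + 1) = 2 + 2 from rfl, pow_add, sq _ m])
        simpa using this
    · obtain ⟨φ, hφ, u1, u2⟩ := h.hom hN hM hl h1 h3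
      refine Or.inr (Or.inl ⟨l, hl, ?_⟩)
      have e1 : a = φ (up 1) := h.inj (by rw [u1, ha'])
      have e2 : b = φ (lo l) := h.inj (by rw [u2, hb', div_self hl])
      rw [e1, e2, ← map_mul, orderOf_injective φ hφ]
  have main : IsRootInvolutionSet (elts ρ E) := by
    refine ⟨ord, hgen, ?_, fun a ha b hb => ?_⟩
    · rintro d ⟨N, hN, hd⟩ g
      refine ⟨_, h.conj N hN g, ?_⟩
      rw [map_mul, map_mul, hd, mul_add, add_mul, mul_one, ← map_mul, mul_inv_cancel, map_one]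
    · rcases tri a ha b hb with h1 | ⟨l, hl, h1⟩ | h1
      · exact Or.inl h1
      · exact Or.inr (Or.inl (h1 ▸ odd_sl2 hl))
      · exact Or.inr (Or.inr h1)
  refine ⟨main, fun hk => ⟨main, fun a ha b hb ho => ?_⟩⟩
  rcases tri a ha b hb with h1 | ⟨l, hl, h1⟩ | h1
  · have : orderOf (a * b) ∣ 2 := orderOf_dvd_of_pow_eq_one (by
      rw [pow_two, mul_assoc, ← mul_assoc b, ← h1, mul_assoc, sq b hb, mul_one, sq a ha])
    rcases (Nat.dvd_prime Nat.prime_two).1 this with e | e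
    · exact Or.inl e
    · rw [e] at ho; exact absurd ho (by decide)
  · have l1 : l = 1 := by
      by_contra hl1
      classical
      have := Fintype.ofFinite k
      have : ({0, 1, l} : Finset k).card ≤ Fintype.card k := Finset.card_le_univ _
      rw [Finset.card_eq_three.2 ⟨0, 1, l, zero_ne_one, hl.symm, Ne.symm hl1, rfl⟩,
        ← Nat.card_eq_fintype_card, hk] at this
      omega
    subst l1
    rw [h1]
    refine (Nat.dvd_prime Nat.prime_three).1 (orderOf_dvd_of_pow_eq_one ?_)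
    ext i j
    have h3 : (1 : k) + 1 = 0 := by rw [one_add_one_eq_two, h2]
    fin_cases i <;> fin_cases j <;>
      simp [pow_succ, up_coe, lo_coe, Matrix.mul_apply, Fin.sum_univ_two, h3]
  · rw [h1.1] at ho; exact absurd ho (by decide)

theorem conj_of_odd {a b : G} (ha : a * a = 1) (hb : b * b = 1) (h : Odd (orderOf (a * b))) :
    ∃ g : G, b = g * a * g⁻¹ := by
  obtain ⟨m, hm⟩ := h
  have h1 : SemiconjBy a (a * b)⁻¹ (a * b) := by
    unfold SemiconjBy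
    rw [_root_.mul_inv_rev, inv_eq_of_mul_eq_one_right ha, inv_eq_of_mul_eq_one_right hb, mul_assoc]
  have h2 := (h1.pow_right m).eq
  have h3 : (a * b) ^ m * (a * b) ^ m * (a * b) = 1 := by
    rw [← pow_add, ← pow_succ, ← two_mul, ← hm, pow_orderOf_eq_one]
  refine ⟨(a * b) ^ m, ?_⟩
  rw [inv_pow] at h2
  rw [← h2, mul_assoc, ← _root_.mul_inv_rev, inv_eq_of_mul_eq_one_right h3, ← mul_assoc, ha, one_mul]

theorem Sys.cls_elts [Finite k] [CharP k 2] {E : Set R} (h : Sys k ρ E)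
    (hc : ∀ N ∈ E, ∀ M ∈ E, Relation.ReflTransGen (fun X Y => X ∈ E ∧ Y ∈ E ∧ Opp k X Y) N M) :
    ∀ a ∈ elts ρ E, ∀ b ∈ elts ρ E, ∃ g : G, b = g * a * g⁻¹ := by
  have h2 : (2 : k) = 0 := CharTwo.two_eq_zero
  have sq : ∀ a, ∀ N ∈ E, ρ a = 1 + N → a * a = 1 := by
    rintro a N hN ha
    apply h.inj
    have := mul_one_add (k := k) (h.sq N hN) 1 1
    rw [one_add_one_eq_two, h2] at this
    simpa [ha] using this
  rintro a ⟨N, hN, ha⟩ b ⟨M, hM, hb⟩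
  have := hc N hN M hM
  clear hM
  induction this generalizing b with
  | refl => exact ⟨1, h.inj (by simp [ha, hb])⟩
  | @tail X Y _ h3 ih =>
    obtain ⟨hX, hY, l, hl, h4, h5⟩ := h3
    obtain ⟨φ, hφ, u1, u2⟩ := h.hom hX hY hl h4 h5
    have e1 : ρ (φ (up 1)) = 1 + X := by simp [u1]
    have e2 : b = φ (lo l) := h.inj (by rw [u2, hb, div_self hl, one_smul])
    obtain ⟨g, hg⟩ := ih _ e1
    obtain ⟨g', hg'⟩ := conj_of_odd (sq _ X hX e1) (sq b Y hY hb)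
      (by rw [e2, ← map_mul, orderOf_injective φ hφ]; exact odd_sl2 hl)
    exact ⟨g' * g, by rw [hg', hg]; group⟩

end Gen

theorem two_ne {V F : Type*} [Add V] [AddCommGroup F] (P : V → Prop)
    (hP : ∀ x y, P x → P y → P (x + y)) (f g : V → F) (hf : ∀ x y, f (x + y) = f x + f y)
    (hg : ∀ x y, g (x + y) = g x + g y) (h1 : ∃ x, P x ∧ f x ≠ 0) (h2 : ∃ x, P x ∧ g x ≠ 0) :
    ∃ x, P x ∧ f x ≠ 0 ∧ g x ≠ 0 := by
  obtain ⟨x, hx, fx⟩ := h1
  obtain ⟨y, hy, gy⟩ := h2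
  by_cases gx : g x = 0
  · by_cases fy : f y = 0
    · exact ⟨x + y, hP x y hx hy, by rwa [hf, fy, add_zero], by rwa [hg, gx, zero_add]⟩
    · exact ⟨y, hy, fy, gy⟩
  · exact ⟨x, hx, fx, gx⟩

section SL
variable {ι F : Type*} [Fintype ι] [DecidableEq ι] [Field F]

theorem vv_mul (p φ q ψ : ι → F) :
    vecMulVec p φ * vecMulVec q ψ = (φ ⬝ᵥ q) • vecMulVec p ψ := by
  rw [vecMulVec_mul_vecMulVec, vecMulVec_smul]

theorem vv3 (p φ q ψ : ι → F) :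
    vecMulVec p φ * vecMulVec q ψ * vecMulVec p φ = ((φ ⬝ᵥ q) * (ψ ⬝ᵥ p)) • vecMulVec p φ := by
  rw [vv_mul, smul_mul_assoc, vv_mul, smul_smul]

theorem vv_mulVec (p φ v : ι → F) : vecMulVec p φ *ᵥ v = (φ ⬝ᵥ v) • p := by
  ext i; simp [vecMulVec, mulVec, dotProduct, Finset.mul_sum, mul_comm, mul_left_comm]

theorem det_one_add_vv (p φ : ι → F) : (1 + vecMulVec p φ).det = 1 + φ ⬝ᵥ p := by
  rw [vecMulVec_eq Unit, det_one_add_replicateCol_mul_replicateRow]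

theorem exists_dot_ne {p : ι → F} (hp : p ≠ 0) : ∃ x, p ⬝ᵥ x ≠ 0 := by
  obtain ⟨i, hi⟩ := Function.ne_iff.1 hp
  exact ⟨Pi.single i 1, by simpa using hi⟩

theorem exists_ann {p φ r : ι → F} (hp : p ≠ 0) (h0 : φ ⬝ᵥ p = 0) (hr : φ ⬝ᵥ r ≠ 0) :
    ∃ χ, χ ⬝ᵥ r = 0 ∧ χ ⬝ᵥ p ≠ 0 := by
  obtain ⟨i, hi⟩ := Function.ne_iff.1 hp
  refine ⟨Pi.single i 1 - (r i / (φ ⬝ᵥ r)) • φ, ?_, ?_⟩
  · simp [sub_dotProduct, div_mul_cancel₀ _ hr]
  · simpa [sub_dotProduct, h0] using hi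

variable (ι F) in
/-- rank one nilpotent matrices -/
def slE : Set (Matrix ι ι F) := {N | ∃ p φ : ι → F, p ≠ 0 ∧ φ ≠ 0 ∧ φ ⬝ᵥ p = 0 ∧ N = vecMulVec p φ}

theorem sl_sys : Sys F (SpecialLinearGroup.coeMonoidHom : SpecialLinearGroup ι F →* _) (slE ι F) where
  inj := SpecialLinearGroup.coeMonoidHom_injective
  sq := by rintro _ ⟨p, φ, -, -, h, rfl⟩; rw [vv_mul, h, zero_smul]
  ne := by rintro _ ⟨p, φ, hp, hφ, -, rfl⟩; simp [hp, hφ]
  ex := by
    rintro _ ⟨p, φ, -, -, h, rfl⟩ c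
    exact ⟨⟨1 + c • vecMulVec p φ, by
      rw [← smul_vecMulVec, det_one_add_vv, dotProduct_smul, h]; simp⟩, rfl⟩
  conj := by
    rintro _ ⟨p, φ, hp, hφ, h, rfl⟩ g
    have e1 : (g⁻¹).1 * g.1 = 1 := congrArg Subtype.val (inv_mul_cancel g)
    refine ⟨g.1 *ᵥ p, φ ᵥ* (g⁻¹).1, fun e => hp ?_, fun e => hφ ?_, ?_, ?_⟩
    · rw [← one_mulVec p, ← e1, ← mulVec_mulVec, e, mulVec_zero]
    · rw [← vecMul_one φ, ← e1, ← vecMul_vecMul, e, zero_vecMul]
    · rw [← dotProduct_mulVec, mulVec_mulVec, e1, one_mulVec, h]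
    · rw [← vecMulVec_mul, ← mul_vecMulVec]; rfl
  pair := by
    rintro _ ⟨p, φ, hp, hφ, h, rfl⟩ _ ⟨q, ψ, hq, hψ, h', rfl⟩
    refine ⟨_, vv3 _ _ _ _, by rw [vv3, mul_comm], fun h0 => ?_⟩
    rw [vv_mul, vv_mul]
    by_cases a : φ ⬝ᵥ q = 0 <;> by_cases b : ψ ⬝ᵥ p = 0
    · simp [a, b]
    · refine Or.inr ⟨(-(ψ ⬝ᵥ p)) • q, φ, by simp [b, hq], hφ, by simp [a], ?_⟩
      simp [a, smul_vecMulVec]
    · refine Or.inr ⟨(φ ⬝ᵥ q) • p, ψ, by simp [a, hp], hψ, by simp [b], ?_⟩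
      simp [b, smul_vecMulVec]
    · exact absurd h0 (mul_ne_zero a b)

theorem opp_vv {p φ q ψ : ι → F} (a : φ ⬝ᵥ q ≠ 0) (b : ψ ⬝ᵥ p ≠ 0) :
    Opp F (vecMulVec p φ) (vecMulVec q ψ) :=
  ⟨_, mul_ne_zero a b, vv3 _ _ _ _, by rw [vv3, mul_comm]⟩

theorem sl_opp2 {N M : Matrix ι ι F} (hN : N ∈ slE ι F) (hM : M ∈ slE ι F) :
    ∃ X ∈ slE ι F, Opp F N X ∧ Opp F X M := by
  obtain ⟨p, φ, hp, hφ, h, rfl⟩ := hN
  obtain ⟨q, ψ, hq, hψ, h', rfl⟩ := hM
  obtain ⟨r, -, r1, r2⟩ := two_ne (fun _ => True) (fun _ _ _ _ => trivial) (φ ⬝ᵥ ·) (ψ ⬝ᵥ ·)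
    (dotProduct_add φ) (dotProduct_add ψ) (by simpa using exists_dot_ne hφ)
    (by simpa using exists_dot_ne hψ)
  obtain ⟨χ, c0, c1, c2⟩ := two_ne (fun χ => χ ⬝ᵥ r = 0)
    (fun x y hx hy => by rw [add_dotProduct, hx, hy, add_zero]) (· ⬝ᵥ p) (· ⬝ᵥ q)
    (fun x y => add_dotProduct x y p) (fun x y => add_dotProduct x y q) (exists_ann hp h r1)
    (exists_ann hq h' r2)
  exact ⟨_, ⟨r, χ, by rintro rfl; simp at r1, by rintro rfl; simp at c1, c0, rfl⟩, opp_vv r1 c1,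
    opp_vv c2 r2⟩

theorem sl_conn : ∀ N ∈ slE ι F, ∀ M ∈ slE ι F,
    Relation.ReflTransGen (fun X Y => X ∈ slE ι F ∧ Y ∈ slE ι F ∧ Opp F X Y) N M := by
  intro N hN M hM
  obtain ⟨X, hX, h1, h2⟩ := sl_opp2 hN hM
  exact (Relation.ReflTransGen.single ⟨hN, hX, h1⟩).tail ⟨hX, hM, h2⟩

theorem single_mem {i j : ι} (hij : i ≠ j) {c : F} (hc : c ≠ 0) : single i j c ∈ slE ι F := by
  refine ⟨Pi.single i c, Pi.single j 1, by simp [hc], by simp, by simp [hij.symm], ?_⟩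
  ext a b
  simp only [single, of_apply, vecMulVec_apply, Pi.single_apply, eq_comm (a := a), eq_comm (a := b)]
  split_ifs <;> simp_all

theorem sl_gen : (⨆ A ∈ fam F (SpecialLinearGroup.coeMonoidHom : SpecialLinearGroup ι F →* _)
    (slE ι F), A) = ⊤ := by
  refine H09.eq_top_of_transvection_mem _ fun i j hij c => ?_
  have m := single_mem (F := F) hij one_ne_zero
  refine (le_iSup₂_of_le (f := fun A (_ : A ∈ fam F _ (slE ι F)) => A) _ ⟨_, m, rfl⟩ le_rfl)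
    ((mem_rt (sl_sys.sq _ m)).2 ⟨c, ?_⟩)
  change 1 + single i j c = _
  simp

theorem sl_fam {i j : ι} (hij : i ≠ j) :
    {A : Subgroup (SpecialLinearGroup ι F) | ∃ g : SpecialLinearGroup ι F,
      A = conjBy (Subgroup.closure {t : SpecialLinearGroup ι F |
        ∃ c : F, (t : Matrix ι ι F) = Matrix.transvection i j c}) g} =
    fam F (SpecialLinearGroup.coeMonoidHom : SpecialLinearGroup ι F →* _) (slE ι F) := by
  have m := single_mem (F := F) hij one_ne_zero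
  have e : Subgroup.closure {t : SpecialLinearGroup ι F |
      ∃ c : F, (t : Matrix ι ι F) = Matrix.transvection i j c} =
      rt F (SpecialLinearGroup.coeMonoidHom : SpecialLinearGroup ι F →* _) (single i j 1) := by
    unfold rt
    congr 1
    ext t
    simp [Matrix.transvection]
  rw [e]
  ext A
  constructor
  · rintro ⟨g, rfl⟩
    exact ⟨_, sl_sys.conj _ m g, conjBy_rt _ g⟩
  · intro hA
    exact (sl_sys.cls ⟨_, m⟩ sl_conn).2 _ ⟨_, m, rfl⟩ A hA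

end SL

section Sp
variable {l F : Type*} [Fintype l] [DecidableEq l] [Field F]

variable (l F) in
/-- symplectic transvection elements -/
def spE : Set (Matrix (l ⊕ l) (l ⊕ l) F) := {N | ∃ p : l ⊕ l → F, p ≠ 0 ∧ N = vecMulVec p (J l F *ᵥ p)}

theorem sp_dot (p q : l ⊕ l → F) : (J l F *ᵥ p) ⬝ᵥ q = H09.spB l F q p := by
  rw [H09.spB_apply, dotProduct_comm]

theorem sp_ex {p : l ⊕ l → F} (hp : p ≠ 0) : ∃ x, H09.spB l F x p ≠ 0 := by
  by_contra! h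
  exact hp (H09.spB_nondeg.2 p h)

theorem sp_sys : Sys F (symplecticGroup l F).subtype (spE l F) where
  inj := Subtype.val_injective
  sq := by rintro _ ⟨p, -, rfl⟩; rw [vv_mul, sp_dot, H09.spB_alt.self_eq_zero, zero_smul]
  ne := by
    rintro _ ⟨p, hp, rfl⟩ e
    obtain ⟨x, hx⟩ := sp_ex hp
    have := congrArg (· *ᵥ x) e
    simp only [vv_mulVec, sp_dot, zero_mulVec, smul_eq_zero] at this
    exact this.elim hx hp
  ex := by rintro _ ⟨p, -, rfl⟩ c; exact ⟨H09.spTv p c, rfl⟩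
  conj := by
    rintro _ ⟨p, hp, rfl⟩ g
    refine ⟨g • p, fun e => hp (by simpa using congrArg (g⁻¹ • ·) e), ?_⟩
    have := congrArg Subtype.val (H09.spTv_conj g p 1)
    have e1 : g.1 * (g⁻¹).1 = 1 := by
      rw [← Submonoid.coe_mul, mul_inv_cancel]; rfl
    simp only [Submonoid.coe_mul, H09.spTv, one_smul, mul_add, add_mul, mul_one, e1,
      add_right_inj] at this
    exact this
  pair := by
    rintro _ ⟨p, hp, rfl⟩ _ ⟨q, hq, rfl⟩
    refine ⟨_, vv3 _ _ _ _, by rw [vv3, mul_comm], fun h0 => Or.inl ?_⟩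
    rw [sp_dot, sp_dot, ← H09.spB_alt.neg_eq] at h0
    have : H09.spB l F p q = 0 := by simpa using h0
    rw [vv_mul, vv_mul, sp_dot, sp_dot, ← H09.spB_alt.neg_eq, this]; simp

theorem sp_opp {p q : l ⊕ l → F} (h : H09.spB l F p q ≠ 0) :
    Opp F (vecMulVec p (J l F *ᵥ p)) (vecMulVec q (J l F *ᵥ q)) :=
  opp_vv (by rwa [sp_dot, ← H09.spB_alt.neg_eq, neg_ne_zero]) (by rwa [sp_dot])

theorem sp_deg : ∀ N ∈ spE l F, ∀ M ∈ spE l F, Opp F N M ∨ N * M = M * N := by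
  rintro _ ⟨p, hp, rfl⟩ _ ⟨q, hq, rfl⟩
  by_cases h : H09.spB l F p q = 0
  · right
    rw [vv_mul, vv_mul, sp_dot, sp_dot, ← H09.spB_alt.neg_eq, h]; simp
  · exact Or.inl (sp_opp h)

theorem sp_conn : ∀ N ∈ spE l F, ∀ M ∈ spE l F,
    Relation.ReflTransGen (fun X Y => X ∈ spE l F ∧ Y ∈ spE l F ∧ Opp F X Y) N M := by
  rintro _ ⟨p, hp, rfl⟩ _ ⟨q, hq, rfl⟩
  obtain ⟨r, -, r1, r2⟩ := two_ne (fun _ => True) (fun _ _ _ _ => trivial)
    (H09.spB l F · p) (H09.spB l F · q) (by simp) (by simp) (by simpa using sp_ex hp)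
    (by simpa using sp_ex hq)
  have hr : r ≠ 0 := by rintro rfl; simp at r1
  exact (Relation.ReflTransGen.single ⟨⟨p, hp, rfl⟩, ⟨r, hr, rfl⟩, (sp_opp r1).symm⟩).tail
    ⟨⟨r, hr, rfl⟩, ⟨q, hq, rfl⟩, sp_opp r2⟩

theorem sp_gen : (⨆ A ∈ fam F (symplecticGroup l F).subtype (spE l F), A) = ⊤ := by
  refine H09.sp_eq_top_of_tv_mem _ fun v c => ?_
  by_cases hv : v = 0
  · rw [hv, H09.spTv_zero_left]; exact one_mem _
  · exact (le_iSup₂_of_le (f := fun A (_ : A ∈ fam F _ (spE l F)) => A) _ ⟨_, ⟨v, hv, rfl⟩, rfl⟩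
      le_rfl) ((mem_rt (sp_sys.sq _ ⟨v, hv, rfl⟩)).2 ⟨c, rfl⟩)

theorem sp_fam : {A : Subgroup ↥(symplecticGroup l F) | ∃ p : l ⊕ l → F, p ≠ 0 ∧
    A = Subgroup.closure {g : ↥(symplecticGroup l F) | ∃ c : F, ∀ v : l ⊕ l → F,
      (g : Matrix (l ⊕ l) (l ⊕ l) F) *ᵥ v = v + (c * (v ⬝ᵥ (J l F *ᵥ p))) • p}} =
    fam F (symplecticGroup l F).subtype (spE l F) := by
  have e : ∀ p : l ⊕ l → F, Subgroup.closure {g : ↥(symplecticGroup l F) | ∃ c : F,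
      ∀ v : l ⊕ l → F, (g : Matrix (l ⊕ l) (l ⊕ l) F) *ᵥ v = v + (c * (v ⬝ᵥ (J l F *ᵥ p))) • p} =
      rt F (symplecticGroup l F).subtype (vecMulVec p (J l F *ᵥ p)) := fun p => by
    unfold rt
    congr 1
    ext g
    simp only [Set.mem_setOf_eq, ext_iff_mulVec, H09.tv_mulVec, H09.spB_apply]
    rfl
  ext A
  constructor
  · rintro ⟨p, hp, rfl⟩
    exact ⟨_, ⟨p, hp, rfl⟩, e p⟩
  · rintro ⟨_, ⟨p, hp, rfl⟩, rfl⟩
    exact ⟨p, hp, (e p).symm⟩

end Sp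

end H12.Ext
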