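import Cfsg.Agent.S0098
import Cfsg.Agent.S0245
import Cfsg.Agent.S0246
import Cfsg.Agent.H09.SpOrder
import Cfsg.Agent.H09.SLBasic

/-!
# The group `3^{1+2} : SL₂(3)` (`H12.He3.Y`) and its embedding in `Sp₄(3)`
-/

namespace H12.He3
open Subgroup Cfsg Matrix
open scoped commutatorElement

/-- symmetric model of `3^{1+2}_+` -/
@[ext] structure He where
  /-- coordinate -/
  x : ZMod 3
  /-- coordinate -/
  y : ZMod 3
  /-- coordinate -/
  k : ZMod 3

/-- as a set -/
def He.eqv : ZMod 3 × ZMod 3 × ZMod 3 ≃ He := ⟨fun a => ⟨a.1, a.2.1, a.2.2⟩, fun a => (a.x, a.y, a.k), fun _ => rfl, fun _ => rfl⟩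
instance He.decEq : DecidableEq He := He.eqv.symm.decidableEq
instance He.fintype : Fintype He := .ofEquiv _ He.eqv
instance He.mul : Mul He := ⟨fun a b => ⟨a.x + b.x, a.y + b.y, a.k + b.k + (a.x * b.y - a.y * b.x)⟩⟩
instance He.one : One He := ⟨⟨0, 0, 0⟩⟩
instance He.inv : Inv He := ⟨fun a => ⟨-a.x, -a.y, -a.k⟩⟩
@[simp] theorem mul_x (a b : He) : (a * b).x = a.x + b.x := rfl
@[simp] theorem mul_y (a b : He) : (a * b).y = a.y + b.y := rfl
@[simp] theorem mul_k (a b : He) : (a * b).k = a.k + b.k + (a.x * b.y - a.y * b.x) := rfl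
@[simp] theorem one_x : (1 : He).x = 0 := rfl
@[simp] theorem one_y : (1 : He).y = 0 := rfl
@[simp] theorem one_k : (1 : He).k = 0 := rfl
@[simp] theorem inv_x (a : He) : a⁻¹.x = -a.x := rfl
@[simp] theorem inv_y (a : He) : a⁻¹.y = -a.y := rfl
@[simp] theorem inv_k (a : He) : a⁻¹.k = -a.k := rfl
instance He.group : Group He := Group.ofLeftAxioms
  (fun a b c => by ext <;> simp <;> ring) (fun a => by ext <;> simp) fun a => by ext <;> simp; ring

/-- generator of the centre -/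
def z : He := ⟨0, 0, 1⟩
theorem cube : ∀ a : He, a ^ 3 = 1 := by decide +kernel
theorem mem_z {a : He} (h1 : a.x = 0) (h2 : a.y = 0) : a ∈ zpowers z :=
  ⟨(a.k.val : ℕ), by
    have : ∀ a : He, a.x = 0 → a.y = 0 → z ^ a.k.val = a := by decide +kernel
    exact (zpow_natCast ..).trans (this a h1 h2)⟩

theorem extra : IsExtraspecial 3 He := by
  refine H04.isExtraspecial_of_aes_top (z := z) ⟨orderOf_eq_prime (cube _) (by decide), trivial,
    fun a _ => by ext <;> simp [z, add_comm], fun a _ b _ => mem_z (by simp [commutatorElement_def]) (by simp [commutatorElement_def]),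
    fun a _ => cube a ▸ one_mem _⟩ (fun a h => ?_) fun h => absurd (h.1.1 ⟨1, 0, 0⟩ ⟨0, 1, 0⟩) (by decide)
  have : ∀ a : He, ⟨1, 0, 0⟩ * a = a * ⟨1, 0, 0⟩ → ⟨0, 1, 0⟩ * a = a * ⟨0, 1, 0⟩ → a.x = 0 ∧ a.y = 0 := by decide +kernel
  exact (this a (mem_center_iff.1 h _) (mem_center_iff.1 h _)).elim mem_z

theorem lin (α : He →* He) (a : He) : α a = ⟨(α ⟨1, 0, 0⟩).x * a.x + (α ⟨0, 1, 0⟩).x * a.y, (α ⟨1, 0, 0⟩).y * a.x + (α ⟨0, 1, 0⟩).y * a.y,
    ((α ⟨1, 0, 0⟩).x * (α ⟨0, 1, 0⟩).y - (α ⟨0, 1, 0⟩).x * (α ⟨1, 0, 0⟩).y) * a.k + (α ⟨1, 0, 0⟩).k * a.x + (α ⟨0, 1, 0⟩).k * a.y⟩ := by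
  have : ∀ u v a : He, u ^ a.x.val * v ^ a.y.val * (u * v * u⁻¹ * v⁻¹) ^ (a.x * a.y - a.k).val =
      ⟨u.x * a.x + v.x * a.y, u.y * a.x + v.y * a.y, (u.x * v.y - v.x * u.y) * a.k + u.k * a.x + v.k * a.y⟩ := by decide +kernel
  rw [← this, ← map_inv, ← map_inv, ← map_mul, ← map_mul, ← map_mul, ← map_pow, ← map_pow, ← map_pow, ← map_mul, ← map_mul, this]
  congr 1; ext <;> simp

/-- `SL₂(3)` -/
abbrev SL := SpecialLinearGroup (Fin 2) (ZMod 3)

/-- the action on `He` -/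
def act (g : SL) : He →* He := MonoidHom.mk' (fun a => ⟨g 0 0 * a.x + g 0 1 * a.y, g 1 0 * a.x + g 1 1 * a.y, a.k⟩) fun a b => by
  have := g.2
  rw [det_fin_two] at this
  ext <;> simp
  · ring
  · ring
  · linear_combination (a.y * b.x - a.x * b.y) * this

@[simp] theorem act_x (g : SL) (a : He) : (act g a).x = g 0 0 * a.x + g 0 1 * a.y := rfl
@[simp] theorem act_y (g : SL) (a : He) : (act g a).y = g 1 0 * a.x + g 1 1 * a.y := rfl
@[simp] theorem act_k (g : SL) (a : He) : (act g a).k = a.k := rfl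
theorem act_mul (g h : SL) (a : He) : act (g * h) a = act g (act h a) := by ext <;> simp [mul_apply, Fin.sum_univ_two] <;> ring
@[simp] theorem act_one (a : He) : act 1 a = a := by ext <;> simp

/-- `3^{1+2} : SL₂(3)` -/
@[ext] structure Y where
  /-- the `3^{1+2}` part -/
  h : He
  /-- the `SL₂(3)` part -/
  g : SL

instance Y.mul : Mul Y := ⟨fun a b => ⟨a.h * act a.g b.h, a.g * b.g⟩⟩
instance Y.one : One Y := ⟨⟨1, 1⟩⟩
instance Y.inv : Inv Y := ⟨fun a => ⟨act a.g⁻¹ a.h⁻¹, a.g⁻¹⟩⟩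
@[simp] theorem mul_h (a b : Y) : (a * b).h = a.h * act a.g b.h := rfl
@[simp] theorem mul_g (a b : Y) : (a * b).g = a.g * b.g := rfl
@[simp] theorem one_h : (1 : Y).h = 1 := rfl
@[simp] theorem one_g : (1 : Y).g = 1 := rfl
instance Y.group : Group Y := Group.ofLeftAxioms
  (fun a b c => Y.ext (by simp [act_mul, mul_assoc]) (mul_assoc ..)) (fun a => Y.ext (by simp) (one_mul _))
  fun a => Y.ext ((map_mul ..).symm.trans (by simp)) (inv_mul_cancel _)

/-- the symplectic matrix -/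
def mat (a : Y) : Matrix (Fin 2 ⊕ Fin 2) (Fin 2 ⊕ Fin 2) (ZMod 3) :=
  fromBlocks !![1, a.h.x * a.g 1 0 - a.h.y * a.g 0 0; 0, a.g 0 0] !![a.h.k, a.h.x * a.g 1 1 - a.h.y * a.g 0 1; a.h.x, a.g 0 1]
    !![0, 0; 0, a.g 1 0] !![1, 0; a.h.y, a.g 1 1]

/-- the embedding -/
def μ : Y →* symplecticGroup (Fin 2) (ZMod 3) := MonoidHom.mk' (fun a => ⟨mat a, by
    have := a.g.2
    rw [det_fin_two] at this
    rw [SymplecticGroup.mem_iff']
    ext (i | i) (j | j) <;> fin_cases i <;> fin_cases j <;> simp [mat, J, mul_apply, Fin.sum_univ_two] <;>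
      first | ring1 | linear_combination this | linear_combination -this⟩) fun a b => Subtype.ext (by
    have := a.g.2
    rw [det_fin_two] at this
    ext (i | i) (j | j) <;> fin_cases i <;> fin_cases j <;> simp [mat, mul_apply, Fin.sum_univ_two] <;>
      first | ring1 | linear_combination (b.h.x * b.g 1 0 - b.h.y * b.g 0 0) * this | linear_combination (b.h.x * b.g 1 1 - b.h.y * b.g 0 1) * this)

/-- the central element -/
def c : Y := ⟨z, 1⟩
theorem c_comm (a : Y) : a * c = c * a := by ext <;> simp [c, z, add_comm]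

theorem col (g : symplecticGroup (Fin 2) (ZMod 3)) (h : g * μ c = μ c * g) : g.1 (.inl 1) (.inl 0) = 0 ∧ g.1 (.inr 0) (.inl 0) = 0 ∧
    g.1 (.inr 1) (.inl 0) = 0 ∧ g.1 (.inr 0) (.inl 1) = 0 ∧ g.1 (.inr 0) (.inr 1) = 0 ∧ g.1 (.inr 0) (.inr 0) = g.1 (.inl 0) (.inl 0) := by
  have e := fun i j => congrFun (congrFun (congrArg Subtype.val h) i) j
  have e1 := e (.inl 1) (.inr 0)
  have e2 := e (.inr 0) (.inr 0)
  have e3 := e (.inr 1) (.inr 0)
  have e4 := e (.inl 0) (.inl 1)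
  have e5 := e (.inl 0) (.inr 1)
  have e6 := e (.inl 0) (.inr 0)
  simp [μ, mat, c, z, mul_apply, Fin.sum_univ_two] at e1 e2 e3 e4 e5 e6
  exact ⟨e1, e2, e3, e4, e5, by linear_combination -e6⟩

theorem cent1 (g : symplecticGroup (Fin 2) (ZMod 3)) (h : g * μ c = μ c * g) (h1 : g.1 (.inl 0) (.inl 0) = 1) : g ∈ μ.range := by
  obtain ⟨e1, e2, e3, e4, e5, e6⟩ := col g h
  have s := fun i j => congrFun (congrFun (SymplecticGroup.mem_iff'.1 g.2) i) j
  have s1 := s (.inl 1) (.inr 1)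
  have s2 := s (.inl 1) (.inr 0)
  have s3 := s (.inr 1) (.inr 0)
  simp [J, mul_apply, Fin.sum_univ_two, e1, e2, e3, e4, e5, e6, h1] at s1 s2 s3
  refine ⟨⟨⟨g.1 (.inl 1) (.inr 0), g.1 (.inr 1) (.inr 0), g.1 (.inl 0) (.inr 0)⟩, ⟨!![g.1 (.inl 1) (.inl 1), g.1 (.inl 1) (.inr 1);
    g.1 (.inr 1) (.inl 1), g.1 (.inr 1) (.inr 1)], by rw [det_fin_two_of]; linear_combination -s1⟩⟩, Subtype.ext ?_⟩
  ext (i | i) (j | j) <;> fin_cases i <;> fin_cases j <;> simp [μ, mat, h1, e1, e2, e3, e4, e5, e6]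
  · linear_combination s2
  · linear_combination s3

theorem conc (F : Type*) [Field F] [Fintype F] (hF : Fintype.card F = 3) : ∃ (x : PSp 2 F) (S : Sylow 3 (PSp 2 F)), orderOf x = 3 ∧
    x ∈ (S : Subgroup (PSp 2 F)) ∧ x ∈ centralizer ((S : Subgroup (PSp 2 F)) : Set (PSp 2 F)) ∧ Nonempty (Y ≃* centralizer ({x} : Set (PSp 2 F))) := by
  have hN : Nat.card (PSp 2 F) = 25920 := by
    have h1 := Cfsg.Agent.S0245.result hF 2
    have h2 := Cfsg.Agent.S0246.result hF 2 (by norm_num)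
    have h3 := (center (symplecticGroup (Fin 2) F)).card_eq_card_quotient_mul_card_subgroup
    rw [h1, h2] at h3
    generalize Nat.card (PSp 2 F) = x at h3 ⊢
    simp [Finset.prod_range_succ] at h3
    omega
  have : Finite (PSp 2 F) := Nat.finite_of_card_ne_zero (by omega)
  let Ψ := H09.centerQuotEquiv (H09.spMapEquiv (l := Fin 2) (ZMod.ringEquivOfPrime F Nat.prime_three hF))
  let ν : Y →* PSp 2 F := Ψ.toMonoidHom.comp ((QuotientGroup.mk' _).comp μ)
  have n1 : (1 : ZMod 3) ≠ -1 := by decide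
  have inj : Function.Injective ν := (injective_iff_map_eq_one _).2 fun a h => by
    rcases H09.sp_mem_center_iff.1 ((QuotientGroup.eq_one_iff _).1 ((map_eq_one_iff Ψ Ψ.injective).1 h)) with h | h
    · have e := fun i j => congrFun (congrFun (congrArg Subtype.val h) i) j
      ext i j
      · exact e (.inl 1) (.inr 0)
      · exact e (.inr 1) (.inr 0)
      · exact e (.inl 0) (.inr 0)
      · fin_cases i <;> fin_cases j
        exacts [e (.inl 1) (.inl 1), e (.inl 1) (.inr 1), e (.inr 1) (.inl 1), e (.inr 1) (.inr 1)]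
    · exact absurd (congrFun (congrFun (congrArg Subtype.val h) (.inl 0)) (.inl 0)) n1
  have c3 : c ^ 3 = 1 := by ext <;> simp [c, z, pow_succ]; decide
  have rg : centralizer {ν c} = ν.range := le_antisymm (fun x hx => by
    obtain ⟨x, rfl⟩ := Ψ.surjective x
    obtain ⟨g, rfl⟩ := QuotientGroup.mk_surjective x
    have w := mem_center_iff.1 (H09.sp_mem_center_iff (l := Fin 2) (F := ZMod 3).2 (.inr rfl))
    have h : g * μ c = μ c * g := by
      rcases H09.sp_mem_center_iff.1 (QuotientGroup.eq.1 (Ψ.injective (show Ψ (g * μ c :) = Ψ (μ c * g :) from (map_mul Ψ _ _).trans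
        ((mem_centralizer_singleton_iff.1 hx).trans (map_mul Ψ _ _).symm)))) with h | h
      · exact inv_mul_eq_one.1 h
      · have : (g⁻¹ * μ c * g) ^ 3 = (μ c * -1) ^ 3 := by rw [← h]; group
        rw [Commute.mul_pow (w _), ← MulAut.conj_inv_apply, ← map_pow, ← map_pow, c3, map_one, map_one] at this
        exact absurd (congrFun (congrFun (congrArg Subtype.val this) (.inl 0)) (.inl 0)) (by decide +kernel)
    have : g.1 (.inl 0) (.inl 0) = 1 ∨ (-1 * g).1 (.inl 0) (.inl 0) = 1 := by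
      obtain ⟨e1, e2, e3, -⟩ := col g h
      have s := congrFun (congrFun (SymplecticGroup.mem_iff'.1 g.2) (.inl 0)) (.inr 0)
      simp [J, mul_apply, Fin.sum_univ_two, e1, e2, e3] at s
      have : ∀ a b : ZMod 3, a * b = 1 → a = 1 ∨ -a = 1 := by decide
      simpa using this _ _ s
    rcases this with e | e
    · obtain ⟨a, rfl⟩ := cent1 g h e; exact ⟨a, rfl⟩
    · obtain ⟨a, ha⟩ := cent1 (-1 * g) (by rw [mul_assoc, h, ← mul_assoc, ← w, mul_assoc]) e
      exact ⟨a, congrArg Ψ (QuotientGroup.eq.2 (by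
        rw [ha, ← w, inv_mul_cancel_left]; exact mem_center_iff.2 w)).symm⟩)
    (by rintro _ ⟨a, rfl⟩; exact mem_centralizer_singleton_iff.2 (by rw [← map_mul, c_comm, map_mul]))
  have cY : Nat.card Y = 648 := by
    rw [Nat.card_congr (⟨fun a => (a.h, a.g), fun a => ⟨a.1, a.2⟩, fun _ => rfl, fun _ => rfl⟩ : Y ≃ He × SL), Nat.card_eq_fintype_card]
    decide +kernel
  have : Finite Y := Nat.finite_of_card_ne_zero (by omega)
  have oc : orderOf c = 3 := orderOf_eq_prime c3 fun h => absurd (congrArg (·.h.k) h) (by decide)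
  obtain ⟨P⟩ : Nonempty (Sylow 3 Y) := inferInstance
  have f : ∀ n, ¬ 3 ∣ n → (3 ^ 4 * n).factorization 3 = 4 := fun n h => by
    rw [Nat.factorization_mul (by norm_num) (by rintro rfl; simp at h), Nat.prime_three.factorization_pow]
    simp [Nat.factorization_eq_zero_of_not_dvd h]
  have : (zpowers c).Normal := ⟨fun a h g => by
    rwa [mem_center_iff.1 (zpowers_le.2 (mem_center_iff.2 c_comm) h) g, mul_inv_cancel_right]⟩
  refine ⟨ν c, Sylow.ofCard (P.1.map ν) (by rw [card_map_of_injective inj, P.card_eq_multiplicity, hN, cY]; exact congrArg _ ((f 8 (by decide)).trans (f 320 (by decide)).symm)),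
    by rw [orderOf_injective ν inj, oc], mem_map_of_mem ν ((IsPGroup.of_card (n := 1) (by rw [Nat.card_zpowers, oc]; rfl)).le_sylow_of_normal P
      (mem_zpowers c)), ?_, ⟨rg ▸ MonoidHom.ofInjective inj⟩⟩
  rintro _ ⟨a, -, rfl⟩
  rw [← map_mul, c_comm, map_mul]

end H12.He3
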