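import Cfsg.Agent.H12.He3
import Cfsg.Agent.H02.PCore
import Cfsg.Agent.H01.Gaschutz
import Cfsg.Agent.H04.Basic

/-!
# Recognition of `3^{1+2} : SL₂(3)` : `H12.He3.recog`
-/

namespace H12.He3
open Subgroup Cfsg Matrix

theorem recog {X : Type*} [Group X] [Finite X] (ι : He →* X) (inj : Function.Injective ι) (π : X →* SL) (sj : Function.Surjective π)
    (ker : π.ker = ι.range) (hO2 : pCore 2 X = ⊥) {E : Subgroup X} [IsMulCommutative E] (E3 : ∀ a ∈ E, a ^ 3 = 1) (cE : Nat.card E = 27) :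
    Nonempty (X ≃* Y) := by
  have three : (3 : ZMod 3) = 0 := rfl
  have kr : ∀ {x}, π x = 1 → ∃ a, ι a = x := fun h => ker.le h
  have πι : ∀ a, π (ι a) = 1 := fun a => ker.ge ⟨a, rfl⟩
  obtain ⟨θ, hθ⟩ : ∃ θ : X → He →* He, ∀ x a, ι (θ x a) = x * ι a * x⁻¹ := by
    choose f hf using fun x a => kr (x := x * ι a * x⁻¹) (by simp [πι])
    exact ⟨fun x => MonoidHom.mk' (f x) fun a b => inj (by simp [hf]), hf⟩
  have θι : ∀ a b, θ (ι a) b = a * b * a⁻¹ := fun a b => inj (by simp [hθ])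
  have θm : ∀ x y a, θ (x * y) a = θ x (θ y a) := fun x y a => inj (by simp [hθ, mul_assoc])
  have θ1 : ∀ a, θ 1 a = a := fun a => inj (by simp [hθ])
  obtain ⟨ρ, ρe⟩ : ∃ ρ : X →* Matrix (Fin 2) (Fin 2) (ZMod 3), ∀ x, ρ x = !![(θ x ⟨1, 0, 0⟩).x, (θ x ⟨0, 1, 0⟩).x;
      (θ x ⟨1, 0, 0⟩).y, (θ x ⟨0, 1, 0⟩).y] := ⟨⟨⟨_, by simp only [θ1]; decide⟩, fun x y => by
    ext i j; fin_cases i <;> fin_cases j <;> simp [mul_apply, Fin.sum_univ_two, θm, lin (θ x) (θ y _)]⟩, fun _ => rfl⟩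
  have θe : ∀ x a, θ x a = ⟨ρ x 0 0 * a.x + ρ x 0 1 * a.y, ρ x 1 0 * a.x + ρ x 1 1 * a.y,
      (ρ x).det * a.k + (θ x ⟨1, 0, 0⟩).k * a.x + (θ x ⟨0, 1, 0⟩).k * a.y⟩ := fun x a => by
    rw [det_fin_two, ρe]; exact lin _ a
  have ρι : ∀ a, ρ (ι a) = 1 := fun a => by ext i j; fin_cases i <;> fin_cases j <;> simp [ρe, θι]
  have ρπ : ∀ x y, π x = π y → ρ x = ρ y := fun x y h => by
    obtain ⟨a, ha⟩ := kr (x := x * y⁻¹) (by simp [h])
    rw [← inv_mul_cancel_right x y, ← ha, map_mul, ρι, one_mul]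
  have dt : ∀ x, (ρ x).det = 1 := fun x => by
    obtain ⟨h, k, e⟩ : ∃ h k, π x = h * h * (k * k) := (by decide +kernel : ∀ g : SL, ∃ h k, g = h * h * (k * k)) _
    obtain ⟨h, rfl⟩ := sj h
    obtain ⟨k, rfl⟩ := sj k
    have : ∀ y, (ρ y).det * (ρ y).det = 1 := fun y => (by decide : ∀ a b : ZMod 3, a * b = 1 → a * a = 1) _ (ρ y⁻¹).det (by
      rw [← det_mul, ← map_mul]; simp)
    simp [ρπ x (h * h * (k * k)) (by simp [e]), this]
  obtain ⟨t, tt, πt, θt⟩ : ∃ t : X, t * t = 1 ∧ π t = -1 ∧ ∀ a, θ t a = ⟨-a.x, -a.y, a.k⟩ := by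
    obtain ⟨i, hi⟩ := sj ⟨!![0, -1; 1, 0], by decide⟩
    obtain ⟨a, ha⟩ := kr (x := i ^ 4) (by rw [map_pow, hi]; decide +kernel)
    have i1 : i ^ 6 * i ^ 6 = 1 := by rw [← pow_add, show 6 + 6 = 4 * 3 from rfl, pow_mul, ← ha, ← map_pow, cube, map_one]
    have i2 : π (i ^ 6) = -1 := by rw [map_pow, hi]; decide +kernel
    have := (by decide +kernel : ∀ m : Matrix (Fin 2) (Fin 2) (ZMod 3), m ^ 2 * m ^ 2 = 1 → m ^ 2 = 1 ∨ m ^ 2 = -1) (ρ (i ^ 3)) (by
      rw [← map_pow, ← map_mul, ← pow_mul, i1, map_one])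
    rw [← map_pow, ← pow_mul] at this
    generalize i ^ (3 * 2) = t at *
    have t2 : ∀ a, θ t (θ t a) = a := fun a => by rw [← θm, i1, θ1]
    rcases this with h | h
    · have c : ∀ a, θ t a = a := fun a => by
        have := congrArg He.k (t2 a)
        rw [θe t a, θe t] at this
        rw [θe t a]
        ext <;> simp [h] at this ⊢
        linear_combination 2 * this - ((θ t ⟨1, 0, 0⟩).k * a.x + (θ t ⟨0, 1, 0⟩).k * a.y) * three
      have cz : t ∈ center X := mem_center_iff.2 fun g => by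
        obtain ⟨a, ha⟩ := kr (x := t⁻¹ * (g * t * g⁻¹)) (by simp [i2])
        have e := hθ t a
        have : a * a = 1 := inj (by
          rw [map_mul, map_one]; nth_rw 1 [← c a]; rw [e, ha, inv_eq_of_mul_eq_one_right i1]
          simp [mul_assoc, ← mul_assoc t t, i1])
        rw [(by decide +kernel : ∀ a : He, a * a = 1 → a = 1) a this, map_one, eq_inv_mul_iff_mul_eq, mul_one] at ha
        exact mul_inv_eq_iff_eq_mul.1 ha.symm
      have : (zpowers t).Normal := ⟨fun a h g => by rwa [mem_center_iff.1 (zpowers_le.2 cz h) g, mul_inv_cancel_right]⟩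
      have := H02.le_pCore (p := 2) (N := zpowers t) (IsPGroup.of_card_dvd_pow (n := 1)
        (by rw [Nat.card_zpowers, orderOf_dvd_iff_pow_eq_one, pow_one, pow_two, i1])) (mem_zpowers t)
      rw [hO2, mem_bot] at this
      exact absurd (this ▸ i2) (by rw [map_one]; decide)
    · let v : He := ⟨(θ t ⟨0, 1, 0⟩).k, -(θ t ⟨1, 0, 0⟩).k, 0⟩
      refine ⟨ι v * t * (ι v)⁻¹, by simp [i1], by simp [πι, i2], fun a => ?_⟩
      rw [← map_inv, θm, θm, θι, θι, θe t, dt, h]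
      ext <;> simp [v]
      linear_combination -((θ t ⟨1, 0, 0⟩).k * a.x + (θ t ⟨0, 1, 0⟩).k * a.y) * three
  have ρt : ρ t = -1 := by rw [ρe, θt, θt]; decide
  have kρ : ∀ x, ρ x = 1 → π x = 1 := fun x h => by
    have n : ∀ y, ρ y = 1 → π y ≠ -1 := fun y h e => absurd (h.symm.trans ((ρπ _ _ (e.trans πt.symm)).trans ρt)) (by decide)
    obtain ⟨i, hi⟩ : ∃ i : SL, ∀ g : SL, g = 1 ∨ g = -1 ∨ g ^ 2 = -1 ∨ g ^ 3 = -1 ∨ (g * (i * g⁻¹ * i⁻¹)) ^ 2 = -1 :=
      ⟨⟨!![0, -1; 1, 0], by decide⟩, by decide +kernel⟩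
    obtain ⟨i, rfl⟩ := sj i
    rcases hi (π x) with e | e | e | e | e
    · exact e
    · exact absurd e (n _ h)
    · exact absurd (by simpa using e) (n (x ^ 2) (by simp [h]))
    · exact absurd (by simpa using e) (n (x ^ 3) (by simp [h]))
    · have k : x ∈ ρ.toHomUnits.ker := Units.ext h
      exact absurd (by simpa using e) (n ((x * (i * x⁻¹ * i⁻¹)) ^ 2) (congrArg Units.val
        (pow_mem (mul_mem k ((inferInstance : ρ.toHomUnits.ker.Normal).conj_mem _ (inv_mem k) i)) 2)))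
  let N := centralizer {t}
  let σ : X →* SL := MonoidHom.mk' (fun x => ⟨ρ x, dt x⟩) fun x y => Subtype.ext (map_mul ..)
  have θN : ∀ x ∈ N, ∀ a, θ x a = act (σ x) a := fun x hx a => by
    have : ∀ a : He, a.k = 0 → (θ x a).k = 0 := fun a h => by
      have e : θ x (θ t a) = θ t (θ x a) := by rw [← θm, mem_centralizer_singleton_iff.1 hx, θm]
      rw [θt, θt, show (⟨-a.x, -a.y, a.k⟩ : He) = a⁻¹ by ext <;> simp [h], map_inv] at e
      have := congrArg He.k e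
      simp only [inv_k] at this
      linear_combination this + (θ x a).k * three
    rw [θe, this ⟨1, 0, 0⟩ rfl, this ⟨0, 1, 0⟩ rfl, dt]
    exact He.ext rfl rfl (by simp)
  have NR : ∀ x, ∃ a, ∃ n ∈ N, x = ι a * n := fun x => by
    obtain ⟨a, ha⟩ := kr (x := x * t * x⁻¹ * t⁻¹) (by simp [πt])
    have e : θ t a = a⁻¹ := inj (by rw [hθ, map_inv, ha, inv_eq_of_mul_eq_one_right tt]; simp [mul_assoc, tt, inv_eq_of_mul_eq_one_right tt])
    refine ⟨a⁻¹, ι a * x, mem_centralizer_singleton_iff.2 ?_, by simp⟩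
    rw [mul_assoc, ← mul_assoc t, mul_inv_eq_iff_eq_mul.1 (hθ t a).symm, e, ← (by decide +kernel : ∀ a : He, a * a = a⁻¹), map_mul]
    simp [ha, mul_assoc]
  have zc : ∀ a : He, a.x = 0 → a.y = 0 → ι a ∈ center X := fun a h1 h2 => mem_center_iff.2 fun x => by
    rw [← mul_inv_eq_iff_eq_mul, ← hθ, θe, dt]; congr 1; ext <;> simp [h1, h2]
  have NZ : ∀ a, ι a ∈ N → a.x = 0 ∧ a.y = 0 := fun a h => by
    have : θ t a = a := inj (by rw [hθ, ← mem_centralizer_singleton_iff.1 h, mul_inv_cancel_right])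
    exact (by decide +kernel : ∀ a : He, ⟨-a.x, -a.y, a.k⟩ = a → a.x = 0 ∧ a.y = 0) a (θt a ▸ this)
  obtain ⟨n, nN, n3, n1⟩ : ∃ n ∈ N, n ^ 3 = 1 ∧ π n ≠ 1 := by
    have cH : Nat.card He = 27 := by rw [Nat.card_eq_fintype_card]; rfl
    obtain ⟨e, eE, e1⟩ : ∃ e ∈ E, π e ≠ 1 := by
      by_contra! h
      have : E = ι.range := eq_of_le_of_card_ge (fun x hx => kr (h x hx)) (by rw [cE, ← Nat.card_congr (MonoidHom.ofInjective inj).toEquiv, cH])
      exact absurd (inj ((map_mul ..).trans ((mul_comm_of_mem_isMulCommutative E (this.ge ⟨⟨1, 0, 0⟩, rfl⟩)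
        (this.ge ⟨⟨0, 1, 0⟩, rfl⟩)).trans (map_mul ..).symm))) (by decide)
    obtain ⟨w, wE, w0⟩ : ∃ w, ι w ∈ E ∧ ¬ (w.x = 0 ∧ w.y = 0) := by
      by_contra! h
      have h1 := (π.comp E.subtype).ker.card_mul_index
      have h2 : Nat.card (π.comp E.subtype).ker ≤ Nat.card (ZMod 3) := by
        choose f hf using fun x : (π.comp E.subtype).ker => kr (x := x.1.1) x.2
        exact Nat.card_le_card_of_injective (fun x => (f x).k) fun x y e => Subtype.ext (Subtype.ext (by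
          have a := h _ (hf x ▸ x.1.2)
          have b := h _ (hf y ▸ y.1.2)
          rw [← hf, ← hf, He.ext (a.1.trans b.1.symm) (a.2.trans b.2.symm) e]))
      have h3 : (π.comp E.subtype).ker.index ∣ 24 := by
        rw [index_ker]; exact (card_subgroup_dvd_card _).trans (by rw [Nat.card_eq_fintype_card]; decide +kernel)
      have h4 : _ ∣ 3 := Nat.dvd_gcd h3 (Dvd.intro_left _ (h1.trans cE))
      rw [Nat.card_zmod] at h2
      have := Nat.mul_le_mul h2 (Nat.le_of_dvd (by decide) h4)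
      omega
    obtain ⟨a, n, nN, rfl⟩ := NR e
    have c : a * act (σ n) w * a⁻¹ = w := inj (by
      rw [← θN n nN, ← θι, ← θm, hθ, mul_comm_of_mem_isMulCommutative E eE wE, mul_inv_cancel_right])
    have d : Commute (ι a) n := by
      have : act (σ n) a = a := (by decide +kernel : ∀ (g : SL) (a w : He), ¬ (w.x = 0 ∧ w.y = 0) → a * act g w * a⁻¹ = w → act g a = a) _ _ _ w0 c
      rw [← θN n nN] at this
      exact (mul_inv_eq_iff_eq_mul.1 ((hθ n a).symm.trans (congrArg ι this))).symm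
    exact ⟨n, nN, by simpa [d.mul_pow, ← map_pow, cube] using E3 _ eE, by simpa [πι] using e1⟩
  let K := (zpowers (ι z)).subgroupOf N
  have zK := zpowers_le.2 (zc z rfl rfl)
  have : K.Normal := ⟨fun a h g => by rwa [show g * a = a * g from Subtype.ext (mem_center_iff.1 (zK h) g), mul_inv_cancel_right]⟩
  have oz : orderOf (ι z) = 3 := by rw [orderOf_injective ι inj]; exact orderOf_eq_prime (cube _) (by decide)
  have kN : (π.comp N.subtype).ker = K := le_antisymm (fun x hx => by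
    obtain ⟨a, ha⟩ := kr hx
    have := mem_map_of_mem ι ((NZ a (ha ▸ x.2)).elim mem_z)
    rwa [MonoidHom.map_zpowers, ha] at this) fun x hx => ker.ge (zpowers_le.2 (show _ ∈ ι.range from ⟨z, rfl⟩) hx)
  have cK : Nat.card K = 3 := by
    rw [Nat.card_congr (subgroupOfEquivOfLe (zK.trans (center_le_centralizer _))).toEquiv, Nat.card_zpowers, oz]
  have nK : (⟨n, nN⟩ : N) ∉ K := fun h => n1 (kN.ge h)
  have n3' : (⟨n, nN⟩ : N) ^ 3 = 1 := Subtype.ext n3
  have cS : Nat.card SL = 24 := by rw [Nat.card_eq_fintype_card]; decide +kernel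
  have iK : K.index = 24 := by
    rw [← kN, index_ker, MonoidHom.range_eq_top.2 fun g => ?_, card_top, cS]
    obtain ⟨x, rfl⟩ := sj g
    obtain ⟨a, n, nN, rfl⟩ := NR x
    exact ⟨⟨n, nN⟩, by simp [πι]⟩
  have d : zpowers (⟨n, nN⟩ : N) ⊓ K = ⊥ := eq_bot_iff.2 (by
    rintro _ ⟨⟨k, rfl⟩, h⟩
    obtain ⟨k, rfl⟩ := (H04.zpow_mem_iff_dvd (p := 3) K nK (n3' ▸ one_mem _) k).1 h
    simp only [_root_.zpow_mul, zpow_natCast, n3', _root_.one_zpow, one_mem])
  obtain ⟨H, hH⟩ := H01.gaschutz_exists K (K ⊔ zpowers ⟨n, nN⟩) le_sup_left (by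
    have := (K ⊔ zpowers ⟨n, nN⟩).card_mul_index.trans K.card_mul_index.symm
    rw [H04.card_sup_zpowers (p := 3) K (le_normalizer_of_normal (mem_top _)) nK (n3' ▸ one_mem _), cK, iK] at this
    rw [cK, show (K ⊔ zpowers ⟨n, nN⟩).index = 8 by omega]; decide) _ d rfl
  have bij : Function.Bijective (σ.comp (N.subtype.comp H.subtype)) := (Nat.bijective_iff_injective_and_card _).2
    ⟨(injective_iff_map_eq_one _).2 fun x h => Subtype.ext (disjoint_def.1 hH.disjoint (kN.le (kρ _ (congrArg Subtype.val h))) x.2),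
      by rw [← hH.symm.index_eq_card, iK, cS]⟩
  let l := (N.subtype.comp H.subtype).comp (MulEquiv.ofBijective _ bij).symm.toMonoidHom
  have lN : ∀ g, l g ∈ N := fun g => Subtype.prop _
  have σl : ∀ g, σ (l g) = g := (MulEquiv.ofBijective _ bij).apply_symm_apply
  let f : Y →* X := MonoidHom.mk' (fun a => ι a.h * l a.g) fun a b => by
    rw [mul_h, mul_g, map_mul, map_mul, ← congrArg (act · b.h) (σl a.g), ← θN _ (lN _), hθ]; group
  refine ⟨(MulEquiv.ofBijective f ⟨(injective_iff_map_eq_one _).2 fun a h => ?_, fun x => ?_⟩).symm⟩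
  · replace h : ι a.h * l a.g = 1 := h
    have : a.g = 1 := by
      rw [← σl a.g, eq_inv_of_mul_eq_one_right h, ← map_inv]; exact Subtype.ext (ρι _)
    exact Y.ext (inj (by simpa [this] using h)) this
  · obtain ⟨a, n, nN, rfl⟩ := NR x
    obtain ⟨⟨k, h⟩, e⟩ := hH.2 ⟨n, nN⟩
    obtain ⟨b, hb⟩ := kr (kN.ge k.2)
    refine ⟨⟨a * b, σ h.1⟩, ?_⟩
    change ι (a * b) * ((MulEquiv.ofBijective _ bij).symm (MulEquiv.ofBijective _ bij h)).1.1 = _
    rw [MulEquiv.symm_apply_apply, map_mul, hb, mul_assoc]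
    exact congrArg (ι a * ·.1) e

end H12.He3
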