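import Mathlib

/-!
# Groups acting on graphs: the group of lifts to the universal covering tree
* `GG en v₀` : pairs (edge path from `v₀` to `σ v₀`, `σ`) inside `FreeGroup E ⋊ Γ`
* `fix` : a finite subgroup fixes a vertex; `fusion` : conjugations between vertex stabilisers factor over edges
-/

namespace H12.Hnn

open FreeGroup SemidirectProduct

variable {Γ E V : Type*} [Group Γ] [MulAction Γ E] (en : E × Bool → V)

/-- edge paths -/
def Path : V → List (E × Bool) → V → Prop
  | v, [], w => v = w
  | v, x :: L, w => en x = v ∧ Path (en (x.1, !x.2)) L w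

variable {en}

theorem path_append {L L' : List (E × Bool)} {v w : V} :
    Path en v (L ++ L') w ↔ ∃ u, Path en v L u ∧ Path en u L' w := by
  induction L generalizing v with
  | nil => simp [Path]
  | cons x L ih => simp [Path, ih, and_assoc]

theorem path_invRev {L : List (E × Bool)} {v w : V} (h : Path en v L w) : Path en w (invRev L) v := by
  induction L generalizing v with
  | nil => exact h.symm
  | cons x L ih => rw [invRev_cons]; exact path_append.2 ⟨_, ih h.2, by simp [invRev, Path, h.1]⟩

theorem path_red {L L' : List (E × Bool)} {v w : V} (r : Red L L') (h : Path en v L w) : Path en v L' w := by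
  induction r with
  | refl => exact h
  | tail _ s ih =>
    cases s
    obtain ⟨u, a, b, -, c⟩ := path_append.1 ih
    exact path_append.2 ⟨u, a, by simpa [b] using c⟩

variable (Γ E) in
/-- the action on the free group -/
def act : Γ →* MulAut (FreeGroup E) :=
  ⟨⟨fun σ => freeGroupCongr (MulAction.toPerm σ), MulEquiv.toMonoidHom_injective (by ext; simp)⟩,
    fun σ τ => MulEquiv.toMonoidHom_injective (by ext; simp [mul_smul])⟩

theorem act_mk (σ : Γ) (L : List (E × Bool)) : act Γ E σ (mk L) = mk (L.map fun x => (σ • x.1, x.2)) := rfl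

variable [DecidableEq E]

theorem toWord_act (σ : Γ) (f : FreeGroup E) : (act Γ E σ f).toWord = f.toWord.map fun x => (σ • x.1, x.2) := by
  conv_lhs => rw [← mk_toWord (x := f), act_mk, toWord_mk]
  exact IsReduced.reduce_eq ((List.isChain_map _).2 (isReduced_toWord.imp fun a b h e => h (smul_left_cancel σ e)))

theorem norm_act (σ : Γ) (f : FreeGroup E) : (act Γ E σ f).norm = f.norm := by simp [FreeGroup.norm, toWord_act]

variable [MulAction Γ V] (hen : ∀ (σ : Γ) e b, en (σ • e, b) = σ • en (e, b))
include hen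

omit [DecidableEq E] in
theorem path_smul (σ : Γ) {L : List (E × Bool)} {v w : V} (h : Path en v L w) :
    Path en (σ • v) (L.map fun x => (σ • x.1, x.2)) (σ • w) := by
  induction L generalizing v with
  | nil => exact congrArg _ h
  | cons x L ih => exact ⟨by rw [hen, h.1], by simpa [hen] using ih h.2⟩

/-- the group of lifts -/
def GG (v₀ : V) : Subgroup (FreeGroup E ⋊[act Γ E] Γ) where
  carrier := {g | Path en v₀ g.left.toWord (g.right • v₀)}
  one_mem' := by simp [Path]
  mul_mem' := fun {a b} ha hb => by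
    change Path _ _ _ _
    rw [mul_left, toWord_mul, toWord_act, mul_right, mul_smul]
    exact path_red reduce.red (path_append.2 ⟨_, ha, path_smul hen _ hb⟩)
  inv_mem' := fun {a} ha => by
    change Path _ _ _ _
    rw [inv_left, toWord_act, toWord_inv, inv_right]
    simpa using path_smul hen a.right⁻¹ (path_invRev ha)

variable {v₀ : V}

theorem mem_GG {g : FreeGroup E ⋊[act Γ E] Γ} : g ∈ GG hen v₀ ↔ Path en v₀ g.left.toWord (g.right • v₀) := Iff.rfl

theorem edge_mem {x : E × Bool} {τ : Γ} (hx : en x = v₀) (hτ : τ • v₀ = en (x.1, !x.2)) :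
    (⟨mk [x], τ⟩ : FreeGroup E ⋊[act Γ E] Γ) ∈ GG hen v₀ := by
  simp [mem_GG, Path, hx, hτ]

theorem fix (tr : ∀ v, ∃ τ : Γ, τ • v₀ = v) (D : ℕ) (H : Subgroup (FreeGroup E ⋊[act Γ E] Γ)) (hH : H ≤ GG hen v₀)
    (hD : ∀ h ∈ H, h.left.norm ≤ D) : ∃ g ∈ GG hen v₀, ∀ h ∈ H, (g⁻¹ * h * g).left = 1 := by
  induction D generalizing H with
  | zero => exact ⟨1, one_mem _, fun h hh => by simpa using hD h hh⟩
  | succ D ih =>
    by_cases h0 : ∀ h ∈ H, h.left.norm ≤ D
    · exact ih H hH h0
    push Not at h0
    obtain ⟨a, ha, hl⟩ := h0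
    obtain ⟨x, L₀, e₀⟩ := List.exists_cons_of_length_pos (l := a.left.toWord) (lt_of_le_of_lt D.zero_le hl)
    have c1 : ∀ h ∈ H, ∀ y L, h.left.toWord = y :: L → y = x := fun h hh y L e => by
      by_contra hn
      have := hD _ (mul_mem (inv_mem hh) ha)
      rw [mul_left, inv_left, inv_right, ← _root_.map_mul, norm_act, FreeGroup.norm, toWord_mul, toWord_inv, IsReduced.reduce_eq] at this
      · simp [e, FreeGroup.norm] at this hl; omega
      · have r1 : IsReduced (invRev h.left.toWord) := toWord_inv h.left ▸ isReduced_toWord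
        have r2 : IsReduced a.left.toWord := isReduced_toWord
        rw [e, invRev_cons] at r1
        rw [e, invRev_cons, e₀]
        refine IsReduced.append_overlap (L₂ := invRev [y]) r1 ?_ (by simp [invRev])
        rw [e₀] at r2
        refine isReduced_cons_cons.2 ⟨fun i => ?_, r2⟩
        exact (Bool.eq_not_of_ne fun j => hn (Prod.ext i j.symm)).symm
    obtain ⟨τ, hτ⟩ := tr (en (x.1, !x.2))
    have hx : en x = v₀ := by have := hH ha; rw [mem_GG, e₀] at this; exact this.1
    let k : FreeGroup E ⋊[act Γ E] Γ := ⟨mk [x], τ⟩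
    have hk : k ∈ GG hen v₀ := edge_mem hen hx hτ
    have key : ∀ h ∈ H, (k⁻¹ * h * k).left.norm ≤ D := fun h hh => by
      have : (k⁻¹ * h * k).left = act Γ E τ⁻¹ ((mk [x])⁻¹ * h.left * mk [(h.right • x.1, x.2)]) := by
        simp [k, act_mk, mul_smul]
      rw [this, norm_act]
      rcases e : h.left.toWord with _ | ⟨y, L⟩
      · rw [toWord_eq_nil_iff] at e
        have := c1 _ (mul_mem hh ha) (h.right • x.1, x.2) _ (by rw [mul_left, e, one_mul, toWord_act, e₀]; rfl)
        rw [e, this, mul_one, inv_mul_cancel]; simp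
      · obtain rfl := c1 h hh y L e
        rcases L.eq_nil_or_concat with rfl | ⟨M, z, rfl⟩
        · have := c1 _ (inv_mem hh) _ _ (by rw [inv_left, toWord_act, toWord_inv, e]; rfl)
          simpa using congrArg Prod.snd this
        · have := c1 _ (inv_mem hh) (h.right⁻¹ • z.1, !z.2) _ (by
            rw [inv_left, toWord_act, toWord_inv, e]; simp [invRev]; rfl)
          have i : h.left = mk [y] * mk M * (mk [(h.right • y.1, y.2)])⁻¹ := by
            rw [← mk_toWord (x := h.left), e, ← this]; simp [invRev]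
          have j := hD h hh
          rw [FreeGroup.norm, e] at j
          rw [i]
          simp only [mul_assoc, inv_mul_cancel_left, inv_mul_cancel, mul_one]
          exact norm_mk_le.trans (by simp at j; omega)
    obtain ⟨g, hg, e⟩ := ih (H.comap (MulAut.conj k).toMonoidHom)
      (fun h hh => by simpa [mul_assoc] using mul_mem (mul_mem (inv_mem hk) (hH hh)) hk)
      fun h hh => by simpa [mul_assoc] using key _ hh
    exact ⟨k * g, mul_mem hk hg, fun h hh => by simpa [mul_assoc] using e (k⁻¹ * h * k) (by simpa [mul_assoc] using hh)⟩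

theorem fusion (Good : (Γ → Γ → Prop) → Prop) (mono : ∀ r r', (∀ y u, r y u → r' y u) → Good r' → Good r)
    (comp : ∀ r r', Good r → Good r' → Good fun y u => ∃ z, z • v₀ = v₀ ∧ r y z ∧ r' z u)
    (base : ∀ s, s • v₀ = v₀ → Good fun y u => u = s * y * s⁻¹)
    (edge : ∀ x, en x = v₀ → ∃ τ : Γ, τ • v₀ = en (x.1, !x.2) ∧ Good fun y u => u • x.1 = x.1 ∧ u = τ * y * τ⁻¹)
    (g : FreeGroup E ⋊[act Γ E] Γ) (hg : g ∈ GG hen v₀) : Good fun y u => inr u = g * inr y * g⁻¹ := by
  generalize e : g.left.toWord.length = n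
  induction n generalizing g with
  | zero =>
    rw [mem_GG, List.length_eq_zero_iff.1 e] at hg
    exact mono _ _ (fun y u h => by simpa using congrArg SemidirectProduct.right h) (base _ hg.symm)
  | succ n ih =>
    obtain ⟨x, L, i⟩ := List.exists_cons_of_length_eq_add_one e
    have hx : en x = v₀ := by rw [mem_GG, i] at hg; exact hg.1
    obtain ⟨τ, hτ, G⟩ := edge x hx
    let k : FreeGroup E ⋊[act Γ E] Γ := ⟨mk [x], τ⟩
    have r : IsReduced (x :: L) := i ▸ isReduced_toWord
    have := ih (k⁻¹ * g) (mul_mem (inv_mem (edge_mem hen hx hτ)) hg) (by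
      rw [mul_left, inv_left, inv_right, ← _root_.map_mul, toWord_act, ← mk_toWord (x := g.left), i,
        ← List.singleton_append, ← mul_mk, inv_mul_cancel_left, toWord_mk, (r.infix (List.infix_cons List.infix_rfl)).reduce_eq]
      simpa [i] using e)
    refine mono _ _ (fun y u h => ?_) (comp _ _ this G)
    have f : u • x.1 = x.1 := by
      have := congrArg (fun a => a.left.toWord) (eq_mul_inv_iff_mul_eq.1 h)
      simp only [mul_left, left_inr, right_inr, one_mul, _root_.map_one, mul_one, toWord_act, i] at this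
      exact congrArg Prod.fst (List.cons.inj this).1
    refine ⟨τ⁻¹ * u * τ, by rw [mul_smul, mul_smul, hτ, ← hen, f, ← hτ, inv_smul_smul], ?_, f, by group⟩
    have : inr (τ⁻¹ * u * τ) = k⁻¹ * inr u * k := by
      rw [mul_assoc k⁻¹, eq_inv_mul_iff_mul_eq]; ext <;> simp [k, act_mk, f, mul_assoc]
    rw [this, h]; group

end H12.Hnn
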