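import Cfsg.Agent.H12.Hnn
import Cfsg.Prelude.Def_FusionSystem

/-!
# Every fusion system is realized by a virtually free group (Leary–Stancu): `realize`
-/

namespace H12.Hnn

open SemidirectProduct Cfsg

theorem exists_perm {S P : Type*} [Group S] [Finite S] [Group P] (i j : P →* S) (hi : Function.Injective i)
    (hj : Function.Injective j) : ∃ π : Equiv.Perm S, ∀ x u, π (x * i u) = π x * j u := by
  have c : Nat.card (S ⧸ i.range) = Nat.card (S ⧸ j.range) := by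
    have a := i.range.card_eq_card_quotient_mul_card_subgroup
    rw [j.range.card_eq_card_quotient_mul_card_subgroup, ← Nat.card_congr (MonoidHom.ofInjective hi).toEquiv,
      ← Nat.card_congr (MonoidHom.ofInjective hj).toEquiv] at a
    have := Finite.of_injective _ hi
    exact (Nat.eq_of_mul_eq_mul_right Nat.card_pos a).symm
  obtain ⟨b⟩ := Finite.card_eq.1 c
  have h : ∀ x : S, ∃ u, i u = (x : S ⧸ i.range).out⁻¹ * x := fun x =>
    (QuotientGroup.eq (s := i.range)).1 (QuotientGroup.out_eq' (x : S ⧸ i.range))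
  choose r hr using h
  have q : ∀ x u, ((x * i u : S) : S ⧸ i.range) = x := fun x u => QuotientGroup.mk_mul_of_mem x ⟨u, rfl⟩
  refine ⟨Equiv.ofBijective (fun x => (b x).out * j (r x)) (Finite.injective_iff_bijective.1 fun x y e => ?_), fun x u => ?_⟩
  · have e1 := congrArg (fun z : S => (z : S ⧸ j.range)) e
    have q' : ∀ x u, ((x * j u : S) : S ⧸ j.range) = x := fun x u => QuotientGroup.mk_mul_of_mem x ⟨u, rfl⟩
    simp only [q', QuotientGroup.out_eq', b.apply_eq_iff_eq] at e1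
    simp only [e1, mul_right_inj] at e
    have := hr x
    rw [hj e, hr, e1] at this
    exact (mul_left_cancel this).symm
  · have : r (x * i u) = r x * u := hi (by rw [map_mul, hr, hr, q, mul_assoc])
    simp [q, this, mul_assoc]

/-- right multiplication -/
def rho (S : Type*) [Group S] : S →* Equiv.Perm S :=
  ⟨⟨fun s => Equiv.mulRight s⁻¹, by ext; simp⟩, fun s t => by ext; simp [mul_assoc]⟩

theorem rho_inj (S : Type*) [Group S] : Function.Injective (rho S) := fun s t e => by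
  simpa [rho] using DFunLike.congr_fun e 1

universe u
variable {Ω : Type u} [Group Ω] {S : Subgroup Ω} (F : FusionSystem S)

/-- relations contained in the graph of a map of the system -/
def Gr (r : S → S → Prop) : Prop := ∃ R, ∃ θ ∈ F.Hom R, ∀ y u : S, r y u → ∃ h : y.1 ∈ R, θ ⟨y, h⟩ = u

variable {F}

theorem Gr.mono {r r' : S → S → Prop} (h : ∀ y u, r y u → r' y u) : Gr F r' → Gr F r :=
  fun ⟨R, θ, a, b⟩ => ⟨R, θ, a, fun y u c => b y u (h y u c)⟩

theorem res_mem {P R : Subgroup Ω} {θ : R →* Ω} (h : θ ∈ F.Hom R) (l : P ≤ R) : θ.comp (Subgroup.inclusion l) ∈ F.Hom P := by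
  convert F.comp_mem (F.conj_mem (l.trans (F.le_of_mem h).1) S.one_mem) h fun x => by simpa [conjHom] using l x.2
  ext; simp [conjHom]

theorem Gr.comp {r r' : S → S → Prop} : Gr F r → Gr F r' → Gr F fun y u => ∃ z, r y z ∧ r' z u := by
  rintro ⟨R, θ, a, b⟩ ⟨R', θ', a', b'⟩
  refine ⟨_, _, F.comp_mem (res_mem a (Subgroup.map_subtype_le (R'.comap θ))) a' ?_, ?_⟩
  · rintro ⟨_, x, hx, rfl⟩; exact hx
  · rintro y u ⟨z, c, d⟩
    obtain ⟨h, e⟩ := b _ _ c
    obtain ⟨h', e'⟩ := b' _ _ d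
    exact ⟨⟨⟨y, h⟩, by simpa [e] using h', rfl⟩, by rw [← e']; exact congrArg θ' (Subtype.ext e)⟩

theorem Gr.inv {r : S → S → Prop} : Gr F r → Gr F fun y u => r u y := by
  rintro ⟨R, θ, a, b⟩
  obtain ⟨ψ, c, d⟩ := F.inv_mem a
  refine ⟨_, ψ, c, fun y u h => ?_⟩
  obtain ⟨h, e⟩ := b _ _ h
  exact ⟨⟨_, e⟩, (congrArg ψ (Subtype.ext e.symm)).trans (d ⟨u, h⟩)⟩

theorem gr_conj (s : S) : Gr F fun y u => u = s * y * s⁻¹ :=
  ⟨S, _, F.conj_mem le_rfl s.2, fun y u h => ⟨y.2, by simp [h, conjHom]⟩⟩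

variable (F) in
theorem realize [Finite S] : ∃ (G : Type u) (_ : Group G) (ι : S →* G), F.IsRealizedBy ι ∧
    (∀ H : Subgroup G, Finite H → ∃ g : G, ∀ h ∈ H, g * h * g⁻¹ ∈ ι.range) ∧
    ∃ N : Subgroup G, N.Normal ∧ IsFreeGroup N ∧ N.index ∣ (Nat.card S).factorial := by
  classical
  let I := Σ P : Subgroup Ω, F.Hom P
  let i : ∀ a : I, a.1 →* S := fun a => Subgroup.inclusion (F.le_of_mem a.2.2).1
  let j : ∀ a : I, a.1 →* S := fun a => a.2.1.codRestrict S (F.le_of_mem a.2.2).2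
  have hπ : ∀ a : I, ∃ π : Equiv.Perm S, ∀ u, π * rho S (i a u) * π⁻¹ = rho S (j a u) := fun a =>
    (exists_perm (i a) (j a) (Subgroup.inclusion_injective _)
      ((MonoidHom.injective_codRestrict _ _ _).2 (F.injective_of_mem a.2.2))).imp fun π h u => by
        ext1 x; simp [rho, ← map_inv, h]
  choose π hπ using hπ
  let V := Equiv.Perm S ⧸ (rho S).range
  let E := Σ a : I, Equiv.Perm S ⧸ ((rho S).comp (i a)).range
  let en : E × Bool → V := fun x => Quotient.liftOn' x.1.2 (fun g => ((if x.2 then g else g * (π x.1.1)⁻¹ : Equiv.Perm S) : V))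
    fun g h e => QuotientGroup.eq.2 (by
      obtain ⟨u, e⟩ := QuotientGroup.leftRel_apply.1 e
      split_ifs
      · exact ⟨_, e⟩
      · exact ⟨_, by rw [← hπ _ u, ← MonoidHom.comp_apply, e]; group⟩)
  have en_mk : ∀ a (g : Equiv.Perm S) b, en (⟨a, g⟩, b) = ((if b then g else g * (π a)⁻¹ : Equiv.Perm S) : V) := fun _ _ _ => rfl
  have hen : ∀ (σ : Equiv.Perm S) e b, en (σ • e, b) = σ • en (e, b) := by
    rintro σ ⟨a, ⟨g⟩⟩ b
    change en (⟨a, ((σ * g :) : _)⟩, b) = σ • en (⟨a, (g : _)⟩, b)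
    rw [en_mk, en_mk]; cases b <;> simp only [mul_assoc] <;> rfl
  let v₀ : V := ((1 : Equiv.Perm S) : V)
  have sv : ∀ τ : Equiv.Perm S, τ • v₀ = (τ : V) := fun τ => congrArg _ (mul_one τ)
  have st : ∀ {τ : Equiv.Perm S}, (τ : V) = v₀ ↔ τ ∈ (rho S).range := by
    intro τ; rw [eq_comm, QuotientGroup.eq]; simp
  let ι : S →* GG hen v₀ := (inr.comp (rho S)).codRestrict _ fun s => by
    simp [mem_GG, Path, sv, (st.2 ⟨s, rfl⟩)]
  have hι : ∀ s, (ι s).1 = inr (rho S s) := fun _ => rfl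
  refine ⟨GG hen v₀, inferInstance, ι, ⟨fun s t e => rho_inj S (inr_injective (congrArg Subtype.val e)), fun P hP φ hφ => ⟨fun h => ?_, ?_⟩⟩,
    fun H _ => ?_, (rightHom.comp (GG hen v₀).subtype).ker, inferInstance, ?_, ?_⟩
  · let a : I := ⟨P, φ, h⟩
    refine ⟨(⟨_, edge_mem hen (x := (⟨a, ((1 : Equiv.Perm S) : _)⟩, true)) (τ := (π a)⁻¹) rfl (by simp [sv, en_mk])⟩)⁻¹,
      fun x => Subtype.ext ?_⟩
    have : rho S (i a x) • (⟨a, ((1 : Equiv.Perm S) : _)⟩ : E) = ⟨a, ((1 : Equiv.Perm S) : _)⟩ :=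
      congrArg (Sigma.mk a) (QuotientGroup.eq.2 (by simp))
    simp only [hι, inv_inv, Subgroup.coe_mul, Subgroup.coe_inv, mul_assoc, eq_inv_mul_iff_mul_eq]
    ext1
    · simp only [mul_left, left_inr, right_inr, map_one, mul_one, one_mul, act_mk]
      exact congrArg (fun e => FreeGroup.mk [(e, true)]) this.symm
    · simp only [mul_right, right_inr]
      rw [show rho S ⟨φ x, hφ x⟩ = _ from (hπ a x).symm, mul_assoc, inv_mul_cancel_left]; rfl
  · rintro ⟨g, hg⟩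
    have := fusion hen (fun r => Gr F fun y u => r (rho S y) (rho S u)) (fun r r' h => Gr.mono fun y u => h _ _)
      (fun r r' a b => (a.comp b).mono fun y u ⟨z, c, d⟩ => by obtain ⟨z, rfl⟩ := st.1 (sv z ▸ c); exact ⟨z, d⟩)
      (fun s c => by
        obtain ⟨s, rfl⟩ := st.1 (sv s ▸ c)
        exact (gr_conj s).mono fun y u h => rho_inj S (by simpa using h)) ?_ g.1 g.2
    · obtain ⟨R, θ, a, b⟩ := this
      have c := fun x : P => b ⟨x, hP x.2⟩ ⟨φ x, hφ x⟩ (congrArg Subtype.val (hg x))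
      convert res_mem a fun x hx => (c ⟨x, hx⟩).1
      ext x; exact (c x).2.symm
    rintro ⟨⟨a, ⟨g⟩⟩, b⟩ hx
    have ga : Gr F fun y u => ∃ z, i a z = y ∧ j a z = u := ⟨_, _, a.2.2, by rintro _ _ ⟨z, rfl, rfl⟩; exact ⟨z.2, rfl⟩⟩
    have fx : ∀ {u : Equiv.Perm S}, u • (⟨a, (g : _)⟩ : E) = ⟨a, (g : _)⟩ → ∃ z, rho S (i a z) = g⁻¹ * u * g := fun h =>
      by simpa [mul_assoc] using QuotientGroup.eq.1 (eq_of_heq (Sigma.mk.inj h).2).symm
    refine ⟨_, sv _, ?_⟩
    obtain ⟨s, e⟩ := st.1 hx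
    cases b
    · refine (ga.comp (gr_conj s)).mono fun y u ⟨c, d⟩ => ?_
      obtain ⟨z, f⟩ := fx c
      refine ⟨_, ⟨z, rho_inj S ?_, rfl⟩, rho_inj S ?_⟩
      · rw [f, d]; simp [mul_assoc]
      · rw [map_mul, map_mul, map_inv, ← hπ, f, e]; simp [mul_assoc]
    · refine (ga.inv.comp (gr_conj s)).mono fun y u ⟨c, d⟩ => ?_
      obtain ⟨z, f⟩ := fx c
      refine ⟨_, ⟨z, rfl, rho_inj S ?_⟩, rho_inj S ?_⟩
      · rw [← hπ, f, d]; simp [mul_assoc]
      · rw [map_mul, map_mul, map_inv, f, e]; simp [mul_assoc]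
  · obtain ⟨D, hD⟩ := (Set.finite_range fun h : H => h.1.1.left.norm).bddAbove
    obtain ⟨g, hg, e⟩ := fix hen (fun v => by obtain ⟨τ⟩ := v; exact ⟨τ, sv τ⟩) D (H.map (GG hen v₀).subtype)
      (Subgroup.map_subtype_le _) (by rintro _ ⟨h, hh, rfl⟩; exact hD ⟨⟨h, hh⟩, rfl⟩)
    refine ⟨(⟨g, hg⟩)⁻¹, fun h hh => ?_⟩
    have a := e _ ⟨h, hh, rfl⟩
    have b := mul_mem (mul_mem (inv_mem hg) h.2) hg
    rw [mem_GG, show (g⁻¹ * h.1 * g).left = 1 from a, sv] at b
    obtain ⟨s, c⟩ := st.1 (Eq.symm b)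
    rw [inv_inv]
    exact ⟨s, Subtype.ext (SemidirectProduct.ext a.symm c)⟩
  · let l : (rightHom.comp (GG hen v₀).subtype).ker →* FreeGroup E :=
      ⟨⟨fun g => g.1.1.left, rfl⟩, fun g h => by simp [show g.1.1.right = 1 from g.2]⟩
    exact IsFreeGroup.ofMulEquiv (MonoidHom.ofInjective (f := l) fun g h e => Subtype.ext (Subtype.ext
      (SemidirectProduct.ext e (g.2.trans h.2.symm)))).symm
  · rw [Subgroup.index_ker, ← Nat.card_perm]
    exact Subgroup.card_subgroup_dvd_card _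

end H12.Hnn
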