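import Mathlib
import Cfsg.Agent.H07.L0

/-!
# Coordinates on a Sylow 2-subgroup of type `L₃(4)`
* `H12.L4A.a : H07.L4.AStmt`
-/

namespace H12.L4A

open H07.L4 Matrix

universe u v

theorem cardT {F : Type v} [Field F] [Fintype F] {G : Type u} [Group G] {u : F → F → F → G} (c4 : Fintype.card F = 4)
    (mul : ∀ a b c a' b' c', u a b c * u a' b' c' = u (a + a') (b + b') (c + c' + a * b'))
    (inj : ∀ a b c, u a b c = 1 → a = 0 ∧ b = 0 ∧ c = 0) : Nat.card (T u) = 64 := by
  let w : F → F → F → T u := fun a b c => ⟨u a b c, Subgroup.subset_closure ⟨a, b, c, rfl⟩⟩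
  have e : T w = ⊤ := by
    refine Eq.trans ?_ (Subgroup.closure_closure_coe_preimage (k := {x | ∃ a b c, u a b c = x}))
    exact congrArg Subgroup.closure (Set.ext fun x => ⟨fun ⟨a, b, c, r⟩ => ⟨a, b, c, congrArg Subtype.val r⟩,
      fun ⟨a, b, c, r⟩ => ⟨a, b, c, Subtype.ext r⟩⟩)
  have := Hs.cardT (u := w) ⟨c4, fun _ _ _ _ _ _ => Subtype.ext (mul ..), fun a b c r => inj a b c (congrArg Subtype.val r),
    by rw [e]; simp⟩
  rwa [e, Subgroup.card_top] at this

theorem a : AStmt.{u, v} := fun G _ _ F _ _ c4 S P ⟨e⟩ => by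
  classical
  have : Fact (Nat.Prime 2) := ⟨Nat.prime_two⟩
  let m : F → F → F → SpecialLinearGroup (Fin 3) F := fun a b c => ⟨!![1, a, c; 0, 1, b; 0, 0, 1], by simp [det_fin_three]⟩
  let u₀ : F → F → F → ProjectiveSpecialLinearGroup (Fin 3) F := fun a b c => QuotientGroup.mk (m a b c)
  have mul : ∀ a b c a' b' c', u₀ a b c * u₀ a' b' c' = u₀ (a + a') (b + b') (c + c' + a * b') := fun a b c a' b' c' =>
    congrArg QuotientGroup.mk (show m a b c * m a' b' c' = m _ _ _ from Subtype.ext (by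
      change !![1, a, c; 0, 1, b; 0, 0, 1] * !![1, a', c'; 0, 1, b'; 0, 0, 1] = !![1, a + a', c + c' + a * b'; 0, 1, b + b'; 0, 0, 1]
      rw [mul_fin_three]; ext i j; fin_cases i <;> fin_cases j <;> simp <;> ring))
  have inj : ∀ a b c, u₀ a b c = 1 → a = 0 ∧ b = 0 ∧ c = 0 := fun a b c r => by
    obtain ⟨s, -, t⟩ := Matrix.SpecialLinearGroup.mem_center_iff.1 ((QuotientGroup.eq_one_iff (m a b c)).1 r)
    exact ⟨by simpa [m] using (congrFun (congrFun t 0) 1).symm, by simpa [m] using (congrFun (congrFun t 1) 2).symm,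
      by simpa [m] using (congrFun (congrFun t 0) 2).symm⟩
  obtain ⟨Q, hQ⟩ := (IsPGroup.of_card (p := 2) (n := 6) (cardT c4 mul inj)).exists_le_sylow
  let j : T u₀ →* S := (((Q.equiv P).trans e.symm).toMonoidHom).comp (Subgroup.inclusion hQ)
  have ji : Function.Injective j := ((Q.equiv P).trans e.symm).injective.comp (Subgroup.inclusion_injective hQ)
  let u : F → F → F → G := fun a b c => j ⟨u₀ a b c, Subgroup.subset_closure ⟨a, b, c, rfl⟩⟩
  have mul' : ∀ a b c a' b' c', u a b c * u a' b' c' = u (a + a') (b + b') (c + c' + a * b') := fun a b c a' b' c' => by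
    rw [← Subgroup.coe_mul, ← map_mul]; exact congrArg (fun x => (j x : G)) (Subtype.ext (mul ..))
  have inj' : ∀ a b c, u a b c = 1 → a = 0 ∧ b = 0 ∧ c = 0 := fun a b c r =>
    inj a b c (congrArg Subtype.val (ji ((Subtype.ext r).trans (map_one j).symm)))
  refine ⟨u, c4, mul', inj', ?_⟩
  have h1 : Nat.card S ∣ 181440 := by
    rw [Nat.card_congr e.toEquiv]
    refine (Subgroup.card_subgroup_dvd_card _).trans ((Subgroup.card_quotient_dvd_card _).trans
      ((Subgroup.card_dvd_of_injective _ SpecialLinearGroup.toGL_injective).trans ?_))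
    rw [Matrix.card_GL_field, c4]; decide
  obtain ⟨n, hn⟩ := S.2.exists_card_eq
  have h2 : n ≤ 6 := by
    by_contra r
    exact absurd ((pow_dvd_pow 2 (show 7 ≤ n by omega)).trans (hn ▸ h1)) (by decide)
  rw [Subgroup.eq_of_le_of_card_ge (H := T u) (K := S) ((Subgroup.closure_le _).2 (by rintro _ ⟨a, b, c, rfl⟩; exact Subtype.prop _))
    (by rw [cardT c4 mul' inj', hn]; exact Nat.pow_le_pow_right two_pos h2)]
  exact S.not_dvd_index

end H12.L4A
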