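import Mathlib

/-! Additive and quadratic maps of a finite field of characteristic 2 in terms of field
automorphisms. -/

set_option autoImplicit false

namespace H12.LP

variable {F : Type*} [Field F] [Fintype F]

omit [Fintype F] in
theorem li : LinearIndependent F fun φ : F ≃+* F => (φ : F → F) :=
  (linearIndependent_monoidHom F F).comp (fun φ : F ≃+* F => ((φ : F →+* F) : F →* F))
    fun _ _ h => RingEquiv.ext fun x => DFunLike.congr_fun h x

noncomputable instance instFintypeAut : Fintype (F ≃+* F) :=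
  haveI : Finite (F ≃+* F) := Finite.of_injective _ DFunLike.coe_injective
  Fintype.ofFinite _

theorem eq_zero_of_sum {c : (F ≃+* F) → F} (h : ∀ x, ∑ φ, c φ * φ x = 0) (φ : F ≃+* F) : c φ = 0 :=
  Fintype.linearIndependent_iff.1 (li (F := F)) c (funext fun x => by
    rw [Finset.sum_apply]
    exact h x) φ

theorem card_aut {p n : ℕ} [Fact p.Prime] [CharP F p] (h : Fintype.card F = p ^ n) : Nat.card (F ≃+* F) = n := by
  letI := ZMod.algebra F p
  have h2 := Module.card_eq_pow_finrank (K := ZMod p) (V := F)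
  rw [ZMod.card, h] at h2
  rw [Nat.pow_right_injective (Fact.out : p.Prime).two_le h2, ← IsGalois.card_aut_eq_finrank]
  exact Nat.card_congr ⟨fun φ => AlgEquiv.ofRingEquiv (f := φ) fun x => congrFun (congrArg DFunLike.coe
    (RingHom.ext_zmod ((φ : F →+* F).comp (algebraMap (ZMod p) F)) (algebraMap (ZMod p) F))) x,
    fun φ => φ.toRingEquiv, fun _ => rfl, fun _ => rfl⟩

theorem card_addHom {p n : ℕ} [Fact p.Prime] [CharP F p] (h : Fintype.card F = p ^ n) :
    Nat.card (F →+ F) = p ^ n ^ 2 := by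
  letI := ZMod.algebra F p
  have h2 := Module.card_eq_pow_finrank (K := ZMod p) (V := F)
  rw [ZMod.card, h] at h2
  have h3 := Nat.pow_right_injective (Fact.out : p.Prime).two_le h2
  rw [Nat.card_congr (AddMonoidHom.toZModLinearMapEquiv p).toEquiv, Module.natCard_eq_pow_finrank (K := ZMod p),
    Module.finrank_linearMap, ← h3, Nat.card_zmod, sq]

theorem exists_sum (f : F →+ F) : ∃ c : (F ≃+* F) → F, ∀ x, f x = ∑ φ, c φ * φ x := by
  obtain ⟨p, hp⟩ := CharP.exists F
  obtain ⟨n, hp', hn⟩ := FiniteField.card F p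
  haveI := Fact.mk hp'
  haveI : Finite (F →+ F) := Finite.of_injective _ DFunLike.coe_injective
  let T : ((F ≃+* F) → F) → (F →+ F) := fun c =>
    { toFun := fun x => ∑ φ, c φ * φ x
      map_zero' := by simp
      map_add' := fun x y => by simp [mul_add, Finset.sum_add_distrib] }
  have hT : Function.Injective T := fun c d h => funext fun φ => sub_eq_zero.1 <|
    eq_zero_of_sum (c := fun φ => c φ - d φ) (fun x => by
      have : ∑ φ, c φ * φ x = ∑ φ, d φ * φ x := DFunLike.congr_fun h x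
      simp [sub_mul, this]) φ
  obtain ⟨c, rfl⟩ := ((Nat.bijective_iff_injective_and_card T).2 ⟨hT, by
    rw [Nat.card_fun, card_aut hn, card_addHom hn, Nat.card_eq_fintype_card, hn, ← pow_mul, sq]⟩).2 f
  exact ⟨c, fun _ => rfl⟩

theorem eq_zero_of_sum₂ {M : (F ≃+* F) → (F ≃+* F) → F} (h : ∀ x y, ∑ φ, ∑ ψ, M φ ψ * (φ x * ψ y) = 0)
    (φ ψ : F ≃+* F) : M φ ψ = 0 :=
  eq_zero_of_sum (c := M φ) (fun y => eq_zero_of_sum (c := fun φ => ∑ ψ, M φ ψ * ψ y) (fun x => by
    rw [← h x y]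
    refine Finset.sum_congr rfl fun φ _ => ?_
    rw [Finset.sum_mul]
    exact Finset.sum_congr rfl fun ψ _ => by ring) φ) ψ

theorem exists_sum₂ (B : F →+ F →+ F) :
    ∃ M : (F ≃+* F) → (F ≃+* F) → F, ∀ x y, B x y = ∑ φ, ∑ ψ, M φ ψ * (φ x * ψ y) := by
  choose c hc using fun x => exists_sum (B x)
  have h : ∀ ψ x x', c (x + x') ψ = c x ψ + c x' ψ := fun ψ x x' => sub_eq_zero.1 <|
    eq_zero_of_sum (c := fun ψ => c (x + x') ψ - (c x ψ + c x' ψ)) (fun y => by
      simp [sub_mul, add_mul, Finset.sum_add_distrib, ← hc]) ψ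
  choose M hM using fun ψ => exists_sum (AddMonoidHom.mk' (fun x => c x ψ) (h ψ))
  refine ⟨fun φ ψ => M ψ φ, fun x y => ?_⟩
  rw [hc, Finset.sum_comm]
  refine Finset.sum_congr rfl fun ψ _ => ?_
  rw [show c x ψ = _ from hM ψ x, Finset.sum_mul]
  exact Finset.sum_congr rfl fun φ _ => by ring

variable [CharP F 2]

omit [Fintype F] in
theorem sum_symm {ι : Type*} [Fintype ι] {M : ι → ι → F} (h : ∀ i j, M i j = M j i) :
    ∑ i, ∑ j, M i j = ∑ i, M i i := by
  classical
  have : ∑ i, ∑ j, M i j = ∑ i, M i i + ∑ p ∈ (Finset.univ : Finset ι).offDiag, M p.1 p.2 := by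
    rw [← Finset.sum_product', ← Finset.diag_union_offDiag, Finset.sum_union (Finset.disjoint_diag_offDiag _),
      Finset.sum_diag]
  rw [this, Finset.sum_involution (fun p _ => p.swap) (fun p _ => by simp [h p.2, CharTwo.add_self_eq_zero])
    (fun p hp _ e => (Finset.mem_offDiag.1 hp).2.2 (congrArg Prod.snd e)) (fun p hp => by
      simpa [eq_comm] using hp) (fun _ _ => rfl), add_zero]

theorem quad_zero {M : (F ≃+* F) → (F ≃+* F) → F} (h : ∀ x, ∑ φ, ∑ ψ, M φ ψ * (φ x * ψ x) = 0) :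
    (∀ φ ψ, M φ ψ = M ψ φ) ∧ ∀ φ, M φ φ = 0 := by
  have h1 : ∀ φ ψ, M φ ψ = M ψ φ := fun φ ψ => CharTwo.add_eq_zero.1 <|
    eq_zero_of_sum₂ (M := fun φ ψ => M φ ψ + M ψ φ) (fun x y => by
      have := h (x + y)
      simp only [map_add, mul_add, add_mul, Finset.sum_add_distrib, h, zero_add, add_zero] at this ⊢
      rw [← this, add_comm, Finset.sum_comm]
      simp only [mul_comm]) φ ψ
  refine ⟨h1, eq_zero_of_sum fun y => ?_⟩
  obtain ⟨x, rfl⟩ := surjective_frobenius F 2 y
  rw [← h x, sum_symm fun φ ψ => by rw [h1, mul_comm (φ x)]]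
  simp [frobenius_def, sq]

end H12.LP
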