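import Mathlib
import Cfsg.Agent.H12.LtF
import Cfsg.Agent.H06.Degree
import Cfsg.Agent.H05.Brauer
import Cfsg.Agent.H10.Iso2
import Cfsg.Agent.L.DicksonF

/-! Existence of a character of degree `|G|_p` (namespace `H12.Lt`): `hasSt_iff`, `HasSt.of_surj`, `HasSt.equiv`, `HasSt.prod`,
`hasSt_dihedral`, `hasSt_PSL`. -/

namespace H12.Lt
open Cfsg H05

variable {G G' : Type*} [Group G] [Group G'] [Finite G] [Finite G'] {p : ℕ} [Fact p.Prime]

theorem hasSt_iff : HasSt p G ↔ ∃ χ, IsIrrCharacter G χ ∧ χ 1 = (p ^ (Nat.card G).factorization p : ℕ) := by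
  refine ⟨fun ⟨χ, h, h1⟩ => ⟨χ, h, by rw [(h1 default).1, Sylow.card_eq_multiplicity]⟩, fun ⟨χ, h, h1⟩ => ⟨χ, h, fun P =>
    ⟨by rw [h1, P.card_eq_multiplicity], fun x hx h2 => h.apply_eq_zero_of_defect_zero Fact.out ?_
      (H20.dvd_orderOf_of_isPGroup P.2 hx h2)⟩⟩⟩
  rw [H05.charDegree_eq_of_apply_one h1]
  exact Nat.not_dvd_ordCompl Fact.out Nat.card_pos.ne'

theorem HasSt.of_surj (h : HasSt p G') (f : G →* G') (hf : Function.Surjective f)
    (e : (Nat.card G).factorization p = (Nat.card G').factorization p) : HasSt p G :=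
  let ⟨_, h1, h2⟩ := hasSt_iff.1 h
  hasSt_iff.2 ⟨_, h1.comp_of_surjective f hf, by rw [map_one, h2, e]⟩

theorem HasSt.equiv (h : HasSt p G') (f : G ≃* G') : HasSt p G :=
  h.of_surj f.toMonoidHom f.surjective (by rw [Nat.card_congr f.toEquiv])

theorem HasSt.prod (h : HasSt p G) (h' : HasSt p G') : HasSt p (G × G') :=
  let ⟨_, h1, h2⟩ := hasSt_iff.1 h
  let ⟨_, h3, h4⟩ := hasSt_iff.1 h'
  hasSt_iff.2 ⟨_, H06.isIrr_prod h1 h3, by
    simp [h2, h4, Nat.card_prod, Nat.factorization_mul Nat.card_pos.ne' Nat.card_pos.ne', pow_add]⟩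

theorem hasSt_dihedral {n : ℕ} (e : G ≃* DihedralGroup n) : HasSt p (commutator G ⧸ Subgroup.center (commutator G)) := by
  let f : DihedralGroup n →* ℤˣ := MonoidHom.mk' (fun | .r _ => 1 | .sr _ => -1) (by rintro (a | a) (b | b) <;> simp)
  have h : ∀ x : commutator G, ∃ a, e x = .r a := fun x => by
    have : f (e x) = 1 := Abelianization.commutator_subset_ker (f.comp e.toMonoidHom) x.2
    rcases h : e x with a | a
    · exact ⟨a, rfl⟩
    · simp [h, f] at this
  have : Subgroup.center (commutator G) = ⊤ := eq_top_iff.2 fun x _ => Subgroup.mem_center_iff.2 fun y => by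
    obtain ⟨a, ha⟩ := h x
    obtain ⟨b, hb⟩ := h y
    exact Subtype.ext (e.injective (by simp [ha, hb, add_comm]))
  refine hasSt_iff.2 ⟨_, H05.isIrrCharacter_one, ?_⟩
  rw [show Nat.card _ = 1 from Subgroup.index_eq_one.2 this]; simp

theorem Dat.hasSt (C : Dat p G) : HasSt p G := C.lt.hasSt

theorem hasSt_PSL {F : Type*} [Field F] [Finite F] [CharP F p] {n : ℕ} (hn : 2 ≤ n) :
    HasSt p (Matrix.ProjectiveSpecialLinearGroup (Fin n) F) := (dat_PSL p hn (.refl _)).elim fun C _ => C.hasSt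

end H12.Lt
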