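import Mathlib
import Cfsg.Agent.H12.LtS

/-! Blocks of `SL_n` in the defining characteristic (namespace `H12.Lt`): `Loc.of_quot`, `Loc.card_full`, `loc_SL`, `hasSt_SL`,
`dz_SL`. -/

namespace H12.Lt
open Cfsg H11 H12.Ri H12.St Matrix

variable {G G' : Type*} [Group G] [Group G'] [Finite G] {p : ℕ} [Fact p.Prime]

omit [Finite G] [Fact p.Prime] in
theorem Dat.center_eq_bot (C : Dat p G) : Subgroup.center G = ⊥ := eq_bot_iff.2 fun z hz => C.lt.core z fun y => by
  simpa [mul_assoc, ← Subgroup.mem_center_iff.1 hz y] using C.lt.norm_U (Subgroup.center_le_normalizer _ hz)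

theorem Loc.of_quot (h : Loc p G') (h0 : Subgroup.center G' = ⊥) (f : G →* G') (hk : f.ker = Subgroup.center G)
    (hf : Function.Surjective f) (hZ : ∀ z ∈ Subgroup.center G, ¬ p ∣ orderOf z) : Loc p G := fun Y hY h1 => by
  obtain ⟨R, h2, h3, h4, h5⟩ := h (Y.map f) (hY.map f) fun e => h1 (eq_bot_iff.2 fun y hy =>
    H20.eq_one_of_isPGroup_of_not_dvd hY hy (hZ y (hk ▸ (Subgroup.map_eq_bot_iff _).1 e hy)))
  obtain ⟨T, -⟩ := (IsPGroup.of_bot (p := p) (G := R.comap f)).exists_le_sylow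
  have h6 : ∀ r ∈ R, ∃ t ∈ (T : Subgroup (R.comap f)).map (Subgroup.subtype _), f t = r := fun r hr => by
    have hs := f.subgroupComap_surjective_of_surjective R hf
    obtain ⟨t, ht, e⟩ := ((T.mapSurjective hs).3 (h2.to_subgroup ⊤) le_top).le (Subgroup.mem_top ⟨r, hr⟩)
    exact ⟨t, ⟨t, ht, rfl⟩, congrArg Subtype.val e⟩
  have hT := T.2.map (Subgroup.subtype _)
  have hR : T.1.map (Subgroup.subtype _) ≤ R.comap f := Subgroup.map_subtype_le _
  generalize T.1.map (Subgroup.subtype _) = T at h6 hT hR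
  have h7 : ∀ g, f g ∈ R → ∀ k, g ^ p ^ k = 1 → g ∈ T := fun g hg k e => by
    obtain ⟨t, ht, a⟩ := h6 _ hg
    obtain ⟨j, hj⟩ := hT ⟨t, ht⟩
    have hz : t⁻¹ * g ∈ Subgroup.center G := hk ▸ (MonoidHom.mem_ker.2 (by simp [a]))
    have : (t⁻¹ * g) ^ p ^ (k + j) = 1 := by
      rw [Commute.mul_pow (by simpa [Commute, SemiconjBy, mul_assoc] using Subgroup.mem_center_iff.1 hz t⁻¹), pow_add, pow_mul g, e,
        mul_comm, pow_mul, inv_pow, show t ^ p ^ j = 1 from congrArg Subtype.val hj]; simp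
    obtain ⟨i, -, hi⟩ := (Nat.dvd_prime_pow Fact.out).1 (orderOf_dvd_of_pow_eq_one this)
    rcases i with _ | i
    · rwa [← inv_mul_eq_one.1 (orderOf_eq_one_iff.1 hi)]
    · exact (hZ _ hz (hi ▸ dvd_pow_self p i.succ_ne_zero)).elim
  refine ⟨T, hT, fun y hy => (hY ⟨y, hy⟩).elim fun k e => h7 y (h3 ⟨y, hy, rfl⟩) k (congrArg Subtype.val e),
    le_norm fun g hg t ht => (hT ⟨t, ht⟩).elim fun k e => h7 _ ?_ k ?_, fun x hx e => ?_⟩
  · simpa using conj_mem_of_norm (h4 (Subgroup.le_normalizer_map f ⟨g, hg, rfl⟩)) (hR ht)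
  · simpa [show t ^ p ^ k = 1 from congrArg Subtype.val e] using conj_pow (a := g⁻¹) (b := t) (i := p ^ k)
  · rw [← hk, MonoidHom.mem_ker, ← Subgroup.mem_bot, ← h0]
    refine h5 _ (fun r hr => ?_) fun a => e (a.trans (orderOf_map_dvd f x))
    obtain ⟨t, ht, rfl⟩ := h6 r hr
    rw [← map_mul, hx t ht, map_mul]

theorem Loc.card_full (h : Loc p G) (hp : p ∣ Nat.card G) (hZ : ∀ z ∈ Subgroup.center G, ¬ p ∣ orderOf z) {M : Ideal AlgInt}
    (hM : IsPModular p M) : Nat.card {B : Set (IrrCharacter G) // IsPBlock M B ∧ blockDefect p B = (Nat.card G).factorization p} =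
      Nat.card (Subgroup.center G) := by
  refine card_blocks_full hM default hZ fun x hx => ?_
  obtain ⟨R, h1, h2, -, h3⟩ := h _ (default : Sylow p G).2 ((default : Sylow p G).ne_bot_of_dvd_card hp)
  exact h3 x ((default : Sylow p G).3 h1 h2 ▸ hx)

variable {F : Type*} [Field F] [Finite F] [CharP F p] {n : ℕ} (hn : 2 ≤ n)
include hn

theorem card_Z_SL : ¬ p ∣ Nat.card (Subgroup.center (SpecialLinearGroup (Fin n) F)) := fun h => by
  have := Fintype.ofFinite F
  have : NeZero n := ⟨by omega⟩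
  obtain ⟨k, hp, hk⟩ := FiniteField.card F p
  rw [H09.card_center_SL, hk] at h
  exact hp.one_lt.ne' (Nat.dvd_one.1 ((Nat.dvd_sub_iff_right (Nat.one_le_pow _ _ hp.pos) (dvd_pow_self p k.ne_zero)).1
    (h.trans (Nat.gcd_dvd_right _ _))))

theorem Z_SL : ∀ z ∈ Subgroup.center (SpecialLinearGroup (Fin n) F), ¬ p ∣ orderOf z := fun _ hz h =>
  card_Z_SL hn (h.trans (Subgroup.orderOf_dvd_natCard _ hz))

theorem loc_SL : Loc p (SpecialLinearGroup (Fin n) F) := (dat_PSL p hn (.refl _)).elim fun C _ =>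
  C.lt.loc.of_quot C.center_eq_bot (QuotientGroup.mk' _) (QuotientGroup.ker_mk' _) (QuotientGroup.mk'_surjective _) (Z_SL hn)

theorem hasSt_SL : HasSt p (SpecialLinearGroup (Fin n) F) := (hasSt_PSL hn).of_surj (QuotientGroup.mk' _) (QuotientGroup.mk'_surjective _) (by
  rw [Subgroup.card_eq_card_quotient_mul_card_subgroup (Subgroup.center _), Nat.factorization_mul Nat.card_pos.ne' Nat.card_pos.ne']
  simp [Nat.factorization_eq_zero_of_not_dvd (card_Z_SL hn)])

theorem dvd_card_SL : p ∣ Nat.card (SpecialLinearGroup (Fin n) F) := (dat_PSL p hn (.refl _)).elim fun C _ => by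
  obtain ⟨x, hx, h⟩ := C.lt.exists_x (Classical.arbitrary _)
  exact ((H20.dvd_orderOf_of_isPGroup C.lt.pU (C.lt.X_le _ hx) h).trans (orderOf_dvd_natCard x)).trans (Subgroup.card_quotient_dvd_card _)

theorem dz_SL : (∀ χ ψ : IrrCharacter (SpecialLinearGroup (Fin n) F),
    (charDegree χ.1).factorization p = (Nat.card (SpecialLinearGroup (Fin n) F)).factorization p →
    (charDegree ψ.1).factorization p = (Nat.card (SpecialLinearGroup (Fin n) F)).factorization p → χ = ψ) ∧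
    ∀ M, IsPModular p M → Nat.card {B : Set (IrrCharacter (SpecialLinearGroup (Fin n) F)) // IsPBlock M B ∧ blockDefect p B = 0} = 1 := by
  have := Fintype.ofFinite (SpecialLinearGroup (Fin n) F)
  obtain ⟨χ, h1, h2⟩ := hasSt_iff.1 (hasSt_SL (p := p) (F := F) hn)
  have h3 : (charDegree χ).factorization p = (Nat.card (SpecialLinearGroup (Fin n) F)).factorization p := by
    rw [H05.charDegree_eq_of_apply_one h2, Nat.factorization_pow_self Fact.out]
  obtain rfl | ⟨n, rfl⟩ : n = 2 ∨ ∃ k, n = k + 3 := (em _).imp_right fun h => ⟨n - 3, by omega⟩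
  · have R : SL2Data (L.SLc.dgHom (F := F)).range (fun _ : Unit => w2) (fun _ => (unHom (F := F)).range) (fun _ => upSL) (fun _ => loSL)
        fun _ => L.SLc.dgHom.rangeRestrict :=
      ⟨fun _ => sl2Rel, fun _ g => ⟨fun ⟨t, e⟩ => ⟨_, e.symm⟩, fun ⟨t, e⟩ => ⟨.ofAdd t, e.symm⟩⟩,
        fun _ t e => L.SLc.un_injective (e.trans L.SLc.un_zero.symm), fun _ => Subtype.ext (by rw [coe_wEl _ one_ne_zero, inv_one]; rfl),
        fun _ c => Subtype.ext (by rw [coe_hEl _ c.ne_zero, ← Units.val_inv_eq_inv_val]; rfl)⟩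
    have hH : ∀ L' : Subgroup (L.SLc.dgHom (F := F)).range, (∀ (_ : Unit) c, L.SLc.dgHom.rangeRestrict c ∈ L') → L' = ⊤ :=
      fun L' h => eq_top_iff.2 fun x _ => (MonoidHom.rangeRestrict_surjective _ x).elim fun c e => e ▸ h () c
    exact ⟨fun _ _ => (r1_SL2 p).split.dz_unique R hH, fun M hM => (r1_SL2 p).split.card_dz R hH hM (χ := ⟨χ, h1⟩) h3⟩
  · obtain ⟨S, hg, -⟩ := L.RD.sysA F n
    exact ⟨fun _ _ => (split p hg).dz_unique sl2Data gen_H, fun M hM => (split p hg).card_dz sl2Data gen_H hM (χ := ⟨χ, h1⟩) h3⟩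

end H12.Lt
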