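import Cfsg.Agent.H12.ExtB

/-! # McLaughlin's theorem, combinatorial part (namespace `H12.Mc`)

`TS b T` : a system of transvections `(a, φ)` for a pairing `b`; `TC b T` : connected systems
without unipotent radical; `TC.cen_of_mem` (all non-zero vectors of the span are centres),
`TC.symp` (symplectic case), `TC.lin` (linear case). -/

set_option autoImplicit false

namespace H12.Mc

variable {F V V' : Type*} [Field F] [AddCommGroup V] [Module F V] [AddCommGroup V'] [Module F V']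

/-- Systems of transvections. -/
structure TS (b : V' →ₗ[F] V →ₗ[F] F) (T : V → V' → Prop) : Prop where
  iso : ∀ {a φ}, T a φ → b φ a = 0
  zl : ∀ φ, T 0 φ
  zr : ∀ a, T a 0
  smulL : ∀ {a φ} (c : F), T a φ → T (c • a) φ
  smulR : ∀ {a φ} (c : F), T a φ → T a (c • φ)
  addL : ∀ {a a' φ}, T a φ → T a' φ → T (a + a') φ
  addR : ∀ {a φ φ'}, T a φ → T a φ' → T a (φ + φ')
  conj : ∀ {a φ x ψ}, T a φ → T x ψ → T (x + b φ x • a) (ψ - b ψ a • φ)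

variable {b : V' →ₗ[F] V →ₗ[F] F} {T : V → V' → Prop}

variable (b T) in
/-- chains of length two -/
def Reach (v : V) (ψ : V') : Prop := ∃ y χ, T y χ ∧ b χ v ≠ 0 ∧ b ψ y ≠ 0

variable (T) in
/-- centres -/
def Cen (a : V) : Prop := a ≠ 0 ∧ ∃ φ, φ ≠ 0 ∧ T a φ

variable (b T) in
/-- vectors fixed by all transvections -/
def Rad (v : V) : Prop := ∀ y χ, T y χ → y ≠ 0 → b χ v = 0

theorem TS.flip (h : TS b T) : TS b.flip (fun φ a => T a φ) where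
  iso := h.iso
  zl := h.zr
  zr := h.zl
  smulL := h.smulR
  smulR := h.smulL
  addL := h.addR
  addR := h.addL
  conj {φ a ψ x} h1 h2 := by
    simpa [sub_eq_add_neg] using h.conj (h.smulR (-1) h1) h2

theorem reach_flip {v : V} {ψ : V'} : Reach b.flip (fun φ a => T a φ) ψ v ↔ Reach b T v ψ :=
  ⟨fun ⟨y, χ, h1, h2, h3⟩ => ⟨χ, y, h1, h3, h2⟩, fun ⟨y, χ, h1, h2, h3⟩ => ⟨χ, y, h1, h3, h2⟩⟩

namespace TS
variable (h : TS b T) {a x v : V} {φ ψ η : V'}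
include h

theorem comm (h1 : T a φ) (h2 : T x ψ) (h3 : b φ x ≠ 0) (h4 : b ψ a = 0) : T a ψ := by
  have := h.smulL (b φ x)⁻¹ (h.addL (h.conj h1 h2) (by
    rw [h4, zero_smul, sub_zero]; exact h.smulL (-1) h2))
  rw [h4, zero_smul, sub_zero, show x + b φ x • a + (-1 : F) • x = b φ x • a by module,
    inv_smul_smul₀ h3] at this
  exact this

theorem sc (h1 : Reach b T v ψ) (h2 : T x ψ) (h3 : b η x ≠ 0) : Reach b T v η := by
  obtain ⟨y, χ, t, c1, c2⟩ := h1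
  by_cases e1 : b ψ v = 0
  · by_cases e2 : b η y = 0
    · exact ⟨_, _, h.conj h2 t, by simpa [e1] using c1, by simp [e2, c2, h3]⟩
    · exact ⟨y, χ, t, c1, e2⟩
  · exact ⟨x, ψ, h2, e1, h3⟩

theorem reach_trans (h1 : Reach b T v ψ) (h2 : T x ψ) (h3 : Reach b T x η) : Reach b T v η := by
  obtain ⟨y, χ, t, c1, c2⟩ := h3
  exact h.sc (h.sc h1 h2 c1) t c2

theorem conj' (h1 : T a φ) (h2 : T x ψ) (h3 : b φ x ≠ 0) (c : F) :
    T (x + c • a) (ψ - (c / b φ x * b ψ a) • φ) := by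
  have := h.conj (h.smulL (c / b φ x) h1) h2
  rwa [smul_smul, mul_div_cancel₀ _ h3, map_smul, smul_eq_mul] at this

theorem line (hx : Cen T x) (h1 : T a φ) (h3 : b φ x ≠ 0) (c : F) : Cen T (x + c • a) := by
  obtain ⟨-, ψ, h0, h2⟩ := hx
  refine ⟨fun e => h3 ?_, _, fun e => h0 ?_, h.conj' h1 h2 h3 c⟩
  · simpa [h.iso h1] using congrArg (b φ) e
  · rw [sub_eq_zero] at e
    have := h.iso h2
    rw [e, map_smul, LinearMap.smul_apply, smul_eq_mul, mul_eq_zero] at this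
    rw [e, this.resolve_right h3, zero_smul]

theorem cen_smul (hx : Cen T x) {c : F} (hc : c ≠ 0) : Cen T (c • x) :=
  let ⟨h0, φ, h1, h2⟩ := hx; ⟨smul_ne_zero hc h0, φ, h1, h.smulL c h2⟩

theorem conj_iff (h1 : T a φ) : T (x + b φ x • a) (ψ - b ψ a • φ) ↔ T x ψ := by
  refine ⟨fun h2 => ?_, h.conj h1⟩
  have := h.conj (h.smulL (-1) h1) h2
  simp only [map_add, map_smul, h.iso h1, map_sub, LinearMap.sub_apply, LinearMap.smul_apply,
    smul_eq_mul, mul_zero, add_zero, sub_zero] at this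
  convert this using 1 <;> module

end TS

theorem Rad.add {v w : V} (h1 : Rad b T v) (h2 : Rad b T w) : Rad b T (v + w) :=
  fun y χ t h => by rw [map_add, h1 y χ t h, h2 y χ t h, add_zero]

theorem Rad.smul {v : V} (c : F) (h1 : Rad b T v) : Rad b T (c • v) :=
  fun y χ t h => by rw [map_smul, h1 y χ t h, smul_zero]

/-- Connected systems without radical. -/
structure TC (b : V' →ₗ[F] V →ₗ[F] F) (T : V → V' → Prop) : Prop extends TS b T where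
  two : (2 : F) ≠ 0
  con : ∀ {a φ x ψ}, T a φ → T x ψ → a ≠ 0 → φ ≠ 0 → x ≠ 0 → ψ ≠ 0 → Reach b T a ψ
  hQ : ∀ {a φ a' φ'}, T a φ → T a' φ' → a ≠ 0 → φ ≠ 0 → a' ≠ 0 → φ' ≠ 0 → Rad b T (a' - a) →
    Rad b.flip (fun φ a => T a φ) (φ' - φ) → a' = a ∧ φ' = φ

theorem TC.flip (h : TC b T) : TC b.flip (fun φ a => T a φ) where
  toTS := h.toTS.flip
  two := h.two
  con h1 h2 a b c d := reach_flip.2 (h.con h2 h1 d c b a)
  hQ h1 h2 a b c d e f := (h.hQ h1 h2 b a d c f e).symm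

variable (F T) in
/-- The span of the centres. -/
def Wc : Submodule F V := Submodule.span F {a | Cen T a}

namespace TC
variable (h : TC b T) {a x v : V} {φ ψ η : V'}
include h

theorem not_rad (ha : Cen T a) : ¬ Rad b T a := fun r => by
  obtain ⟨h0, φ, h1, h2⟩ := ha
  obtain ⟨y, χ, t, c1, c2⟩ := h.con h2 h2 h0 h1 h0 h1
  exact c1 (r y χ t (by rintro rfl; simp at c2))

theorem reach (hv : ¬ Rad b T v) (h2 : T x ψ) (hx : x ≠ 0) (hψ : ψ ≠ 0) : Reach b T v ψ := by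
  simp only [Rad, not_forall] at hv
  obtain ⟨y, χ, t, y0, c⟩ := hv
  obtain ⟨y', χ', t', c1, c2⟩ := h.con t h2 y0 (by rintro rfl; simp at c) hx hψ
  exact h.sc ⟨y, χ, t, c, c1⟩ t' c2

theorem add (ha : Cen T a) (hx : Cen T x) (hr : ¬ Rad b T (a + x)) : Cen T (a + x) := by
  obtain ⟨x0, ψ, ψ0, t⟩ := hx
  by_cases e : b ψ a = 0
  swap
  · simpa using h.line ha t e 1
  have K : ∀ a', Cen T a' → b ψ a' = 0 → ∀ y η, T y η → b η a' ≠ 0 → b ψ y ≠ 0 → ∀ c : F,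
      b η (a' + c • x) ≠ 0 → Cen T (a' + c • x) := by
    intro a' ha' e y η t' c1 c2 c c3
    have k1 := h.line (h.line ha' t' c1 1) t (by simpa [e] using c2) c
    have k2 := h.line k1 t' (by simpa [h.iso t'] using c3) (-1)
    convert k2 using 1; module
  obtain ⟨y₁, η₁, t₁, c1, c2⟩ := h.reach (h.not_rad ha) t x0 ψ0
  by_cases e1 : b η₁ (a + x) = 0
  swap
  · simpa using K a ha e y₁ η₁ t₁ c1 c2 1 (by simpa using e1)
  have ha' := K a ha e y₁ η₁ t₁ c1 c2 (-1) (fun e2 => mul_ne_zero h.two c1 (by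
    simp only [map_add, map_smul, smul_eq_mul] at e1 e2; linear_combination e1 + e2))
  obtain ⟨y₂, η₂, t₂, c3, c4⟩ := h.reach hr t x0 ψ0
  by_cases e2 : b η₂ a = 0
  swap
  · simpa using K a ha e y₂ η₂ t₂ e2 c4 1 (by simpa using c3)
  have := K _ ha' (by simp [e, h.iso t]) y₂ η₂ t₂ (by simpa [e2] using c3) c4 2 (by
    rwa [show a + (-1 : F) • x + (2 : F) • x = a + x by module])
  rwa [show a + (-1 : F) • x + (2 : F) • x = a + x by module] at this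

theorem step {a₁ a₂ : V} (h1 : Cen T a₁) (h2 : Cen T a₂) (hr : Rad b T (a₁ + a₂)) (ha : Cen T a) :
    Cen T (a₁ + a₂ + a) := by
  have nr : ¬ Rad b T (a₁ + a₂ + a) := fun r => h.not_rad ha (by
    convert r.add (hr.smul (-1 : F)) using 1; module)
  by_cases e1 : Rad b T (a₁ + a)
  · by_cases e2 : Rad b T (a₂ + a)
    · refine absurd ?_ (h.not_rad (h.cen_smul ha h.two))
      convert (e1.add e2).add (hr.smul (-1 : F)) using 1; module
    · have := h.add h1 (h.add h2 ha e2) (by rwa [← add_assoc])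
      rwa [← add_assoc] at this
  · have := h.add h2 (h.add h1 ha e1) (by rwa [← add_assoc, add_comm a₂])
    rwa [← add_assoc, add_comm a₂] at this

theorem cen_or_rad {w : V} (hw : w ∈ Wc F T) :
    Cen T w ∨ (Rad b T w ∧ (w = 0 ∨ ∃ a₁ a₂, Cen T a₁ ∧ Cen T a₂ ∧ w = a₁ + a₂)) := by
  have st : ∀ w a, (Cen T w ∨ (Rad b T w ∧ (w = 0 ∨ ∃ a₁ a₂, Cen T a₁ ∧ Cen T a₂ ∧ w = a₁ + a₂))) →
      Cen T a → (Cen T (w + a) ∨ (Rad b T (w + a) ∧ (w + a = 0 ∨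
        ∃ a₁ a₂, Cen T a₁ ∧ Cen T a₂ ∧ w + a = a₁ + a₂))) := by
    rintro w a (hw | ⟨r, rfl | ⟨a₁, a₂, h1, h2, rfl⟩⟩) ha
    · by_cases e : Rad b T (w + a)
      · exact Or.inr ⟨e, Or.inr ⟨w, a, hw, ha, rfl⟩⟩
      · exact Or.inl (h.add hw ha e)
    · exact Or.inl (by simpa using ha)
    · exact Or.inl (h.step h1 h2 r ha)
  induction hw using Submodule.span_induction with
  | mem x hx => exact Or.inl hx
  | zero => exact Or.inr ⟨fun _ _ _ _ => by simp, Or.inl rfl⟩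
  | add x y _ _ hx hy =>
    rcases hy with hy | ⟨-, rfl | ⟨a₁, a₂, h1, h2, rfl⟩⟩
    · exact st x y hx hy
    · simpa using hx
    · rw [← add_assoc]; exact st _ _ (st _ _ hx h1) h2
  | smul c x _ hx =>
    by_cases hc : c = 0
    · exact Or.inr ⟨fun _ _ _ _ => by simp [hc], Or.inl (by simp [hc])⟩
    rcases hx with hx | ⟨r, rfl | ⟨a₁, a₂, h1, h2, rfl⟩⟩
    · exact Or.inl (h.cen_smul hx hc)
    · exact Or.inr ⟨r.smul c, Or.inl (by simp)⟩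
    · exact Or.inr ⟨r.smul c, Or.inr ⟨_, _, h.cen_smul h1 hc, h.cen_smul h2 hc, smul_add _ _ _⟩⟩

omit h in
theorem mem_Wc (h1 : T a φ) (h0 : φ ≠ 0) : a ∈ Wc F T := by
  by_cases e : a = 0
  · rw [e]; exact zero_mem _
  · exact Submodule.subset_span ⟨e, φ, h0, h1⟩

theorem sym_of_U (hU : ∀ e φ φ', e ≠ 0 → T e φ → T e φ' → φ ≠ 0 → ∃ c : F, φ' = c • φ)
    (h1 : T a φ) (h2 : T x ψ) (a0 : a ≠ 0) (ψ0 : ψ ≠ 0) (c : b φ x ≠ 0) : b ψ a ≠ 0 := fun e => by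
  obtain ⟨d, rfl⟩ := hU a φ ψ a0 h1 (h.comm h1 h2 c e) (by rintro rfl; simp at c)
  have := h.iso h2
  simp only [map_smul, LinearMap.smul_apply, smul_eq_mul, mul_eq_zero, c, or_false] at this
  exact ψ0 (by rw [this, zero_smul])

theorem eq_zero_of_rad {r : V} (hw : r ∈ Wc F T) (hr : Rad b T r) : r = 0 := by
  rcases h.cen_or_rad hw with hc | ⟨-, e | ⟨a₁, a₂, h1, h2, rfl⟩⟩
  · exact absurd hr (h.not_rad hc)
  · exact e
  by_contra r0
  have D : ∀ a φ y χ η, T a φ → T y χ → b χ a ≠ 0 → b φ y ≠ 0 → T (a + (a₁ + a₂)) η → η ≠ 0 →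
      b η y ≠ 0 := by
    intro a φ y χ η t1 t2 c1 c2 t3 η0 e
    have y0 : y ≠ 0 := by rintro rfl; simp at c2
    have k0 : b χ (a + (a₁ + a₂)) ≠ 0 := by rwa [map_add, hr y χ t2 y0, add_zero]
    have a0 : a + (a₁ + a₂) ≠ 0 := by rintro e; simp [e] at k0
    have k1 := h.comm t2 t3 k0 e
    have k2 := h.comm t1 k1 c2 (by simpa [hr _ _ t3 a0] using h.iso t3)
    have k3 := h.addL t3 (h.smulL (-1) k2)
    rw [show a + (a₁ + a₂) + (-1 : F) • a = a₁ + a₂ by module] at k3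
    exact h.not_rad ⟨r0, η, η0, k3⟩ hr
  have hU : ∀ e φ φ', e ≠ 0 → T e φ → T e φ' → φ ≠ 0 → ∃ c : F, φ' = c • φ := by
    intro e φ φ' e0 t1 t2 φ0
    obtain ⟨a0, φ₁, φ₁0, t3⟩ := h.step (h.cen_smul h1 (neg_ne_zero.2 one_ne_zero))
      (h.cen_smul h2 (neg_ne_zero.2 one_ne_zero)) (by
        convert hr.smul (-1 : F) using 1; module) ⟨e0, φ, φ0, t1⟩
    obtain ⟨y, χ, t4, c1, c2⟩ := h.con t3 t3 a0 φ₁0 a0 φ₁0
    have D' := D ((-1 : F) • a₁ + (-1 : F) • a₂ + e) φ₁ y χ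
    rw [show (-1 : F) • a₁ + (-1 : F) • a₂ + e + (a₁ + a₂) = e by module] at D'
    have k1 := D' φ t3 t4 c1 c2 t1 φ0
    refine ⟨b φ' y / b φ y, ?_⟩
    by_contra ne
    refine D' (φ' + (-(b φ' y / b φ y)) • φ) t3 t4 c1 c2 (h.addR t2 (h.smulR _ t1))
      (fun e => ne (by rw [← sub_eq_zero, ← e]; module)) ?_
    simp [div_mul_cancel₀ _ k1]
  obtain ⟨a0, φ, φ0, t1⟩ := h1
  obtain ⟨a0', φ', φ0', t2⟩ := h.cen_smul h2 (neg_ne_zero.2 (one_ne_zero (α := F)))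
  have eqv : ∀ x, Cen T x → (b φ x = 0 ↔ b φ' x = 0) := by
    rintro x ⟨x0, ξ, ξ0, t⟩
    have e : b ξ a₁ = b ξ ((-1 : F) • a₂) := by
      have := hr x ξ t x0
      simp only [map_add, map_smul, smul_eq_mul] at this ⊢
      linear_combination this
    rw [← not_iff_not]
    exact ⟨fun c => h.sym_of_U hU t t2 x0 φ0' (e ▸ h.sym_of_U hU t1 t a0 ξ0 c),
      fun c => h.sym_of_U hU t t1 x0 φ0 (e ▸ h.sym_of_U hU t2 t a0' ξ0 c)⟩
  obtain ⟨y, χ, t3, c1, c2⟩ := h.con t1 t1 a0 φ0 a0 φ0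
  have χ0 : χ ≠ 0 := by rintro rfl; simp at c1
  have cy : Cen T y := ⟨by rintro rfl; simp at c2, χ, χ0, t3⟩
  have c3 : b φ' y ≠ 0 := fun e => c2 ((eqv y cy).2 e)
  have := (h.hQ (h.smulR (b φ' y / b φ y) t1) t2 a0 (smul_ne_zero (div_ne_zero c3 c2) φ0) a0' φ0'
    (by convert hr.smul (-1 : F) using 1; module) (fun ξ x t ξ0 => ?_)).1
  · exact r0 (by rw [← this]; module)
  have m : x + (-(b φ x / b φ y)) • y ∈ Wc F T :=
    add_mem (mem_Wc t ξ0) (Submodule.smul_mem _ _ (mem_Wc t3 χ0))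
  have k : b φ' (x + (-(b φ x / b φ y)) • y) = 0 := by
    rcases h.cen_or_rad m with hc | ⟨hc, -⟩
    · exact (eqv _ hc).1 (by simp [div_mul_cancel₀ _ c2])
    · exact hc _ _ t2 a0'
  simp only [map_add, map_smul, smul_eq_mul, LinearMap.flip_apply, map_sub, LinearMap.sub_apply,
    LinearMap.smul_apply] at k ⊢
  rw [← k]; ring

theorem cen_of_mem {w : V} (hw : w ∈ Wc F T) (h0 : w ≠ 0) : Cen T w :=
  (h.cen_or_rad hw).resolve_right fun r => h0 (h.eq_zero_of_rad hw r.1)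

theorem inv_eq {α : Sort*} (I : V → α) (h1 : ∀ (c : F) a, c ≠ 0 → I (c • a) = I a)
    (h2 : ∀ a φ x, T a φ → I (x + b φ x • a) = I x) (ha : Cen T a) (hx : Cen T x) : I a = I x := by
  have l : ∀ a φ x (c : F), T a φ → b φ x ≠ 0 → I (x + c • a) = I x := fun a φ x c t e => by
    have := h2 _ _ x (h.smulL (c / b φ x) t)
    rwa [smul_smul, mul_div_cancel₀ _ e] at this
  have st : ∀ a φ y χ, T a φ → T y χ → b φ y ≠ 0 → b χ a ≠ 0 → I a = I y :=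
    fun a φ y χ t1 t2 c1 c2 => by
      rw [← l a φ y 1 t1 c1, ← l y χ a 1 t2 c2, one_smul, one_smul, add_comm]
  have ar : ∀ a φ x, T a φ → a ≠ 0 → Cen T x → b φ x ≠ 0 → I a = I x := by
    rintro a φ x t1 a0 ⟨x0, ξ, ξ0, t2⟩ c
    by_cases e : b ξ a = 0
    swap
    · exact st a φ x ξ t1 t2 c e
    have t3 := h.comm t1 t2 c e
    obtain ⟨y, χ, t4, c1, c2⟩ := h.con t3 t3 a0 ξ0 a0 ξ0
    rw [st a ξ y χ t3 t4 c2 c1]
    by_cases e2 : b χ x = 0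
    · have t5 := h.conj' t1 t2 c 1
      rw [e, mul_zero, zero_smul, sub_zero] at t5
      rw [← st _ ξ y χ t5 t4 c2 (by simpa [e2] using c1), l a φ x 1 t1 c]
    · exact (st x ξ y χ t2 t4 c2 e2).symm
  obtain ⟨a0, φ, φ0, t1⟩ := ha
  obtain ⟨x0, ψ, ψ0, t2⟩ := hx
  obtain ⟨y, χ, t3, c1, c2⟩ := h.con t1 t2 a0 φ0 x0 ψ0
  have y0 : y ≠ 0 := by rintro rfl; simp at c2
  rw [← ar y χ a t3 y0 ⟨a0, φ, φ0, t1⟩ c1, ar x ψ y t2 x0 ⟨y0, χ, by rintro rfl; simp at c1, t3⟩ c2]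

theorem smul_iff {c : F} (hc : c ≠ 0) : T (c • a) φ ↔ T a φ :=
  ⟨fun t => by simpa [hc] using h.smulL c⁻¹ t, h.smulL c⟩

theorem lin [Finite V'] (hU : ¬ ∀ e φ φ', e ≠ 0 → T e φ → T e φ' → φ ≠ 0 → ∃ c : F, φ' = c • φ)
    (ha : a ∈ Wc F T) (a0 : a ≠ 0) (hx : x ∈ Wc F T) (hz : ∀ φ, T a φ → b φ x = 0) :
    ∃ c : F, x = c • a := by
  have S : ∀ y, Cen T y → ¬ ∀ φ φ', T y φ → T y φ' → φ ≠ 0 → ∃ c : F, φ' = c • φ := by
    intro y hy
    simp only [not_forall] at hU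
    obtain ⟨e, φ, φ', e0, t1, t2, φ0, ne⟩ := hU
    rw [← h.inv_eq (fun y => ∀ φ φ', T y φ → T y φ' → φ ≠ 0 → ∃ c : F, φ' = c • φ)
      (fun c a hc => by simp only [h.smul_iff hc]) (fun a φ x t => ?_) ⟨e0, φ, φ0, t1⟩ hy]
    · exact fun k => ne (k φ φ' t1 t2 φ0)
    have key : ∀ a φ x, T a φ → (∀ φ₁ φ₂, T (x + b φ x • a) φ₁ → T (x + b φ x • a) φ₂ → φ₁ ≠ 0 →
        ∃ c : F, φ₂ = c • φ₁) → ∀ φ₁ φ₂, T x φ₁ → T x φ₂ → φ₁ ≠ 0 → ∃ c : F, φ₂ = c • φ₁ := by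
      intro a φ x t k φ₁ φ₂ t1 t2 φ0
      obtain ⟨c, hc⟩ := k _ _ (h.conj t t1) (h.conj t t2) (fun e => φ0 (by
        have e' := congrArg (b · a) e
        simp only [map_sub, map_smul, LinearMap.sub_apply, LinearMap.smul_apply, h.iso t,
          smul_zero, sub_zero, map_zero, LinearMap.zero_apply] at e'
        simpa [e'] using e))
      have e' := congrArg (b · a) hc
      simp only [map_sub, map_smul, LinearMap.sub_apply, LinearMap.smul_apply, h.iso t,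
        smul_zero, sub_zero, smul_eq_mul, mul_zero] at e'
      refine ⟨c, ?_⟩
      rw [e', sub_eq_iff_eq_add] at hc
      rw [hc]; module
    refine propext ⟨key a φ x t, fun k => key ((-1 : F) • a) φ _ (h.smulL _ t) ?_⟩
    simpa [h.iso t] using k
  have S' : ∀ y v, Cen T y → ∃ ξ, ξ ≠ 0 ∧ T y ξ ∧ b ξ v = 0 := by
    intro y v hy
    have := S y hy
    simp only [not_forall, not_exists] at this
    obtain ⟨φ, φ', t1, t2, φ0, ne⟩ := this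
    by_cases e : b φ v = 0
    · exact ⟨φ, φ0, t1, e⟩
    · exact ⟨φ' + (-(b φ' v / b φ v)) • φ, fun e => ne (b φ' v / b φ v)
        (by rw [← sub_eq_zero, ← e]; module), h.addR t2 (h.smulR _ t1),
        by simp [div_mul_cancel₀ _ e]⟩
  have Sy : ∀ a φ x, T a φ → a ≠ 0 → Cen T x → b φ x ≠ 0 → ∃ ψ, T x ψ ∧ b ψ a ≠ 0 := by
    intro a φ x t a0 hx c
    by_contra! k
    have e := h.inv_eq (fun y => {φ | T y φ}.ncard) (fun c a hc => by simp only [h.smul_iff hc])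
      (fun a φ x t => ?_) ⟨a0, φ, by rintro rfl; simp at c, t⟩ hx
    · have : {φ | T x φ}.ncard < {φ | T a φ}.ncard := Set.ncard_lt_ncard
        ⟨fun ψ hψ => h.comm t hψ c (k ψ hψ), fun s => c (h.iso (s t))⟩
      exact this.ne' e
    refine (Set.ncard_congr (fun ψ _ => ψ - b ψ a • φ) (fun ψ t' => h.conj t t')
      (fun ψ ψ' _ _ e => ?_) (fun ψ t' => ⟨ψ + b ψ a • φ, (h.conj_iff t).1 ?_, ?_⟩)).symm
    · have e' := congrArg (b · a) e
      simp only [map_sub, map_smul, LinearMap.sub_apply, LinearMap.smul_apply, h.iso t,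
        smul_zero, sub_zero] at e'
      simpa [e'] using e
    · have t'' : T (x + b φ x • a) ψ := t'
      simpa [h.iso t] using t''
    · simp [h.iso t]
  by_contra! ne
  have cov : ∀ z φ, z ∈ Wc F T → T a φ → b φ z ≠ 0 → ∃ c : F, (∀ χ, T z χ → b χ (x + c • a) = 0) ∧
      ∀ ξ, T (x + c • a) ξ → b ξ z = 0 := by
    intro z φ hzW t c
    have cz := h.cen_of_mem hzW (by rintro rfl; simp at c)
    obtain ⟨χ, t1, c1⟩ := Sy a φ z t a0 cz c
    have k : ∀ χ', T z χ' → b χ' (x + (-(b χ x / b χ a)) • a) = 0 := fun χ' t2 => by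
      have := hz _ (h.comm t (h.addR t2 (h.smulR (-(b χ' a / b χ a)) t1)) c
        (by simp [div_mul_cancel₀ _ c1]))
      simp only [map_add, map_smul, LinearMap.add_apply, LinearMap.smul_apply, smul_eq_mul] at this ⊢
      rw [← this]; ring
    refine ⟨_, k, fun ξ t2 => ?_⟩
    by_contra c2
    obtain ⟨ψ, t3, c3⟩ := Sy _ ξ z t2 (fun e => ne (b χ x / b χ a)
      (by rw [← sub_eq_zero, ← e]; module)) cz c2
    exact c3 (k ψ t3)
  obtain ⟨-, φ, φ0, t⟩ := h.cen_of_mem ha a0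
  obtain ⟨y, χ, t1, c1, c2⟩ := h.con t t a0 φ0 a0 φ0
  have χ0 : χ ≠ 0 := by rintro rfl; simp at c1
  have y0 : y ≠ 0 := by rintro rfl; simp at c2
  obtain ⟨c, k1, -⟩ := cov y φ (mem_Wc t1 χ0) t c2
  obtain ⟨ξ, ξ0, t2, c3⟩ := S' y a ⟨y0, χ, χ0, t1⟩
  have t3 := h.comm t t2 c2 c3
  have c4 : b χ (x + c • a + a) ≠ 0 := by rwa [map_add, k1 χ t1, zero_add]
  obtain ⟨ψ, t4, c5⟩ := Sy y χ _ t1 y0 (h.cen_of_mem (add_mem (add_mem hx
    (Submodule.smul_mem _ _ ha)) ha) (by rintro e; simp [e] at c4)) c4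
  have t5 := h.comm t4 t2 c5 (by rw [map_add, k1 ξ t2, c3, add_zero])
  obtain ⟨z, ζ, t6, c6, c7⟩ := h.con t3 t3 a0 ξ0 a0 ξ0
  obtain ⟨d, -, k2⟩ := cov z ξ (mem_Wc t6 (by rintro rfl; simp at c6)) t3 c7
  refine c7 (k2 ξ ?_)
  convert h.addL t5 (h.smulL (d - c - 1) t3) using 1
  module

theorem symp (hU : ∀ e φ φ', e ≠ 0 → T e φ → T e φ' → φ ≠ 0 → ∃ c : F, φ' = c • φ) :
    ∃ θ : Wc F T →ₗ[F] V', (∀ a : Wc F T, T a (θ a)) ∧
      (∀ a x : Wc F T, b (θ a) x = -b (θ x) a) ∧ ∀ a, θ a = 0 → a = 0 := by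
  by_cases hW : ∀ a φ, T a φ → a ≠ 0 → φ = 0
  · refine ⟨0, fun a => h.zr _, by simp, fun a _ => ?_⟩
    by_contra a0
    obtain ⟨a1, φ, φ0, t⟩ := h.cen_of_mem a.2 (fun e => a0 (Subtype.ext e))
    exact φ0 (hW _ _ t a1)
  push Not at hW
  obtain ⟨a₀, φ₀, t₀, a0, φ0⟩ := hW
  obtain ⟨y₀, χ₀, t₁, c1, c2⟩ := h.con t₀ t₀ a0 φ0 a0 φ0
  have m₀ : y₀ ∈ Wc F T := mem_Wc t₁ (by rintro rfl; simp at c1)
  have E : ∀ y ∈ Wc F T, b φ₀ y ≠ 0 → ∃ χ, T y χ ∧ b χ a₀ = -b φ₀ y := by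
    intro y hy c
    obtain ⟨-, χ, χ0, t⟩ := h.cen_of_mem hy (by rintro rfl; simp at c)
    have := h.sym_of_U hU t₀ t a0 χ0 c
    exact ⟨(-b φ₀ y / b χ a₀) • χ, h.smulR _ t, by simp [div_mul_cancel₀ _ this]⟩
  have C1 : ∀ y χ y' χ', T y χ → b φ₀ y ≠ 0 → b χ a₀ = -b φ₀ y → T y' χ' → b φ₀ y' ≠ 0 →
      b χ' a₀ = -b φ₀ y' → b χ y' = -b χ' y := by
    intro y χ y' χ' t c e t' c' e'
    have t2 := h.conj' t₀ t' c' (b χ y' / b φ₀ y)
    rw [e', mul_neg, div_mul_cancel₀ _ c', neg_smul, sub_neg_eq_add] at t2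
    have : b (χ' + (b χ y' / b φ₀ y) • φ₀) y = 0 := by
      by_contra k
      refine h.sym_of_U hU t2 t (fun e => c' (by simpa [h.iso t₀] using congrArg (b φ₀) e))
        (by rintro rfl; exact c (by simpa using e.symm)) k ?_
      simp [e, div_mul_cancel₀ _ c]
    simp only [map_add, map_smul, LinearMap.add_apply, LinearMap.smul_apply, smul_eq_mul,
      div_mul_cancel₀ _ c] at this
    linear_combination this
  have ext : ∀ f : V →ₗ[F] F, (∀ y ∈ Wc F T, b φ₀ y ≠ 0 → f y = 0) → ∀ y ∈ Wc F T, f y = 0 := by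
    intro f hf y hy
    by_cases c : b φ₀ y = 0
    · have := hf (y + y₀) (add_mem hy m₀) (by simpa [c] using c2)
      rwa [map_add, hf y₀ m₀ c2, add_zero] at this
    · exact hf y hy c
  let P : V → V' → Prop := fun x ψ => ψ ∈ Wc F (fun φ a => T a φ) ∧
    ∀ y χ, T y χ → b φ₀ y ≠ 0 → b χ a₀ = -b φ₀ y → b ψ y = -b χ x
  have un : ∀ x ψ ψ', P x ψ → P x ψ' → ψ = ψ' := by
    intro x ψ ψ' p p'
    refine sub_eq_zero.1 (h.flip.eq_zero_of_rad (sub_mem p.1 p'.1) fun ξ y t ξ0 => ?_)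
    refine ext (b (ψ - ψ')) (fun y hy c => ?_) y (mem_Wc t ξ0)
    obtain ⟨χ, t, e⟩ := E y hy c
    simp [p.2 y χ t c e, p'.2 y χ t c e]
  have exU : ∀ x ∈ Wc F T, b φ₀ x ≠ 0 → ∃ ψ, T x ψ ∧ P x ψ := by
    intro x hx c
    obtain ⟨χ, t, e⟩ := E x hx c
    exact ⟨χ, t, mem_Wc (T := fun φ a => T a φ) t (by rintro rfl; simp at c),
      fun y χ' t' c' e' => C1 x χ y χ' t c e t' c' e'⟩
  have Padd : ∀ x ψ x' ψ', P x ψ → P x' ψ' → P (x + x') (ψ + ψ') := fun x ψ x' ψ' p p' =>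
    ⟨add_mem p.1 p'.1, fun y χ t c e => by simp [p.2 y χ t c e, p'.2 y χ t c e, add_comm]⟩
  have Psmul : ∀ (c : F) x ψ, P x ψ → P (c • x) (c • ψ) := fun d x ψ p =>
    ⟨Submodule.smul_mem _ _ p.1, fun y χ t c e => by simp [p.2 y χ t c e]⟩
  have ex : ∀ x : Wc F T, ∃ ψ, P x ψ := by
    rintro ⟨x, hx⟩
    by_cases c : b φ₀ x = 0
    · obtain ⟨ψ, -, p⟩ := exU (x + y₀) (add_mem hx m₀) (by simpa [c] using c2)
      obtain ⟨ψ', -, p'⟩ := exU y₀ m₀ c2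
      exact ⟨_, by simpa using Padd _ _ _ _ p (Psmul (-1) _ _ p')⟩
    · obtain ⟨ψ, -, p⟩ := exU x hx c
      exact ⟨ψ, p⟩
  choose θ hθ using ex
  let θ' : Wc F T →ₗ[F] V' :=
    { toFun := θ
      map_add' := fun x y => un _ _ _ (hθ _) (Padd _ _ _ _ (hθ x) (hθ y))
      map_smul' := fun c x => un _ _ _ (hθ _) (Psmul c _ _ (hθ x)) }
  have hθ' : ∀ x : Wc F T, P x (θ' x) := hθ
  have tU : ∀ x : Wc F T, b φ₀ x ≠ 0 → T x (θ' x) := fun x c => by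
    obtain ⟨ψ, t, p⟩ := exU x x.2 c
    rwa [un _ _ _ (hθ' x) p]
  have skU : ∀ a x : Wc F T, b φ₀ x ≠ 0 → b (θ' a) x = -b (θ' x) a := fun a x c => by
    obtain ⟨χ, t, e⟩ := E x x.2 c
    have p : P x χ := ⟨mem_Wc (T := fun φ a => T a φ) t (by rintro e; simp [e] at c),
      fun y χ' t' c' e' => C1 x χ y χ' t c e t' c' e'⟩
    rw [(hθ' a).2 x χ t c e, un _ _ _ (hθ' x) p]
  have sk : ∀ a x : Wc F T, b (θ' a) x = -b (θ' x) a := fun a x => by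
    by_cases c : b φ₀ x = 0
    · have k1 := skU a (x + ⟨y₀, m₀⟩) (by simpa [c] using c2)
      have k2 := skU a ⟨y₀, m₀⟩ c2
      simp only [Submodule.coe_add, map_add, LinearMap.add_apply] at k1 k2
      linear_combination k1 - k2
    · exact skU a x c
  have good : ∀ x : Wc F T, x ≠ 0 → ∃ y : Wc F T, b φ₀ y ≠ 0 ∧ b (θ' y) x ≠ 0 := by
    intro x x0
    obtain ⟨x1, φ, φ1, t⟩ := h.cen_of_mem x.2 (fun e => x0 (Subtype.ext e))
    obtain ⟨z, ζ, t2, c3, c4⟩ := h.con t t x1 φ1 x1 φ1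
    obtain ⟨y, hy, c5, c6⟩ := Ext.two_ne (· ∈ Wc F T) (fun _ _ => add_mem) (b φ₀) (b φ)
      (map_add _) (map_add _) ⟨y₀, m₀, c2⟩ ⟨z, mem_Wc t2 (by rintro rfl; simp at c3), c4⟩
    refine ⟨⟨y, hy⟩, c5, h.sym_of_U hU t (tU ⟨y, hy⟩ c5) x1 (fun e => ?_) c6⟩
    obtain ⟨χ, t3, e3⟩ := E y hy c5
    have := skU ⟨a₀, mem_Wc t₀ φ0⟩ ⟨y, hy⟩ c5
    rw [(hθ' _).2 y χ t3 c5 e3, e, e3] at this
    exact c5 (by simpa using this)
  refine ⟨θ', fun x => ?_, sk, fun a e => ?_⟩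
  · by_cases c : b φ₀ x = 0
    swap
    · exact tU x c
    by_cases x0 : x = 0
    · rw [x0]; exact h.zl _
    obtain ⟨y, c5, c6⟩ := good x x0
    have c7 : b (θ' y) ((x + y : Wc F T) : V) = b (θ' y) x := by simp [h.iso (tU y c5)]
    have := h.conj' (tU y c5) (tU (x + y) (by simpa [c] using c5)) (c7 ▸ c6) (-1)
    rw [sk (x + y) y, c7, mul_neg, div_mul_cancel₀ _ c6] at this
    simpa using this
  · by_contra a0
    obtain ⟨y, -, c6⟩ := good a a0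
    rw [sk, e] at c6
    simp at c6

end TC

end H12.Mc
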