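import Cfsg.Agent.H12.McA
import Cfsg.Agent.H09.AltForm
import Cfsg.Prelude.Def_Solvable

/-! # McLaughlin's theorem, components and the groups induced on them (namespace `H12.Mc`)

`TG` (systems without radical), `TG.comp`, `TG.exists_index`, `TC.surj`, `TC.full`,
`gen_det` (`SL(W)` is generated by transvections), `Tv`, `tg_of_pCore`. -/

set_option autoImplicit false
open Module

namespace H12.Mc

section abstr
variable {F V V' : Type*} [Field F] [AddCommGroup V] [Module F V] [AddCommGroup V'] [Module F V']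
  {b : V' →ₗ[F] V →ₗ[F] F} {T : V → V' → Prop}

theorem TC.inj (h : TC b T) : Function.Injective
    (b.flip.domRestrict₁₂ (Wc F T) (Wc F (fun φ a => T a φ))) := by
  rw [injective_iff_map_eq_zero]
  intro w hw
  refine Subtype.ext (h.eq_zero_of_rad w.2 fun y χ t y0 => ?_)
  exact LinearMap.congr_fun hw ⟨χ, TC.mem_Wc (T := fun φ a => T a φ) t y0⟩

theorem TC.surj [FiniteDimensional F V] [FiniteDimensional F V'] (h : TC b T)
    (f : Dual F (Wc F (fun φ a => T a φ))) :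
    ∃ w ∈ Wc F T, ∀ ψ : Wc F (fun φ a => T a φ), b ψ w = f ψ := by
  have i1 := h.inj
  have i2 := LinearMap.finrank_le_finrank_of_injective h.flip.inj
  have i3 := LinearMap.finrank_le_finrank_of_injective i1
  rw [Subspace.dual_finrank_eq] at i2
  obtain ⟨w, hw⟩ := (LinearMap.injective_iff_surjective_of_finrank_eq_finrank
    (le_antisymm i3 (by rwa [Subspace.dual_finrank_eq]))).1 i1 f
  exact ⟨w, w.2, fun ψ => LinearMap.congr_fun hw ψ⟩

theorem TC.full [FiniteDimensional F V] [FiniteDimensional F V'] [Finite V'] (h : TC b T)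
    (hU : ¬ ∀ e φ φ', e ≠ 0 → T e φ → T e φ' → φ ≠ 0 → ∃ c : F, φ' = c • φ) {a : V} {ψ : V'}
    (ha : a ∈ Wc F T) (hψ : ψ ∈ Wc F (fun φ a => T a φ)) (h0 : b ψ a = 0) : T a ψ := by
  by_cases a0 : a = 0
  · rw [a0]; exact h.zl _
  let A : Submodule F V' :=
    { carrier := {φ | T a φ}
      add_mem' := h.addR
      zero_mem' := h.zr a
      smul_mem' := fun c _ t => h.smulR c t }
  by_contra hn
  obtain ⟨f, f1, f2⟩ := Submodule.exists_dual_map_eq_bot_of_notMem (p := A) (x := ψ) hn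
    inferInstance
  obtain ⟨w, hw, e⟩ := h.surj (f.domRestrict _)
  obtain ⟨c, rfl⟩ := h.lin hU ha a0 hw fun φ t => by
    rw [e ⟨φ, TC.mem_Wc (T := fun φ a => T a φ) t a0⟩]
    exact (Submodule.mem_bot F).1 (f2 ▸ Submodule.mem_map_of_mem (p := A) t)
  exact f1 (by simpa [h0] using (e ⟨ψ, hψ⟩).symm)

/-- Systems without unipotent radical. -/
structure TG (b : V' →ₗ[F] V →ₗ[F] F) (T : V → V' → Prop) : Prop extends TS b T where
  two : (2 : F) ≠ 0
  cyc : ∀ {a φ}, T a φ → a ≠ 0 → φ ≠ 0 → Reach b T a φ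
  hQ : ∀ {a φ a' φ'}, T a φ → T a' φ' → a ≠ 0 → φ ≠ 0 → a' ≠ 0 → φ' ≠ 0 → Rad b T (a' - a) →
    Rad b.flip (fun φ a => T a φ) (φ' - φ) → a' = a ∧ φ' = φ

variable (b T) in
/-- The component of `φ₀`. -/
def Tc (φ₀ : V') (a : V) (φ : V') : Prop := T a φ ∧ (a = 0 ∨ φ = 0 ∨ Reach b T a φ₀)

namespace TG
variable (h : TG b T) {a x : V} {φ ψ η φ₀ : V'}
include h

theorem arrow (t : T x ψ) (ψ0 : ψ ≠ 0) (c : b η x ≠ 0) : Reach b T x η :=
  h.sc (h.cyc t (by rintro rfl; simp at c) ψ0) t c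

theorem symm1 (t1 : T a φ) (t2 : T x ψ) (a0 : a ≠ 0) (ψ0 : ψ ≠ 0) (c : b φ x ≠ 0) :
    Reach b T a ψ := by
  by_cases e : b ψ a = 0
  · exact h.cyc (h.comm t1 t2 c e) a0 ψ0
  · exact h.arrow t1 (by rintro rfl; simp at c) e

theorem symm (t1 : T a φ) (t2 : T x ψ) (a0 : a ≠ 0) (ψ0 : ψ ≠ 0) (r : Reach b T x φ) :
    Reach b T a ψ := by
  obtain ⟨y, χ, t, c1, c2⟩ := r
  exact h.reach_trans (h.symm1 t1 t a0 (by rintro rfl; simp at c1) c2) t
    (h.symm1 t t2 (by rintro rfl; simp at c2) ψ0 c1)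

theorem link (t : Tc b T φ₀ a φ) (a0 : a ≠ 0) (φ0 : φ ≠ 0) (r : Reach b T x φ) : Reach b T x φ₀ :=
  h.reach_trans r t.1 ((t.2.resolve_left a0).resolve_left φ0)

theorem mem1 (t : Tc b T φ₀ a φ) (a0 : a ≠ 0) (t2 : T x ψ) (c : b φ x ≠ 0) : Tc b T φ₀ x ψ := by
  by_cases ψ0 : ψ = 0
  · exact ⟨t2, Or.inr (Or.inl ψ0)⟩
  · exact ⟨t2, Or.inr (Or.inr (h.link t a0 (by rintro rfl; simp at c) (h.arrow t2 ψ0 c)))⟩

theorem mem2 (t : Tc b T φ₀ a φ) (φ0 : φ ≠ 0) (t2 : T x ψ) (c : b ψ a ≠ 0) : Tc b T φ₀ x ψ := by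
  by_cases x0 : x = 0
  · exact ⟨t2, Or.inl x0⟩
  · exact ⟨t2, Or.inr (Or.inr (h.link t (by rintro rfl; simp at c) φ0
      (h.symm1 t2 t.1 x0 φ0 c)))⟩

theorem comp (h0 : φ₀ = 0 ∨ ∃ a₀, a₀ ≠ 0 ∧ T a₀ φ₀) : TC b (Tc b T φ₀) where
  iso t := h.iso t.1
  zl φ := ⟨h.zl φ, Or.inl rfl⟩
  zr a := ⟨h.zr a, Or.inr (Or.inl rfl)⟩
  smulL {a φ} c t := ⟨h.smulL c t.1, by
    by_cases hc : c = 0
    · simp [hc]
    rcases t.2 with e | e | ⟨y, χ, t1, c1, c2⟩
    · simp [e]
    · simp [e]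
    · exact Or.inr (Or.inr ⟨y, χ, t1, by simp [hc, c1], c2⟩)⟩
  smulR c t := ⟨h.smulR c t.1, t.2.imp_right (Or.imp_left fun e => by simp [e])⟩
  addL {a a' φ} t t' := ⟨h.addL t.1 t'.1, by
    by_contra! k
    have r := h.cyc (h.addL t.1 t'.1) k.1 k.2.1
    by_cases e : a = 0
    · exact k.2.2 (h.link t' (by simpa [e] using k.1) k.2.1 r)
    · exact k.2.2 (h.link t e k.2.1 r)⟩
  addR {a φ φ'} t t' := ⟨h.addR t.1 t'.1, by
    by_contra! k
    by_cases e : φ = 0
    · exact k.2.2 ((t'.2.resolve_left k.1).resolve_left (by simpa [e] using k.2.1))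
    · exact k.2.2 ((t.2.resolve_left k.1).resolve_left e)⟩
  conj {a φ x ψ} t t' := ⟨h.conj t.1 t'.1, by
    by_contra! k
    obtain ⟨y, χ, t1, c1, c2⟩ := h.cyc (h.conj t.1 t'.1) k.1 k.2.1
    by_cases e : b ψ y = 0
    · simp only [map_sub, map_smul, LinearMap.sub_apply, LinearMap.smul_apply, e, zero_sub,
        smul_eq_mul, ne_eq, neg_eq_zero, mul_eq_zero, not_or] at c2
      exact k.2.2 (h.link t (by rintro rfl; simp at c2) (by rintro rfl; simp at c2)
        ⟨y, χ, t1, c1, c2.2⟩)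
    · exact k.2.2 (h.link t' (by rintro rfl; simp at k) (by rintro rfl; simp at e)
        ⟨y, χ, t1, c1, e⟩)⟩
  two := h.two
  con {a φ x ψ} t t' a0 φ0 x0 ψ0 := by
    have r1 := (t.2.resolve_left a0).resolve_left φ0
    have r2 := (t'.2.resolve_left x0).resolve_left ψ0
    rcases h0 with rfl | ⟨a₀, a1, t₀⟩
    · obtain ⟨y, χ, -, -, c⟩ := r1
      simp at c
    obtain ⟨y, χ, t1, c1, c2⟩ := h.reach_trans r1 t₀ (h.symm t₀ t'.1 a1 ψ0 r2)
    exact ⟨y, χ, h.mem1 t' x0 t1 c2, c1, c2⟩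
  hQ {a φ a' φ'} t t' a0 φ0 a1 φ1 r r' := by
    refine h.hQ t.1 t'.1 a0 φ0 a1 φ1 (fun y χ t1 y0 => ?_) (fun χ y t1 χ0 => ?_)
    · by_cases e : Tc b T φ₀ y χ
      · exact r y χ e y0
      · rw [map_sub, not_not.1 fun c => e (h.mem2 t φ0 t1 c),
          not_not.1 fun c => e (h.mem2 t' φ1 t1 c), sub_zero]
    · by_cases e : Tc b T φ₀ y χ
      · exact r' χ y e χ0
      · rw [LinearMap.flip_apply, map_sub, LinearMap.sub_apply,
          not_not.1 fun c => e (h.mem1 t a0 t1 c), not_not.1 fun c => e (h.mem1 t' a1 t1 c),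
          sub_zero]

theorem exists_index [Finite V] [Finite V'] : ∃ (n : ℕ) (f : Fin n → V'), 1 ≤ n ∧
    (∀ j, f j = 0 ∨ ∃ a₀, a₀ ≠ 0 ∧ T a₀ (f j)) ∧ (∀ a φ, T a φ → ∃ j, Tc b T (f j) a φ) ∧
    ∀ i j a φ, a ≠ 0 → φ ≠ 0 → Tc b T (f i) a φ → Tc b T (f j) a φ → i = j := by
  let s : Setoid {u : V × V' // T u.1 u.2 ∧ u.1 ≠ 0 ∧ u.2 ≠ 0} :=
    ⟨fun u w => Reach b T u.1.1 w.1.2, fun u => h.cyc u.2.1 u.2.2.1 u.2.2.2,
      fun {u w} r => h.symm w.2.1 u.2.1 w.2.2.1 u.2.2.2 r,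
      fun {u w z} r r' => h.reach_trans r w.2.1 r'⟩
  obtain ⟨n, ⟨e⟩⟩ := Finite.exists_equiv_fin (Option (Quotient s))
  let g : Option (Quotient s) → V' := fun o => o.elim 0 fun q => q.out.1.2
  refine ⟨n, g ∘ e.symm, (e none).pos, fun j => ?_, fun a φ t => ?_, fun i j a φ a0 φ0 t t' => ?_⟩
  · rcases hj : e.symm j with _ | q
    · exact Or.inl (by simp [g, hj])
    · exact Or.inr ⟨q.out.1.1, q.out.2.2.1, by simpa [g, hj] using q.out.2.1⟩
  · by_cases a0 : a = 0
    · exact ⟨e none, t, Or.inl a0⟩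
    by_cases φ0 : φ = 0
    · exact ⟨e none, t, Or.inr (Or.inl φ0)⟩
    refine ⟨e (some (Quotient.mk s ⟨(a, φ), t, a0, φ0⟩)), t, Or.inr (Or.inr ?_)⟩
    have : Reach b T a (Quotient.mk s ⟨(a, φ), t, a0, φ0⟩).out.1.2 :=
      s.symm (Quotient.mk_out (s := s) ⟨(a, φ), t, a0, φ0⟩)
    simpa [g] using this
  · have r1 := (t.2.resolve_left a0).resolve_left φ0
    have r2 := (t'.2.resolve_left a0).resolve_left φ0
    apply e.symm.injective
    have nz : ¬ Reach b T a 0 := fun ⟨y, χ, _, _, c⟩ => by simp at c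
    rcases hi : e.symm i with _ | q
    · exact absurd (by simpa [g, hi] using r1) nz
    rcases hj : e.symm j with _ | q'
    · exact absurd (by simpa [g, hj] using r2) nz
    have k1 : s.r ⟨(a, φ), t.1, a0, φ0⟩ q.out :=
      show Reach b T a q.out.1.2 by simpa [g, hi] using r1
    have k2 : s.r ⟨(a, φ), t.1, a0, φ0⟩ q'.out :=
      show Reach b T a q'.out.1.2 by simpa [g, hj] using r2
    rw [Quotient.out_equiv_out.1 (s.trans (s.symm k1) k2)]

end TG
end abstr

theorem gen_det {F W : Type*} [Field F] [AddCommGroup W] [Module F W] [FiniteDimensional F W]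
    (M : Subgroup (W ≃ₗ[F] W))
    (hM : ∀ (a : W) (f : Dual F W), f a = 0 → ∃ g ∈ M, ∀ v, g v = v + f v • a)
    (g : W ≃ₗ[F] W) (hg : LinearMap.det (g : W →ₗ[F] W) = 1) : g ∈ M := by
  let B := Module.finBasis F W
  have key : ∀ A : Matrix.SpecialLinearGroup (Fin (finrank F W)) F,
      ∃ k ∈ M, (k : W →ₗ[F] W) = Matrix.toLin B B A.1 := by
    intro A
    induction A using H09.SL_transvection_induction with
    | h1 => exact ⟨1, one_mem _, by simp⟩
    | htransvec i j hij c =>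
      obtain ⟨k, hk, e⟩ := hM (c • B i) (B.coord j) (by simp [Finsupp.single_apply, hij])
      refine ⟨k, hk, B.ext fun l => ?_⟩
      change _ = Matrix.toLin B B (1 + Matrix.single i j c) (B l)
      rw [map_add, LinearMap.add_apply, Matrix.toLin_one, Matrix.toLin_self]
      simp only [LinearEquiv.coe_coe, e, Basis.coord_apply, Basis.repr_self, LinearMap.id_apply,
        Matrix.single_apply, Finsupp.single_apply, add_right_inj]
      rw [Finset.sum_eq_single i (fun x _ hx => by simp [hx.symm]) (by simp)]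
      by_cases hl : l = j
      · simp [hl]
      · simp [hl, Ne.symm hl]
    | hmul A A' hA hA' =>
      obtain ⟨k, hk, e⟩ := hA
      obtain ⟨k', hk', e'⟩ := hA'
      refine ⟨k * k', mul_mem hk hk', ?_⟩
      rw [Matrix.SpecialLinearGroup.coe_mul, Matrix.toLin_mul B B B, ← e, ← e']
      rfl
  obtain ⟨k, hk, e⟩ := key ⟨LinearMap.toMatrix B B g, by rw [LinearMap.det_toMatrix, hg]⟩
  rw [Matrix.toLin_toMatrix] at e
  rwa [← LinearEquiv.toLinearMap_injective e]

theorem gen_sp {F W : Type*} [Field F] [AddCommGroup W] [Module F W] [FiniteDimensional F W]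
    (M : Subgroup (W ≃ₗ[F] W)) {B : LinearMap.BilinForm F W} (hA : B.IsAlt) (hB : B.Nondegenerate)
    (hp : ∀ g ∈ M, ∀ x y, B (g x) (g y) = B x y)
    (hM : ∀ (a : W) (c : F), ∃ g ∈ M, ∀ v, g v = v + (c * B v a) • a)
    (g : W ≃ₗ[F] W) (hg : ∀ x y, B (g x) (g y) = B x y) : g ∈ M := by
  have h : H09.SpAct B M := ⟨hB, hA, fun g => hp g g.2, fun v c =>
    let ⟨g, hg, e⟩ := hM v c; ⟨⟨g, hg⟩, e⟩⟩
  let b := Module.finBasis F W
  obtain ⟨k, hk⟩ := h.witt_family b (g ∘ b) b.linearIndependent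
    (b.linearIndependent.map' (g : W →ₗ[F] W) g.ker) fun i j => (hg _ _).symm
  have : k.1 = g := LinearEquiv.toLinearMap_injective (b.ext hk)
  exact this ▸ k.2

section conc
variable {F V : Type*} [Field F] [AddCommGroup V] [Module F V]

/-- transvections in `H` -/
def Tv (H : Subgroup (V ≃ₗ[F] V)) (a : V) (φ : Dual F V) : Prop :=
  φ a = 0 ∧ ∃ h ∈ H, ∀ v, h v = v + φ v • a

/-- The group generated by a system of transvections. -/
def Gn (T : V → Dual F V → Prop) : Subgroup (V ≃ₗ[F] V) :=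
  Subgroup.closure {h | ∃ a φ, T a φ ∧ ∀ v, h v = v + φ v • a}

theorem inv_tv {h : V ≃ₗ[F] V} {a : V} {φ : Dual F V} (h0 : φ a = 0) (e : ∀ v, h v = v + φ v • a)
    (v : V) : h⁻¹ v = v + φ v • (-1 : F) • a := by
  apply h.injective
  rw [show h (h⁻¹ v) = v from h.apply_symm_apply v, e]
  simp [h0]

theorem gn_induction {T : V → Dual F V → Prop} (hT : TS LinearMap.id T) {P : (V ≃ₗ[F] V) → Prop}
    (h1 : ∀ h a φ, T a φ → (∀ v, h v = v + φ v • a) → P h) (h2 : P 1)
    (h3 : ∀ g h, P g → P h → P (g * h)) {g : V ≃ₗ[F] V} (hg : g ∈ Gn T) : P g := by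
  induction hg using Subgroup.closure_induction'' with
  | mem x hx => obtain ⟨a, φ, t, e⟩ := hx; exact h1 x a φ t e
  | inv_mem x hx =>
    obtain ⟨a, φ, t, e⟩ := hx
    exact h1 _ _ φ (hT.smulL (-1) t) (inv_tv (hT.iso t) e)
  | one => exact h2
  | mul x y _ _ hx hy => exact h3 x y hx hy

theorem gn_inv {T : V → Dual F V → Prop} (hT : TS LinearMap.id T) {Y : Submodule F V}
    (hY : ∀ a φ, T a φ → ∀ y ∈ Y, φ y • a ∈ Y) {g : V ≃ₗ[F] V} (hg : g ∈ Gn T) :
    ∀ y ∈ Y, g y ∈ Y :=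
  gn_induction hT (P := fun g => ∀ y ∈ Y, g y ∈ Y)
    (fun h a φ t e y hy => by rw [e]; exact add_mem hy (hY a φ t y hy)) (fun _ hy => hy)
    (fun _ _ h1 h2 y hy => h1 _ (h2 y hy)) hg

theorem gn_fix {T : V → Dual F V → Prop} (hT : TS LinearMap.id T) {y : V}
    (hY : ∀ a φ, T a φ → φ y • a = 0) {g : V ≃ₗ[F] V} (hg : g ∈ Gn T) : g y = y :=
  gn_induction hT (P := fun g => g y = y) (fun h a φ t e => by rw [e, hY a φ t, add_zero]) rfl
    (fun g h h1 h2 => by rw [LinearEquiv.mul_apply, h2, h1]) hg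

end conc

section prime
variable {p : ℕ} [Fact p.Prime] {V : Type*} [AddCommGroup V] [Module (ZMod p) V]
  {H : Subgroup (V ≃ₗ[ZMod p] V)}

theorem ts_tv : TS LinearMap.id (Tv H) := by
  have sm : ∀ {a : V} {φ : Dual (ZMod p) V} (c : ZMod p), Tv H a φ →
      ∃ h ∈ H, ∀ v, h v = v + (c * φ v) • a := by
    rintro a φ c ⟨h0, h, hh, e⟩
    obtain ⟨n, rfl⟩ := ZMod.natCast_zmod_surjective c
    refine ⟨h ^ n, pow_mem hh n, fun v => ?_⟩
    induction n with
    | zero => simp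
    | succ n ih =>
      rw [pow_succ', LinearEquiv.mul_apply, ih, e]
      simp only [map_add, map_smul, h0, smul_zero, add_zero, Nat.cast_succ]
      module
  exact
  { iso := fun t => t.1
    zl := fun φ => ⟨by simp, 1, one_mem _, by simp⟩
    zr := fun a => ⟨rfl, 1, one_mem _, by simp⟩
    smulL := fun c t => ⟨by simp [t.1], by simpa only [smul_smul, mul_comm c] using sm c t⟩
    smulR := fun c t => ⟨by simp [t.1], by simpa using sm c t⟩
    addL := by
      rintro a a' φ ⟨h0, h, hh, e⟩ ⟨h0', h', hh', e'⟩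
      refine ⟨by simp [h0, h0'], h * h', mul_mem hh hh', fun v => ?_⟩
      rw [LinearEquiv.mul_apply, e', e]
      simp only [map_add, map_smul, h0', smul_zero, add_zero]
      module
    addR := by
      rintro a φ φ' ⟨h0, h, hh, e⟩ ⟨h0', h', hh', e'⟩
      refine ⟨by simp [h0, h0'], h * h', mul_mem hh hh', fun v => ?_⟩
      rw [LinearEquiv.mul_apply, e', e]
      simp only [map_add, map_smul, h0, smul_zero, add_zero, LinearMap.add_apply]
      module
    conj := by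
      rintro a φ x ψ ⟨h0, h, hh, e⟩ ⟨h0', h', hh', e'⟩
      refine ⟨by simp [h0, h0', mul_comm], h * h' * h⁻¹, mul_mem (mul_mem hh hh') (inv_mem hh),
        fun v => ?_⟩
      rw [LinearEquiv.mul_apply, LinearEquiv.mul_apply, inv_tv h0 e, e', e]
      simp only [map_add, map_smul, h0, smul_zero, add_zero, LinearMap.id_apply,
        LinearMap.sub_apply, LinearMap.smul_apply, smul_eq_mul]
      module }

theorem flag_triv (hp : Odd p) (hO : Cfsg.pCore p H = ⊥) {X Y : Submodule (ZMod p) V}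
    (hX : ∀ g ∈ H, ∀ x ∈ X, g x ∈ X) (hY : ∀ g ∈ H, ∀ y ∈ Y, g y ∈ Y) {h : V ≃ₗ[ZMod p] V}
    (hh : h ∈ H) (h1 : ∀ v, h v - v ∈ Y) (h2 : ∀ y ∈ Y, h y - y ∈ X) (h3 : ∀ x ∈ X, h x = x) :
    h = 1 := by
  let N : Subgroup H :=
    { carrier := {h | (∀ v, h.1 v - v ∈ Y) ∧ (∀ y ∈ Y, h.1 y - y ∈ X) ∧ ∀ x ∈ X, h.1 x = x}
      one_mem' := ⟨by simp, by simp, by simp⟩
      mul_mem' := fun {g k} hg hk => ⟨fun v => by
          simpa using add_mem (hg.1 (k.1 v)) (hk.1 v), fun y hy => by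
          simpa using add_mem (hg.2.1 _ (hY k.1 k.2 y hy)) (hk.2.1 y hy), fun x hx => by
          simp [hk.2.2 x hx, hg.2.2 x hx]⟩
      inv_mem' := fun {g} hg => ⟨fun v => by
          simpa using neg_mem (hg.1 (g.1⁻¹ v)), fun y hy => by
          simpa using neg_mem (hg.2.1 _ (hY _ (inv_mem g.2) y hy)), fun x hx => by
          simpa [LinearEquiv.symm_apply_eq] using (hg.2.2 x hx).symm⟩ }
  have hn : N.Normal := ⟨fun k hk g => ⟨fun v => by
      simpa using hY g.1 g.2 _ (hk.1 (g.1⁻¹ v)), fun y hy => by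
      simpa using hX g.1 g.2 _ (hk.2.1 _ (hY _ (inv_mem g.2) y hy)), fun x hx => by
      have := hk.2.2 _ (hX _ (inv_mem g.2) x hx)
      simp only [LinearEquiv.coe_inv] at this
      simp [this]⟩⟩
  have hP : IsPGroup p N := by
    rintro ⟨⟨g, hg⟩, k1, k2, k3⟩
    refine ⟨1, Subtype.ext (Subtype.ext (LinearEquiv.ext fun v => ?_))⟩
    have f : ∀ n : ℕ, (g ^ n) v = v + (n : ZMod p) • (g v - v) +
        (n.choose 2 : ZMod p) • (g (g v - v) - (g v - v)) := by
      intro n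
      induction n with
      | zero => simp
      | succ n ih =>
        rw [pow_succ', LinearEquiv.mul_apply, ih, map_add, map_add, map_smul, map_smul,
          k3 _ (k2 _ (k1 v)), Nat.choose_succ_succ' n 1, Nat.choose_one_right]
        push_cast
        module
    have p2 : p ≠ 2 := by rintro rfl; exact absurd hp (by decide)
    have := (Fact.out : p.Prime).two_le
    simpa [(ZMod.natCast_eq_zero_iff _ _).2 ((Fact.out : p.Prime).dvd_choose_self two_ne_zero
      (by omega))] using f p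
  have : N ≤ ⊥ := hO ▸ le_sSup ⟨hn, hP⟩
  exact congrArg Subtype.val (Subgroup.mem_bot.1 (this (x := ⟨h, hh⟩) ⟨h1, h2, h3⟩))

theorem tg_of_pCore (hp : Odd p) (hO : Cfsg.pCore p H = ⊥) (hH : H = Gn (Tv H)) :
    TG LinearMap.id (Tv H) := by
  have hT : TS LinearMap.id (Tv H) := ts_tv
  have cyc : ∀ {a φ}, Tv H a φ → a ≠ 0 → φ ≠ 0 → Reach LinearMap.id (Tv H) a φ := by
    intro a φ t a0 φ0
    by_contra hn
    simp only [Reach, not_exists, not_and, not_not, LinearMap.id_apply, ne_eq] at hn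
    let Y := Submodule.span (ZMod p) (insert a {y | ∃ χ, Tv H y χ ∧ χ a ≠ 0})
    have mem : ∀ y χ, Tv H y χ → χ a ≠ 0 → y ∈ Y := fun y χ t c =>
      Submodule.subset_span (Or.inr ⟨χ, t, c⟩)
    have hY : ∀ x ψ, Tv H x ψ → ∀ y ∈ Y, ψ y • x ∈ Y := by
      intro x ψ t' y hy
      by_cases e : ψ a = 0
      swap
      · exact Y.smul_mem _ (mem x ψ t' e)
      induction hy using Submodule.span_induction with
      | mem y hy =>
        rcases hy with rfl | ⟨χ, t1, c⟩
        · simp [e]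
        · simpa using sub_mem (mem _ _ (hT.conj t' t1) (by simpa [e] using c)) (mem y χ t1 c)
      | zero => simp
      | add y z _ _ hy hz => simpa [add_smul] using add_mem hy hz
      | smul c y _ hy => simpa [mul_smul] using Y.smul_mem c hy
    have k : ∀ y ∈ Y, φ y = 0 := by
      intro y hy
      induction hy using Submodule.span_induction with
      | mem y hy =>
        rcases hy with rfl | ⟨χ, t1, c⟩
        · exact t.1
        · exact hn y χ t1 c
      | zero => simp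
      | add y z _ _ hy hz => simp [hy, hz]
      | smul c y _ hy => simp [hy]
    obtain ⟨-, h, hh, e⟩ := t
    have := flag_triv hp hO (X := ⊥) (Y := Y) (by simp) (fun g hg => gn_inv hT hY (hH ▸ hg)) hh
      (fun v => by simpa [e] using Y.smul_mem _ (Submodule.subset_span (Or.inl rfl)))
      (fun y hy => by simp [e, k y hy]) (by simp)
    refine φ0 (LinearMap.ext fun v => ?_)
    simpa [this, a0] using e v
  refine ⟨hT, fun e => ?_, cyc, fun {a φ a' φ'} t t' a0 φ0 a1 φ1 r r' => ?_⟩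
  · have := (ZMod.natCast_eq_zero_iff 2 p).1 (by exact_mod_cast e)
    rw [(Nat.prime_dvd_prime_iff_eq Fact.out Nat.prime_two).1 this] at hp
    exact absurd hp (by decide)
  let X : Submodule (ZMod p) V :=
    { carrier := {v | Rad (F := ZMod p) LinearMap.id (Tv H) v}
      add_mem' := fun r r' => Rad.add r r'
      zero_mem' := fun _ _ _ _ => by simp
      smul_mem' := fun c _ r => r.smul c }
  have k : ∀ y ∈ Wc (ZMod p) (Tv H), φ' y = φ y := by
    intro y hy
    induction hy using Submodule.span_induction with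
    | mem y hy =>
      obtain ⟨-, χ, χ0, t1⟩ := hy
      simpa [sub_eq_zero] using r' χ y t1 χ0
    | zero => simp
    | add y z _ _ hy hz => simp [hy, hz]
    | smul c y _ hy => simp [hy]
  obtain ⟨y, χ, t1, c1, c2⟩ := cyc t a0 φ0
  have m1 := TC.mem_Wc (F := ZMod p) t φ0
  have m2 := TC.mem_Wc (F := ZMod p) t' φ1
  have e0 : φ a' = 0 := by rw [← k a' m2, t'.1]
  obtain ⟨z1, h, hh, e⟩ := id t
  obtain ⟨z2, h', hh', e'⟩ := id t'
  have e2 : ∀ v, (h * h'⁻¹) v = v + (φ v • a - φ' v • a') := fun v => by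
    rw [LinearEquiv.mul_apply, inv_tv z2 e', e]
    simp only [map_add, map_smul, e0, smul_zero, add_zero]
    module
  have := flag_triv hp hO (X := X) (Y := Wc (ZMod p) (Tv H)) (fun g hg x hx => by
      rw [gn_fix hT (fun a φ t => ?_) (hH ▸ hg)]
      · exact hx
      · by_cases a0 : a = 0
        · simp [a0]
        · rw [show φ x = 0 from hx a φ t a0, zero_smul])
    (fun g hg => gn_inv hT (fun a φ t y _ => by
      by_cases φ0 : φ = 0
      · simp [φ0]
      · exact Submodule.smul_mem _ _ (TC.mem_Wc t φ0)) (hH ▸ hg)) (mul_mem hh (inv_mem hh'))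
    (fun v => by
      rw [e2, add_sub_cancel_left]
      exact sub_mem (Submodule.smul_mem _ _ m1) (Submodule.smul_mem _ _ m2))
    (fun y hy => by
      rw [e2, add_sub_cancel_left, k y hy]
      convert X.smul_mem (-φ y) r using 1
      module)
    (fun x hx => by
      rw [e2, show φ x = 0 from hx a φ t a0, show φ' x = 0 from hx a' φ' t' a1]; simp)
  have e3 : ∀ v, φ v • a = φ' v • a' := fun v => by
    simpa [this, sub_eq_zero] using e2 v
  have e4 : a' = a := by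
    have := e3 y
    rw [k y (TC.mem_Wc t1 (by rintro rfl; simp at c1))] at this
    exact (smul_right_injective V c2 this).symm
  refine ⟨e4, LinearMap.ext fun v => ?_⟩
  have := e3 v
  rw [e4] at this
  exact (smul_left_injective _ a0 this).symm

end prime

end H12.Mc
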