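import Cfsg.Agent.H12.SubF

/-! Coordinates at a level of a functional `ψ` (`Co`), leading terms of commutators (`Cm`), and the matrix intertwining a
graph automorphism (`intertw`). -/

namespace H12.Lev
open Cfsg Cfsg.Lie Equiv H11 H11.StSys H12.Lie Matrix

variable {D : ChevalleyDatum} [Good D] {K : Type*} [Field K] {G : Type*} [Group G] {S : StSys D K G} {ψ : Node D → ℤ}

variable (ψ) in
/-- roots of level at least `c` -/
def Lv (c : ℤ) : Set (Root D) := {r | c ≤ fv ψ r}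

omit [Good D] in
theorem Lv_mono {c c' : ℤ} (h : c' ≤ c) : S.US (Lv ψ c) ≤ S.US (Lv ψ c') := US_mono fun _ hr => h.trans hr

variable (ψ) in
/-- sets between two consecutive levels -/
def Mid (c : ℤ) (T : Set (Root D)) : Prop := 1 ≤ c ∧ Lv ψ (c + 1) ⊆ T ∧ T ⊆ Lv ψ c

omit [Good D] in
theorem mid_Lv {c : ℤ} (h : 1 ≤ c) : Mid ψ c (Lv ψ c) := ⟨h, fun _ hr => (lt_add_one c).le.trans hr, le_rfl⟩

omit [Good D] in
theorem mid_diff {m : Root D} (h : 1 ≤ fv ψ m) : Mid ψ (fv ψ m) (Lv ψ (fv ψ m) \ {m}) :=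
  ⟨h, fun _ hr => ⟨(mid_Lv h).2.1 hr, fun e => by rw [e] at hr; simp [Lv] at hr⟩, Set.diff_subset⟩

omit [Good D] in
theorem Mid.cl {c : ℤ} {T : Set (Root D)} (h : Mid ψ c T) {r : Root D} (hr : r ∈ Lv ψ 1) : Cl r T := fun s hs u i j hi hj e =>
  h.2.1 (by
    have := h.2.2 hs
    have := h.1
    simp only [Lv, Set.mem_ofPred_eq, fv_lin ψ e] at *; nlinarith)

omit [Good D] in
theorem Mid.pos {c : ℤ} {T : Set (Root D)} (h : Mid ψ c T) : ∀ r ∈ T, 0 < fv ψ r := fun _ hr => h.1.trans (h.2.2 hr)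

omit [Good D] in
theorem Mid.closed {c : ℤ} {T : Set (Root D)} (h : Mid ψ c T) : Closed T := fun r hr => h.cl (h.pos r hr)

theorem Mid.conj {c : ℤ} {T : Set (Root D)} (h : Mid ψ c T) {g y : G} (hg : g ∈ S.US (Lv ψ 1)) (hy : y ∈ S.US T) :
    g * y * g⁻¹ ∈ S.US T :=
  (Subgroup.mem_normalizer_iff.1 (US_le_normalizer (fun r hr => ⟨fun a => by
    have := h.pos _ a
    simp only [Lv, Set.mem_ofPred_eq, fv_rev] at *; omega, h.cl hr⟩) hg) y).1 hy

theorem comm_lv {k n : ℤ} (hk : 1 ≤ k) (hn : 1 ≤ n) {d u : G} (hd : d ∈ S.US (Lv ψ k)) (hu : u ∈ S.US (Lv ψ n)) :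
    d * u * d⁻¹ * u⁻¹ ∈ S.US (Lv ψ (k + n)) := by
  have M : Mid ψ (k + n) _ := mid_Lv (by omega)
  refine US_induction (C := fun d => d * u * d⁻¹ * u⁻¹ ∈ S.US (Lv ψ (k + n))) (by simp) (fun δ hδ a => ?_)
    (fun g hg h _ h1 h2 => by convert mul_mem (M.conj (Lv_mono hk hg) h2) h1 using 1; group) hd
  refine US_induction (C := fun u => S.x δ a * u * (S.x δ a)⁻¹ * u⁻¹ ∈ S.US (Lv ψ (k + n))) (by simp) (fun γ hγ t => ?_)
    (fun g hg h _ h1 h2 => by convert mul_mem h1 (M.conj (Lv_mono hn hg) h2) using 1; group) hu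
  simp only [Lv, Set.mem_ofPred_eq] at hδ hγ
  by_cases e : δ = γ
  · subst e; simp [x_inv, S.add]
  have h3 := S.comm γ δ e (by rintro rfl; rw [fv_rev] at hδ; omega) (-t) (-a)
  rw [← x_inv, ← x_inv, mul_assoc, ← inv_mul_eq_iff_eq_mul, ← inv_mul_eq_iff_eq_mul, inv_inv, inv_inv, ← mul_assoc,
    ← mul_assoc] at h3
  exact h3 ▸ commWord_mem (fun u i j hi hj e' => by simp only [Lv, Set.mem_ofPred_eq, fv_lin ψ e']; nlinarith) _ _

variable (S ψ) in
/-- `g` has level at least that of `m` and `m`-coordinate `a` -/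
def Co (m : Root D) (a : K) (g : G) : Prop := (S.x m a)⁻¹ * g ∈ S.US (Lv ψ (fv ψ m) \ {m})

omit [Good D] in
theorem co_mul {m : Root D} (a : K) {v : G} (hv : v ∈ S.US (Lv ψ (fv ψ m) \ {m})) : Co S ψ m a (S.x m a * v) := by
  simpa [Co] using hv

omit [Good D] in
theorem co_zero {m : Root D} {v : G} : Co S ψ m 0 v ↔ v ∈ S.US (Lv ψ (fv ψ m) \ {m}) := by simp [Co]

omit [Good D] in
theorem Co.map {m : Root D} {a : K} {g : G} (h : Co S ψ m a g) {F : Type*} [FunLike F G G] [MonoidHomClass F G G] (φ : F)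
    {R : Root D → Root D} (hR : Function.Injective R) (h1 : ∀ r, fv ψ (R r) = fv ψ r) {f : Root D → K → K}
    (h2 : ∀ r t, φ (S.x r t) = S.x (R r) (f r t)) : Co S ψ (R m) (f m a) (φ g) := by
  rw [Co, ← h2, ← map_inv, ← map_mul]
  exact (US_le (M := (S.US _).comap (φ : G →* G))).2 (fun r hr t => by
    rw [Subgroup.mem_comap, MonoidHom.coe_coe, h2]
    exact x_mem_US (T := Lv ψ (fv ψ (R m)) \ {R m}) ⟨by simpa [Lv, h1] using hr.1, fun e => hr.2 (hR e)⟩ _) h

section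
variable {m : Root D} (hm : 1 ≤ fv ψ m)
include hm

theorem Co.mul {a b : K} {g h : G} (h1 : Co S ψ m a g) (h2 : Co S ψ m b h) : Co S ψ m (a + b) (g * h) := by
  have := mul_mem ((mid_diff hm).conj (inv_mem (x_mem_US (T := Lv ψ 1) hm b)) h1) h2
  unfold Co; convert this using 1; rw [← S.add]; group

theorem Co.conj {a : K} {g u : G} (h : Co S ψ m a g) (hu : u ∈ S.US (Lv ψ 1)) : Co S ψ m a (u * g * u⁻¹) := by
  have := mul_mem (US_mono (mid_diff hm).2.1 (comm_lv hm le_rfl (inv_mem (x_mem_US (r := m) (by simp [Lv]) a)) hu))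
    ((mid_diff hm).conj hu h)
  unfold Co; convert this using 1; group

theorem Co.uniq {a b : K} {g : G} (h1 : Co S ψ m a g) (h2 : Co S ψ m b g) : a = b := by
  by_contra e
  refine (mem_of_x_mem_US (S := S) (mid_diff hm).closed (mid_diff hm).pos (sub_ne_zero.2 e) ?_).2 rfl
  convert mul_mem h2 (inv_mem h1) using 1
  rw [sub_eq_neg_add, ← S.add, ← x_inv]; group

theorem exists_co {g : G} (h : g ∈ S.US (Lv ψ (fv ψ m))) : ∃ a, Co S ψ m a g := by
  obtain ⟨_, ha, w, hw, rfl⟩ := exists_mul_of_union (mid_Lv hm).closed (mid_Lv hm).pos (A := {m})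
    (B := Lv ψ (fv ψ m) \ {m}) (by rw [Set.union_diff_cancel]; simp [Lv]) h
  obtain ⟨a, rfl⟩ := mem_US_singleton.1 ha
  exact ⟨a, co_mul a hw⟩

end

variable (S ψ) in
/-- the `m`-coordinate of a commutator -/
def Cm (m : Root D) (d u : G) (a : K) : Prop := Co S ψ m a (d * u * d⁻¹ * u⁻¹)

/-- contribution of the pair `γ, δ` to the root `m` -/
def cf (m γ δ : Root D) : ℤ := if radd γ δ = m then Nc γ δ else 0

section
variable {m : Root D} (hm : 1 ≤ fv ψ m) {d d' u u' : G} {a b : K}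
include hm

theorem Cm.mul_right (h1 : Cm S ψ m d u a) (h2 : Cm S ψ m d u' b) (hu : u ∈ S.US (Lv ψ 1)) : Cm S ψ m d (u * u') (a + b) := by
  have := Co.mul hm h1 (Co.conj hm h2 hu)
  unfold Cm; convert this using 1; group

theorem Cm.mul_left (h1 : Cm S ψ m d u a) (h2 : Cm S ψ m d' u b) (hd : d ∈ S.US (Lv ψ 1)) : Cm S ψ m (d * d') u (a + b) := by
  have := Co.mul hm (Co.conj hm h2 hd) h1
  unfold Cm; rw [add_comm]; convert this using 1; group

theorem cm_high {k n : ℤ} (hk : 1 ≤ k) (hn : 1 ≤ n) (e : fv ψ m = k + n) (hd : d ∈ S.US (Lv ψ k))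
    (hu : u ∈ S.US (Lv ψ (n + 1))) : Cm S ψ m d u 0 :=
  co_zero.2 (US_mono (mid_diff hm).2.1 (e ▸ add_assoc k n 1 ▸ comm_lv hk (by omega) hd hu))

end

theorem SL_Nc [Cert D] (hs : SL D) {a b : Root D} (h : Nc a b ≠ 0) : (D.commTerms a b).tail = [] :=
  let ⟨_, _, h⟩ := hs.commTerms (hs.pair_of_Nc h); by simp [h]

theorem cm_x [Cert D] (hs : SL D) {m γ δ : Root D} (hγ : 1 ≤ fv ψ γ) (hδ : 1 ≤ fv ψ δ) (e : fv ψ m = fv ψ δ + fv ψ γ) (a t : K) :
    Cm S ψ m (S.x δ a) (S.x γ t) (-(cf m γ δ * t * a)) := by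
  unfold Cm cf
  by_cases h : Nc γ δ = 0
  · rw [← (S.commute_of_Nc (by rintro rfl; rw [fv_rev] at hδ; omega) h t a).eq]
    simp [h, co_zero]
  rw [comm_pure h (of_nil (SL_Nc hs h))]
  split_ifs with a
  · simp [Co, a]
  · simpa [co_zero] using x_mem_US (T := Lv ψ (fv ψ m) \ {m}) ⟨by
      simp [Lv, e, fv_lin ψ (a := 1) (b := 1) (by simpa using wt_radd h), add_comm], a⟩ _

/-- root data of a graph symmetry -/
structure GrD (ρ : Perm (Node D)) (R : Root D → Root D) (ε : Root D → ℤ) : Prop where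
  sl : SL D
  inj : Function.Injective R
  sq : ∀ r, ε r = 1 ∨ ε r = -1
  rev : ∀ r, R r.rev = (R r).rev ∧ ε r.rev = ε r
  wt : ∀ r i, wt (R r) (ρ i) = wt r i ∧ cor (R r) (ρ i) = cor r i

theorem intertw [Cert D] {ρ R ε} (h : GrD (D := D) ρ R ε) {τ : MulAut G} {θ : K ≃+* K} (hg : S.grp = ⊤)
    (act : ∀ r t, τ (S.x r t) = S.x (R r) (ε r * θ t)) (g : G) (a b : D.Idx)
    (e : ((S.θ (τ g)).val - 1) (Sum.map ρ R a) (Sum.map ρ R b) ≠ 0) : ((S.θ g).val - 1) a b ≠ 0 := by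
  classical
  let c : D.Idx → K := Sum.elim 1 fun r => ε r
  let P : Matrix D.Idx D.Idx K := Matrix.of fun a b => if a = Sum.map ρ R b then c b else 0
  have sq : ∀ r, (ε r : K) * ε r = 1 := fun r => by rcases h.sq r with e | e <;> simp [e]
  have P1 : ∀ s, P *ᵥ eV K s = (ε s : K) • eV K (R s) := fun s => by
    ext a; rw [mulVec_eV]; cases a <;> simp [P, c, eV_inr]
  have P2 : ∀ d : Node D → K, P *ᵥ hV d = hV (d ∘ ρ.symm) := fun d => by
    ext a; rw [mulVec_hV]; cases a <;> simp [P, c, ← ρ.symm_apply_eq]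
  have w1 : ∀ {r s u}, wt u = wt r + wt s → wt (R u) = wt (R r) + wt (R s) := fun {r s u} e => funext fun i => by
    obtain ⟨i, rfl⟩ := ρ.surjective i; simp [h.wt, e]
  have w2 : ∀ {r s u}, wt (R u) = wt (R r) + wt (R s) → wt u = wt r + wt s := fun {r s u} e => funext fun i => by
    simpa [h.wt] using congrFun e (ρ i)
  have key : ∀ g, (S.θ (τ g)).val * P = P * (S.θ g).val.map θ := fun g => by
    refine US_induction (S := S) (T := Set.univ) (C := fun g => (S.θ (τ g)).val * P = P * (S.θ g).val.map θ) (by simp)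
      (fun r _ t => ?_) (fun g _ g' _ h1 h2 => by
        simp only [map_mul, Units.val_mul, Matrix.map_mul, mul_assoc, h2]; simp only [← mul_assoc, h1]) (show g ∈ S.grp from hg ▸ trivial)
    rw [act, S.θ_x, S.θ_x, show (xR K r t).map θ = _ from xR_map (θ : K →+* K) r t, RingHom.coe_coe]
    generalize θ t = t
    refine mat_ext (fun d => ?_) fun s => ?_ <;> rw [← mulVec_mulVec, ← mulVec_mulVec]
    · rw [P2, xR_hV, xR_hV, mulVec_sub, mulVec_smul, P1, P2, smul_smul, dotProduct, ← Equiv.sum_comp ρ]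
      simp [wtR, h.wt, dotProduct, mul_comm, mul_left_comm, mul_assoc]
    rw [P1, mulVec_smul]
    by_cases a1 : s = r
    · rw [a1, xR_e_self, xR_e_self, P1]
    by_cases a2 : s = r.rev
    · rw [a2, (h.rev r).1, (h.rev r).2, xR_e_rev, xR_e_rev, mulVec_sub, mulVec_add, mulVec_smul, mulVec_smul, P1, P1, P2,
        (h.rev r).1, (h.rev r).2, show corR K r ∘ ρ.symm = corR K (R r) from funext fun i => by
          simp [corR, ← (h.wt r (ρ.symm i)).2], smul_sub, smul_add, smul_smul, smul_smul, smul_smul, ← mul_assoc, sq, one_mul,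
        mul_pow, pow_two (ε r : K), sq, one_mul, mul_comm]
    have m2 : ∀ r s : Root D, Mc r s 2 = 0 ∧ Mc r s 3 = 0 := fun r s => by
      have := h.sl.clen_le r s; exact ⟨Mc_eq_zero (by omega), Mc_eq_zero (by omega)⟩
    rw [xR_e a1 a2, xR_e (h.inj.ne a1) ((h.rev r).1 ▸ h.inj.ne a2)]
    simp only [m2, Int.cast_zero, zero_mul, zero_smul, add_zero, mulVec_add, mulVec_smul, P1, smul_add, smul_smul]
    change _ + ((ε s : K) * ((Nc (R r) (R s) : K) * _)) • eV K (radd _ _) =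
      _ + ((Nc r s : K) * t * ε (radd r s)) • eV K (R (radd r s))
    by_cases a3 : Nc r s = 0
    · have : Nc (R r) (R s) = 0 := by_contra fun a => by
        obtain ⟨u, hu⟩ := Finite.injective_iff_surjective.1 h.inj (radd (R r) (R s))
        exact Nc_ne_of_wt (w2 (hu ▸ wt_radd a)) a3
      simp [a3, this]
    have b1 := Nc_ne_of_wt (w1 (wt_radd a3))
    have b2 := radd_eq b1 (w1 (wt_radd a3))
    have b3 := congrArg τ (comm_pure (S := S) a3 (of_nil (SL_Nc h.sl a3)) 1 1)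
    simp only [map_mul, map_inv, act] at b3
    rw [comm_pure b1 (of_nil (SL_Nc h.sl b1)), b2] at b3
    have := x_inj (congrArg S.θ b3)
    simp only [map_one, mul_one, map_neg, map_intCast] at this
    rw [b2]; congr 2; linear_combination -t * this
  have k2 : (((S.θ (τ g)).val - 1) * P) (Sum.map ρ R a) b = (P * ((S.θ g).val - 1).map θ) (Sum.map ρ R a) b := by
    rw [sub_mul, key, Matrix.map_sub _ (map_sub θ), Matrix.map_one θ (map_zero θ) (map_one θ), mul_sub, one_mul, mul_one]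
  intro e'
  have := fun x => (Sum.map_injective.2 ⟨ρ.injective, h.inj⟩).eq_iff (a := a) (b := x)
  simp only [mul_apply, P, of_apply, mul_ite, mul_zero, Finset.sum_ite_eq', Finset.mem_univ, if_true, this, ite_mul, zero_mul,
    Finset.sum_ite_eq, map_apply, e', map_zero, mul_eq_zero] at k2
  rcases k2 with k2 | k2
  · exact e k2
  · cases b
    · simp [c] at k2
    · exact one_ne_zero ((sq _).symm.trans (mul_eq_zero_of_left k2 _))

end H12.Lev
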