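import Cfsg.Agent.H12.SubG

/-! Overgroups of the common fixed points of a twisting automorphism `τ` and a field automorphism `σ` inside the fixed points
of `τ` (`TwS.main`). -/

namespace H12.Lev
open Cfsg Cfsg.Lie Equiv H11 H11.StSys H12.Lie

variable {D : ChevalleyDatum} [Good D] {K : Type*} [Field K] {G : Type*} [Group G] {S : StSys D K G} {ψ : Node D → ℤ}
  {b : Bool} {ρ : Perm (Node D)} {R : Root D → Root D} {ε : Root D → ℤ} {τ σ : MulAut G} {θ : K ≃+* K}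

omit [Good D] in
theorem GrD.pair (h : GrD ρ R ε) (r s : Root D) : pair (R r) (R s) = pair r s := by
  simp only [H11.pair, dotProduct, ← Equiv.sum_comp ρ (fun i => cor (R r) i * _), h.wt]

theorem GrD.ht (h : GrD ρ R ε) (r : Root D) : ht (R r) = ht r := by
  have h1 := two_fv_psiJ ∅ r
  have h2 := two_fv_psiJ ∅ (R r)
  have h3 : ip (R r) (R r) = ip r r := by
    simp only [ip, ← Equiv.sum_comp (Equiv.ofBijective R (Finite.injective_iff_bijective.1 h.inj)) (fun t => _ * H11.pair t (R r)),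
      Equiv.ofBijective_apply, h.pair]
  simp only [Set.mem_empty_iff_false, not_false_eq_true, Finset.filter_true, h3,
    ← Equiv.sum_comp ρ (fun i => cor (R r) i), h.wt] at h1 h2
  unfold Lev.ht; omega

theorem adm_gr [Cert D] (h : GrD ρ R ε) (hg : S.grp = ⊤) (act : ∀ r t, τ (S.x r t) = S.x (R r) (ε r * θ t)) {c f'}
    (A : S.SimpAct τ ρ c f') (f : Root D → ℝ) (hf : Lin f) : Lin (f ∘ A.R.symm) ∧ ∀ g,
    Fil f f 1 ((S.θ g).val - 1) → Fil (f ∘ A.R.symm) (f ∘ A.R.symm) 1 ((S.θ (τ g)).val - 1) := by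
  have e : ∀ r, A.R r = R r := fun r => A.R_eq fun t => ⟨_, act r t⟩
  obtain ⟨φ, hφ⟩ := hf
  refine ⟨⟨φ ∘ ρ.symm, fun r => ?_⟩, fun g hg' a c h1 => ?_⟩
  · obtain ⟨r, rfl⟩ := A.R.surjective r
    rw [Function.comp_apply, symm_apply_apply, hφ, e]
    exact Fintype.sum_equiv ρ _ _ fun i => by simp [h.wt]
  have su := Sum.map_surjective.2 ⟨ρ.surjective, Finite.injective_iff_surjective.1 h.inj⟩
  obtain ⟨a, rfl⟩ := su a
  obtain ⟨c, rfl⟩ := su c
  have : ∀ a, dg (f ∘ A.R.symm) (Sum.map ρ R a) = dg f a := fun a => by cases a <;> simp [dg, ← e]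
  rw [this, this]; exact hg' a c (intertw h hg act g a c h1)

variable (b R ε) in
/-- sign of the third factor -/
def e3 (r : Root D) : ℤ := if b then ε (R r) * ε r else 0

/-- computable fundamental reflection -/
def rf (i : Node D) (r : Root D) : Root D := ⟨D.reflectRoot i r, Good.reflect_lt i r⟩

variable (b ρ) in
/-- folded fundamental reflection -/
def sf (i : Node D) (r : Root D) : Root D :=
  if ρ i = i then rf i r else rf i (rf (ρ i) (if b then rf (ρ (ρ i)) r else r))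

variable (b R ε) in
/-- total coefficient -/
def cc (m γ δ : Root D) : ℤ :=
  cf m γ δ + cf m γ (R δ) * (if R δ = δ then 0 else ε δ) + cf m γ (R (R δ)) * if R δ = δ then 0 else e3 b R ε δ

variable (b ρ R ε ψ) in
/-- root data of a twisted group -/
structure TwR : Prop extends GrD ρ R ε where
  simple : ∀ i, R (sroot i) = sroot (ρ i) ∧ ε (sroot i) = 1
  fix : ∀ r, R r = r → ε r = 1
  ord : ∀ r, if b then R (R (R r)) = r ∧ ε (R (R r)) * (ε (R r) * ε r) = 1 else R (R r) = r ∧ ε (R r) * ε r = 1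
  orth : ∀ r, R r ≠ r → H11.pair r (R r) = 0
  pos : ∀ r, IsPos r ↔ 0 < fv ψ r
  inv : ∀ r, fv ψ (R r) = fv ψ r
  reg : ∀ r s, fv ψ r = fv ψ s → s = r ∨ s = R r ∨ s = R (R r)
  lead : ∀ γ, IsPos γ → R γ ≠ γ → (∀ r, fv ψ γ < fv ψ r → R r = r) ∨ ∃ δ, IsPos δ ∧ ∃ m ∈ [radd γ δ, radd (R γ) δ],
    fv ψ m = fv ψ δ + fv ψ γ ∧ ((cc b R ε m γ δ).natAbs = 1 ∧ cc b R ε m (R γ) δ = 0 ∧ cc b R ε m (R (R γ)) δ * e3 b R ε γ = 0 ∨
      b ∧ cc b R ε m γ δ = 0 ∧ (cc b R ε m (R γ) δ * ε γ).natAbs = 1 ∧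
        cc b R ε m (R (R γ)) δ * e3 b R ε γ = cc b R ε m (R γ) δ * ε γ)
  scal : ∀ γ, R γ ≠ γ → ∃ r, R r = r ∧ H11.pair r γ = 1
  wf : ∀ i r, sf b ρ i (R r) = R (sf b ρ i r)
  conn : ∀ γ, R γ ≠ γ → (∀ r, fv ψ γ < fv ψ r → R r = r) ∨ ∃ i, fv ψ γ < fv ψ (sf b ρ i γ)
  top : ∃ α : Root D, (∀ s, s ≤ α) ∧ R α = α ∧ (∃ s, H11.pair α s = 1) ∧ ∃ i, ρ i ≠ i ∧ H11.pair α (sroot i) = 0

variable (S τ σ θ b ρ R ε ψ) in
/-- a twisting automorphism `τ` and the field automorphism `σ` -/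
structure TwS : Prop extends TwR ψ b ρ R ε where
  gen : S.grp = ⊤
  hθ : Function.Injective S.θ
  act : ∀ r t, τ (S.x r t) = S.x (R r) (ε r * θ t)
  fld : ∀ r t, σ (S.x r t) = S.x r (θ t)
  fo : ∀ t, if b then θ (θ (θ t)) = t else θ (θ t) = t

variable (b τ) in
/-- norm of an element -/
def Nm (g : G) : G := g * τ g * if b then τ (τ g) else 1

variable (S b τ R) in
/-- twisted root elements -/
def Y (r : Root D) (t : K) : G := if R r = r then S.x r t else Nm b τ (S.x r t)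

namespace TwS
variable (T : TwS S ψ b ρ R ε τ σ θ)
include T

theorem sa : S.SimpAct τ ρ 1 fun _ => θ :=
  ⟨fun i t => by simp [T.act, T.simple], fun i t => by simp [T.act, T.simple, T.rev]⟩

theorem sb : S.SimpAct σ 1 1 fun _ => θ := ⟨fun i t => by simp [T.fld], fun i t => by simp [T.fld]⟩

theorem cm (g : G) : σ (τ g) = τ (σ g) :=
  DFunLike.congr_fun (StSys.hom_ext T.gen (f := (σ * τ).toMonoidHom) (g := (τ * σ).toMonoidHom)
    fun r t => by simp [T.act, T.fld]) g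

theorem Nm_eq (r : Root D) (t : K) :
    Nm b τ (S.x r t) = S.x r t * (S.x (R r) (ε r * θ t) * S.x (R (R r)) (e3 b R ε r * θ (θ t))) := by
  cases b <;> simp [Nm, e3, T.act, mul_assoc]

theorem cx {r : Root D} (h : R r ≠ r) (t u : K) : Commute (S.x r t) (S.x (R r) u) :=
  S.commute_of_Nc (fun e => by simpa [e] using T.orth r h) (T.sl.Nc_eq_zero (T.orth r h).ge) t u

theorem Nm_fix {r : Root D} (h : R r ≠ r) (t : K) : τ (Nm b τ (S.x r t)) = Nm b τ (S.x r t) := by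
  have h1 := T.ord r
  have h2 := T.fo t
  have h3 := fun u => T.cx h t u
  cases b
  · simp only [Bool.false_eq_true, if_false] at h1 h2
    simp [Nm, T.act, h1.1, ← mul_assoc, h2, ← Int.cast_mul, h1.2, (h3 _).eq]
  · simp only [if_true] at h1 h2
    have h4 := fun u => h1.1 ▸ T.cx (T.inj.ne (T.inj.ne h)) u t
    simp only [Nm, T.act, if_true, map_mul, map_intCast, h1.1, h2, ← mul_assoc (_ : K), ← Int.cast_mul]
    rw [h1.2, Int.cast_one, one_mul, ((h3 _).symm.mul_left (h4 _)).eq, mul_assoc]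

theorem Nm_add {r : Root D} (h : R r ≠ r) (t u : K) : Nm b τ (S.x r (t + u)) = Nm b τ (S.x r t) * Nm b τ (S.x r u) := by
  have h1 := T.ord r
  cases b
  · simp only [Nm, T.act, map_add, mul_add]
    simp only [← S.add, Bool.false_eq_true, if_false, mul_one]
    exact (T.cx h _ _).mul_mul_mul_comm _ _
  · simp only [if_true] at h1
    have h4 := fun u t => h1.1 ▸ T.cx (T.inj.ne (T.inj.ne h)) u t
    simp only [Nm, T.act, map_add, mul_add]
    simp only [← S.add, if_true]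
    rw [(T.cx h _ _).mul_mul_mul_comm, ((h4 _ _).symm.mul_left (T.cx (T.inj.ne h) _ _)).mul_mul_mul_comm]

omit T [Good D] in
theorem Nm_conj {n : G} (h : τ n = n) (g : G) : Nm b τ (n * g * n⁻¹) = n * Nm b τ g * n⁻¹ := by
  cases b <;> simp [Nm, h, mul_assoc]

theorem Y_fix {r : Root D} {t : K} (h : R r = r → θ t = t) : Y S b R τ r t ∈ fixS τ := by
  unfold Y; split_ifs with a
  exacts [by simp [mem_fixS, T.act, a, T.fix r a, h a], T.Nm_fix a t]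

theorem σ_Y (r : Root D) (t : K) : σ (Y S b R τ r t) = Y S b R τ r (θ t) := by
  unfold Y; split_ifs
  exacts [T.fld r t, by cases b <;> simp [Nm, T.cm, T.fld]]

theorem Y_mem (r : Root D) {t : K} (h : θ t = t) : Y S b R τ r t ∈ fixS τ ⊓ fixS σ :=
  ⟨T.Y_fix fun _ => h, mem_fixS.2 (by rw [T.σ_Y, h])⟩

theorem Y_eq (r : Root D) (t : K) : ∃ v ∈ S.US ({R r, R (R r)} \ {r}), Y S b R τ r t = S.x r t * v := by
  unfold Y; split_ifs with a
  · exact ⟨1, one_mem _, by simp⟩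
  refine ⟨_, mul_mem (x_mem_US (by simp [a]) _) ?_, T.Nm_eq r t⟩
  have := T.ord r
  cases b
  · simp [e3]
  · exact x_mem_US (by exact ⟨by simp, fun e => a (by simpa [show R (R r) = r from e] using this.1)⟩) _

theorem Y_US {A : Set (Root D)} (h : ∀ r ∈ A, R r ∈ A) {r : Root D} (hr : r ∈ A) (t : K) : Y S b R τ r t ∈ S.US A := by
  obtain ⟨v, h1, h2⟩ := T.Y_eq r t
  refine h2 ▸ mul_mem (x_mem_US hr t) (US_mono ?_ h1)
  rintro _ ⟨rfl | rfl, -⟩
  exacts [h _ hr, h _ (h _ hr)]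

theorem co_Y {φ : Node D → ℤ} (h : ∀ r, fv φ (R r) = fv φ r) (r : Root D) (t : K) : Co S φ r t (Y S b R τ r t) := by
  obtain ⟨v, h1, h2⟩ := T.Y_eq r t
  refine h2 ▸ co_mul t (US_mono (Set.diff_subset_diff_left ?_) h1)
  rintro _ (rfl | rfl) <;> simp [Lv, h]

theorem U_eq : S.U = S.US (Lv ψ 1) := congrArg S.US (Set.ext T.pos)

variable [Cert D]

theorem R_eq (r : Root D) : T.sa.R r = R r := T.sa.R_eq fun t => ⟨_, T.act r t⟩

theorem hN {w : Weyl D} (hw : w ∈ T.sa.Wf) : ∃ m : S.N, m.1 ∈ fixS τ ⊓ fixS σ ∧ S.π m = w := by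
  refine T.sa.induction_Wf (J := Set.univ) (by simp) (C := fun w => ∃ m : S.N, m.1 ∈ fixS τ ⊓ fixS σ ∧ S.π m = w)
    ⟨1, one_mem _, map_one _⟩ (fun i _ w _ _ _ ⟨m, a, c⟩ => ?_) hw (by rw [(weylPreCox D).par_univ]; trivial)
  have h1 := T.Y_mem (sroot i).rev (map_one θ)
  have h2 : Y S b R τ (sroot i).rev 1 ∈ S.US (NegJ (orb ρ i)) := T.Y_US (fun r hr => by
    rw [← T.R_eq]; exact ⟨fun e => hr.1 (T.sa.isPos_R.1 e), T.sa.inJ_R (fun _ => apply_mem_orb.2) hr.2⟩)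
    (by exact ⟨not_isPos_rev (isPos_sroot i), inJ_rev.2 (inJ_sroot.2 (mem_orb_self ρ i))⟩) 1
  have h3 : Y S b R τ (sroot i).rev 1 ≠ 1 := fun e => one_ne_zero (Co.uniq (ψ := -ψ)
    (by have := (T.pos _).1 (isPos_sroot i); rw [fv_neg, fv_rev]; omega) (e ▸ T.co_Y (fun r => by simp [fv_neg, T.inv]) _ 1) (co_zero.2 (one_mem _)))
  obtain ⟨u, hu, k, hk, v, hv, e⟩ := T.sa.fix_bruhat T.gen h1.1
  rw [e] at h1 h2 h3
  have hv' : v ∈ S.U := US_mono (fun _ a => a.1) hv.1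
  have h4 : u * k * v ∈ S.PJ (orb ρ i) := US_le.2 (fun _ hr => x_mem_PJ hr.2) h2
  have h5 : S.π k ∈ par sW (orb ρ i) := π_mem_par_iff.2 (by
    simpa [mul_assoc] using mul_mem (mul_mem (inv_mem (B_le_PJ _ (U_le_B hu.1))) h4) (inv_mem (B_le_PJ _ (U_le_B hv'))))
  rcases T.sa.eq_or_of_par (T.sa.π_mem_Wf hk) h5 with e | e
  · exact absurd (B_inf_V.le ⟨mul_mem (mul_mem (U_le_B hu.1) (H_le_B (π_eq_one_iff.1 e))) (U_le_B hv'),
      US_mono (fun _ a => a.1) h2⟩) h3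
  exact ⟨m * k, mul_mem a ⟨hk, eq_of_unu (T.sb.mem_N k.2) k.2 (T.sb.mem_U hu.1) (T.sb.mem_U hv') hu.1 hv'
    (by simpa using mem_fixS.1 h1.2)⟩, by rw [map_mul, c, e]⟩

variable {H : Subgroup G} (hM : fixS τ ⊓ fixS σ ≤ H)
include hM

omit [Cert D] [Good D] T in
theorem conj_mem {n : G} (hn : n ∈ fixS τ ⊓ fixS σ) {r s : Root D} (hr : R r ≠ r) (hs : R s ≠ s) {t u : K}
    (e : n * S.x r t * n⁻¹ = S.x s u) : Y S b R τ r t ∈ H ↔ Y S b R τ s u ∈ H := by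
  rw [Y, Y, if_neg hr, if_neg hs, ← e, Nm_conj hn.1, Subgroup.mul_mem_cancel_right _ (inv_mem (hM hn)),
    Subgroup.mul_mem_cancel_left _ (hM hn)]

theorem smul_mem {r : Root D} (hr : R r ≠ r) {c t : K} (hc : θ c = c) (h : Y S b R τ r t ∈ H) : Y S b R τ r (c * t) ∈ H := by
  by_cases h0 : c = 0
  · exact hM (T.Y_mem r (by simp [h0]))
  obtain ⟨s, h1, h2⟩ := T.scal r hr
  have h3 : ∀ s t, R s = s → θ t = t → S.x s t ∈ fixS τ ⊓ fixS σ := fun s t a c => by simpa [Y, a] using T.Y_mem s c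
  have h4 : ∀ c, θ c = c → S.n s c ∈ fixS τ ⊓ fixS σ := fun c a =>
    mul_mem (mul_mem (h3 _ _ h1 a) (h3 _ _ (by rw [(T.rev s).1, h1]) (by simp [a]))) (h3 _ _ h1 a)
  exact (conj_mem hM (n := S.h s c) (mul_mem (h4 c hc) (h4 _ (by simp))) hr hr (by rw [h_conj s r h0 t, h2, zpow_one])).1 h

theorem sf_mem (i : Node D) {r : Root D} (hr : R r ≠ r) :
    R (sf b ρ i r) ≠ sf b ρ i r ∧ ∀ t, Y S b R τ r t ∈ H ↔ Y S b R τ (sf b ρ i r) t ∈ H := by
  obtain ⟨w, hw⟩ : ∃ w : Weyl D, ∀ r, w.1 r = sf b ρ i r := by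
    have : ∀ (i : Node D) r, rf i r = refl (sroot i) r := fun i r => Fin.ext (refl_sroot_val i r).symm
    refine ⟨if ρ i = i then sW i else sW i * (sW (ρ i) * if b then sW (ρ (ρ i)) else 1), fun r => ?_⟩
    unfold sf; split_ifs <;> simp [this]
  have h1 : R (sf b ρ i r) ≠ sf b ρ i r := fun e => hr (w.1.injective (by rw [hw, hw, T.wf, e]))
  obtain ⟨m, h2, rfl⟩ := T.hN (w := w) fun r => by rw [T.R_eq, T.R_eq, hw, hw, T.wf]
  obtain ⟨χ, -, h3⟩ := acts_π m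
  have h4 : θ (χ r) = χ r := by
    have := congrArg σ (h3 r 1)
    rw [map_mul, map_mul, map_inv, mem_fixS.1 h2.2, T.fld, T.fld, map_one, h3] at this
    simpa using (x_inj (congrArg S.θ this)).symm
  refine ⟨h1, fun t => ⟨fun h => ?_, fun h => (conj_mem hM h2 hr h1 (hw r ▸ h3 r t)).2 (T.smul_mem hM h1 h4 h)⟩⟩
  have := T.smul_mem hM h1 (c := (χ r : K)⁻¹) (by simp [h4]) ((conj_mem hM h2 hr h1 (hw r ▸ h3 r t)).1 h)
  rwa [inv_mul_cancel_left₀ (χ r).ne_zero] at this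

variable (hH : H ≤ fixS τ) (h0 : ∀ γ, R γ ≠ γ → (∀ r, fv ψ γ < fv ψ r → R r = r) → ∀ t, Y S b R τ γ t ∈ H → θ t = t)
include hH h0

theorem lv_fix (n : ℤ) (hn : 1 ≤ n) : ∀ u ∈ H, u ∈ S.US (Lv ψ n) → σ u = u := by
  obtain ⟨N, hN⟩ := (Set.finite_range (fv ψ)).bddAbove
  induction hk : (N + 1 - n).toNat generalizing n with
  | zero =>
    intro u _ h
    rw [show Lv ψ n = ∅ from Set.eq_empty_of_forall_notMem fun r hr => by
      have := hN ⟨r, rfl⟩; simp only [Lv, Set.mem_ofPred_eq] at hr; omega, US_empty, Subgroup.mem_bot] at h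
    simp [h]
  | succ k ih =>
  replace ih := ih (n + 1) (by omega) (by omega)
  intro u hu h
  by_cases a : ∃ γ, fv ψ γ = n
  swap
  · exact ih u hu (US_mono (fun r hr => (show n ≤ fv ψ r from hr).lt_of_ne fun e => a ⟨r, e.symm⟩) h)
  obtain ⟨γ, rfl⟩ := a
  obtain ⟨t, ht⟩ := exists_co hn h
  have mp : ∀ {m a g}, g ∈ fixS τ → Co S ψ m a g → Co S ψ (R m) (ε m * θ a) g := fun hg h =>
    mem_fixS.1 hg ▸ h.map τ T.inj T.inv T.act
  have h1 : Y S b R τ γ t ∈ fixS τ := T.Y_fix fun e => by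
    have := mp (hH hu) ht
    rw [e] at this; simpa [T.fix γ e] using this.uniq hn ht
  obtain ⟨v, rfl⟩ : ∃ v, u = Y S b R τ γ t * v := ⟨_, (mul_inv_cancel_left _ _).symm⟩
  have h2 : v ∈ fixS τ := (Subgroup.mul_mem_cancel_left _ h1).1 (hH hu)
  have h3 : Co S ψ γ 0 v := co_zero.2 ((Subgroup.mul_mem_cancel_left _ (T.co_Y T.inv γ t)).1 (by simpa [Co, mul_assoc] using ht))
  have h4 := mp h2 h3
  have h5 := mp h2 h4
  simp only [map_zero, mul_zero, co_zero, T.inv] at h3 h4 h5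
  have M := mid_Lv (ψ := ψ) hn
  have cl := fun {m} (e : fv ψ m = fv ψ γ) => (e ▸ mid_diff (e ▸ hn : 1 ≤ fv ψ m)).closed
  have h6 : v ∈ S.US (Lv ψ (fv ψ γ + 1)) := by
    have := Subgroup.mem_inf.2 ⟨Subgroup.mem_inf.2 ⟨h3, h4⟩, h5⟩
    rw [US_inf M.closed M.pos (cl rfl) (cl (T.inv _)) Set.diff_subset Set.diff_subset, US_inf M.closed M.pos
      ((cl rfl).inter (cl (T.inv _))) (cl ((T.inv _).trans (T.inv _))) (fun _ a => a.1.1) Set.diff_subset] at this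
    refine US_mono (fun r hr => (show fv ψ γ ≤ fv ψ r from hr.2.1).lt_of_ne fun e => ?_) this
    rcases T.reg _ _ e with e | e | e
    exacts [hr.1.1.2 e, hr.1.2.2 e, hr.2.2 e]
  suffices h7 : Y S b R τ γ t ∈ fixS σ from mem_fixS.1 (mul_mem h7 (ih v ((Subgroup.mul_mem_cancel_left _ (hM ⟨h1, h7⟩)).1 hu) h6))
  by_cases a : R γ = γ
  · simpa [Y, a, mem_fixS, T.act, T.fld, T.fix γ a] using h1
  refine (T.Y_mem γ ?_).2
  rcases T.lead γ ((T.pos γ).2 hn) a with c | ⟨δ, c1, m, -, c2, c3⟩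
  · refine h0 γ a c t ((Subgroup.mul_mem_cancel_right _ (hM ⟨h2, mem_fixS.2 (Eq.trans ?_ h2)⟩)).1 hu)
    exact US_induction (C := fun v => σ v = τ v) (by simp) (fun r hr t => by simp [T.act, T.fld, c r hr, T.fix r (c r hr)])
      (fun g _ g' _ a c => by simp [a, c]) h6
  have d1 : 1 ≤ fv ψ δ := (T.pos δ).1 c1
  have d2 : 1 ≤ fv ψ m := by omega
  have d3 := T.Y_mem δ (map_one θ)
  have d4 : Y S b R τ δ 1 ∈ S.US (Lv ψ (fv ψ δ)) := T.Y_US (fun r hr => by simpa [Lv, T.inv] using hr) (by simp [Lv]) 1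
  have x1 : ∀ r t, 1 ≤ fv ψ r → S.x r t ∈ S.US (Lv ψ 1) := fun r t h => x_mem_US h t
  have d5 : ∀ r t, fv ψ r = fv ψ γ → Cm S ψ m (Y S b R τ δ 1) (S.x r t) (-(cc b R ε m r δ * t)) := fun r t e => by
    have k := fun s a (e' : fv ψ s = fv ψ δ) => cm_x (S := S) T.sl (m := m) (γ := r) (δ := s) (e ▸ hn) (e' ▸ d1) (by omega) a t
    unfold Y cc; split_ifs
    · simpa using k δ 1 rfl
    · rw [T.Nm_eq]
      convert (k δ 1 rfl).mul_left d2 ((k _ _ (T.inv δ)).mul_left d2 (k _ _ ((T.inv _).trans (T.inv δ)))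
        (x1 _ _ (by rwa [T.inv]))) (x1 _ _ d1) using 1
      simp; ring
  have d6 := ((d5 γ t rfl).mul_right d2 ((d5 _ (ε γ * θ t) (T.inv γ)).mul_right d2 (d5 _ (e3 b R ε γ * θ (θ t))
    ((T.inv _).trans (T.inv γ))) (x1 _ _ (by rwa [T.inv]))) (x1 _ _ hn)).mul_right d2 (cm_high d2 d1 hn c2 d4 h6)
    (mul_mem (x1 _ _ hn) (mul_mem (x1 _ _ (by rwa [T.inv])) (x1 _ _ (by rwa [T.inv, T.inv]))))
  rw [← T.Nm_eq, show Nm b τ (S.x γ t) = Y S b R τ γ t from (if_neg a).symm] at d6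
  have d7 := d6.uniq d2 (ih _ (mul_mem (mul_mem (mul_mem (hM d3) hu) (inv_mem (hM d3))) (inv_mem hu))
    (Lv_mono (by omega) (comm_lv d1 hn d4 h)) ▸ d6.map σ Function.injective_id (fun _ => rfl) T.fld)
  simp only [← mul_assoc, ← Int.cast_mul] at d7
  rcases c3 with ⟨e1, e2, e3⟩ | ⟨rfl, e1, e2, e3⟩
  · rcases Int.natAbs_eq_iff.1 e1 with e1 | e1 <;> simpa [e1, e2, e3, eq_comm] using d7
  · have := T.fo t
    rw [e1, e3] at d7
    rcases Int.natAbs_eq_iff.1 e2 with e2 | e2 <;> simp only [e2, if_true] at d7 this <;> simp [this] at d7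
    · linear_combination -d7
    · linear_combination d7

theorem borel {g : G} (hg : g ∈ H) (hb : g ∈ S.B) : σ g = g := by
  obtain ⟨u, hu, y, hy, rfl⟩ := T.sa.fix_B hb (hH hg)
  obtain ⟨χ, a1, -, a3⟩ := exists_char hy.1
  have fx := fun u hu (h : u ∈ S.U) => T.lv_fix hM hH h0 1 le_rfl u hu (T.U_eq ▸ h)
  have h2 : ∀ r, IsPos r → θ (χ r) = χ r := fun r hr => by
    have c1 := (T.pos r).1 hr
    have c2 := ((T.co_Y T.inv r 1).map (MulAut.conj y) Function.injective_id (fun _ => rfl) a3).conj c1 (T.U_eq ▸ hu.1)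
    have c3 : Y S b R τ r 1 ∈ S.U := T.Y_US (fun r => by simp [T.pos, T.inv]) hr 1
    have c4 := fx _ (mul_mem (mul_mem hg (hM (T.Y_mem r (map_one θ)))) (inv_mem hg)) (norm_B (fun _ a => a)
      (fun r hr => closed_isPos r hr) hb c3)
    rw [show u * y * _ * (u * y)⁻¹ = u * MulAut.conj y (Y S b R τ r 1) * u⁻¹ by simp [mul_assoc]] at c4
    have c5 := (c4 ▸ c2.map σ Function.injective_id (fun _ => rfl) T.fld).uniq c1 c2
    simpa using c5
  have h3 : ∀ r, θ (χ r) = χ r := fun r => (isPos_or r).elim (h2 r) fun a => by simpa [a1.1] using h2 _ a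
  have h4 : σ y = y := inv_mul_eq_one.1 (FixN.cent_triv T.gen T.hθ fun r => by
    have c1 := congrArg σ (a3 r 1)
    rw [map_mul, map_mul, map_inv, T.fld, T.fld, map_mul, h3, map_one, ← a3] at c1
    calc _ = (σ y)⁻¹ * (y * S.x r 1 * y⁻¹) * y := by group
      _ = _ := by rw [← c1]; group)
  rw [map_mul, h4, fx u ((Subgroup.mul_mem_cancel_right _ (hM ⟨hy.2, h4⟩)).1 hg) hu.1]

theorem le_fix (p : ℕ) [Fact p.Prime] [CharP K p] [Finite H] (hS : S.HMul) : H ≤ fixS σ := by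
  obtain ⟨α, a1, a2, a3, i, a4, a5⟩ := T.top
  have y1 := fun r => T.Y_mem r (map_one θ)
  have y2 : ∀ i, Y S b R τ (sroot i) 1 ∈ S.U := fun i => T.Y_US (fun r => by simp [T.pos, T.inv]) (isPos_sroot i) 1
  have y3 : ∀ i, Y S b R τ (sroot i) 1 ∉ S.UJ {i} := fun i => by
    obtain ⟨v, h1, h2⟩ := T.Y_eq (sroot i) 1
    refine fun e => x_nmem i one_ne_zero ((Subgroup.mul_mem_cancel_right _ (US_mono ?_ h1)).1 (h2 ▸ e))
    simp only [T.simple]
    rintro _ ⟨rfl | rfl, h⟩ <;> exact ⟨isPos_sroot _, fun e => h (congrArg sroot ((inJ_sroot (J := {i})).1 e))⟩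
  have y4 : Y S b R τ (sroot i) 1 ≠ 1 := fun e => y3 i (e ▸ one_mem _)
  refine le_trans (core p T.gen T.hθ hS hM (control T.gen T.hθ
    ⟨fun a => cond a τ σ, fun a => cond a ρ 1, fun _ => 1, fun _ _ => θ, fun a => by cases a; exacts [T.sb, T.sa]⟩
    (fun g => ⟨fun h => ⟨hM h, by simpa [mem_fixS, and_comm] using h⟩, fun h => ⟨h.2 true, h.2 false⟩⟩)
    (fun g hg hb => ⟨hH hg, T.borel hM hH h0 hg hb⟩) (fun u _ e => ⟨e true, e false⟩)
    (fun w hw => T.hN (hw true)) (fun J hJ β c1 c2 => ?_) fun a => ?_)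
    (fun i => ⟨_, hM (y1 _), y2 i, y3 i⟩) a1 a3 (by simpa [Y, a2] using y1 α) (by simpa [Y, a2, T.rev] using y1 α.rev)
    ⟨_, y1 _, y4, T.Y_US (fun r hr => by exact ⟨by simpa [T.pos, T.inv] using hr.1, a2 ▸ (T.pair α r).trans hr.2⟩)
      (by exact ⟨isPos_sroot i, a5⟩) 1⟩
    ?_) inf_le_right
  · obtain ⟨v, h1, h2⟩ := T.Y_eq β 1
    have h3 : ∀ r ∈ Up J β, R r ∈ Up J β := fun r hr => ⟨⟨by simpa [T.pos, T.inv] using hr.1.1, fun e => hr.1.2
      (mem_of_maps T.sa.R (A := {r | InJ J r}) (fun _ => T.sa.inJ_R (hJ true)) (T.R_eq r ▸ e))⟩, (T.ht r).symm ▸ hr.2⟩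
    have h4 : β ∈ Up J β := ⟨⟨c1, c2⟩, le_rfl⟩
    refine ⟨1, one_ne_zero, v, US_mono (Set.diff_subset_diff_left ?_) h1, h2 ▸ y1 β⟩
    rintro _ (rfl | rfl)
    exacts [h3 _ h4, h3 _ (h3 _ h4)]
  · cases a
    · exact adm_gr (R := id) (ε := 1) ⟨T.sl, Function.injective_id, by simp, by simp, by simp⟩ T.gen (θ := θ) (by simp [T.fld]) T.sb
    · exact adm_gr T.toGrD T.gen T.act T.sa
  rintro rfl
  have c : R (sroot i) ≠ sroot i := fun e => a4 (sroot_injective ((T.simple i).1 ▸ e))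
  refine ⟨_, y1 _, y2 i, ?_, not_isConj T.gen a1 (y2 i) (.inl ⟨i, ρ i, a4.symm, y3 i, fun e => y3 i
    (T.sa.mem_UJ_orb (y1 _).1 (orb_eq (apply_mem_orb.2 (mem_orb_self ρ i)) ▸ mem_orb_self ρ i) e)⟩), y4⟩
  rw [Y, if_neg c, ← T.Nm_add c, CharTwo.add_self_eq_zero]; cases b <;> simp [Nm]

omit hH h0 in
theorem main (p : ℕ) [Fact p.Prime] [CharP K p] [Finite H] (hS : S.HMul) (hH : H ≤ fixS τ) :
    H ≤ fixS σ ∨ ∀ γ, R γ ≠ γ → ∃ t, Y S b R τ γ t ∈ H ∧ θ t ≠ t := by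
  refine or_iff_not_imp_right.2 fun h => T.le_fix hM hH (fun β a1 a2 t a3 => by_contra fun a4 => h fun γ₀ a5 => ?_) p hS
  classical
  by_contra a6
  obtain ⟨γ, c1, c2⟩ := Finset.exists_max_image (Finset.univ.filter fun γ => R γ ≠ γ ∧ ¬ ∃ t, Y S b R τ γ t ∈ H ∧ θ t ≠ t)
    (fv ψ) ⟨γ₀, by simpa using ⟨a5, by simpa using a6⟩⟩
  simp only [Finset.mem_filter, Finset.mem_univ, true_and] at c1 c2
  rcases T.conn γ c1.1 with c | ⟨i, c⟩
  · have k : ∀ r, R r ≠ r → (∃ t, Y S b R τ r t ∈ H ∧ θ t ≠ t) → ∃ t, Y S b R τ (R r) t ∈ H ∧ θ t ≠ t := fun r a ⟨t, d1, d2⟩ =>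
      ⟨ε r * θ t, by
        rw [Y, if_neg a, ← T.Nm_fix a, show τ (Nm b τ _) = Nm b τ (τ (S.x r t)) by cases b <;> simp [Nm], T.act] at d1
        rwa [Y, if_neg (T.inj.ne a)], by rcases T.sq r with e | e <;> simpa [e] using d2⟩
    rcases T.reg β γ (le_antisymm (not_lt.1 fun e => a1 (c _ e)) (not_lt.1 fun e => c1.1 (a2 _ e))) with rfl | rfl | rfl
    exacts [c1.2 ⟨t, a3, a4⟩, c1.2 (k _ a1 ⟨t, a3, a4⟩), c1.2 (k _ (T.inj.ne a1) (k _ a1 ⟨t, a3, a4⟩))]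
  · obtain ⟨d1, d2⟩ := T.sf_mem hM i c1.1
    exact (c2 _ ⟨d1, by simpa only [← d2] using c1.2⟩).not_gt c

end TwS
end H12.Lev
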