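import Cfsg.Agent.H12.SubH
import Cfsg.Agent.H11.TwE6

/-! Maximality of `F₄(q)` in `²E₆(q)` and of `G₂(q)` in `³D₄(q)` (`max_E6`, `max_D4`). -/

namespace H12.Lev
open Cfsg Cfsg.Lie Equiv H11 H11.StSys H12.Lie

/-- root permutation of a root map -/
def rOf (D : ChevalleyDatum) (φ : ℕ → List (ℕ × ℤ × ℕ)) (r : Root D) : Root D :=
  if h : ((φ r).headD default).1 < D.nroots then ⟨_, h⟩ else r
/-- signs of a root map -/
def eOf (D : ChevalleyDatum) (φ : ℕ → List (ℕ × ℤ × ℕ)) (r : Root D) : ℤ := ((φ r).headD default).2.1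

theorem twR_D4 : TwR (D := chevD4) ![4, 7, 4, 4] true symD4a (rOf _ grD4a) (eOf _ grD4a) where
  sl := slD4
  inj := by decide +kernel
  sq := by decide +kernel
  rev := by decide +kernel
  wt := by decide +kernel
  simple := by decide +kernel
  fix := by decide +kernel
  ord := by decide +kernel
  orth := by decide +kernel
  pos := by decide +kernel
  inv := by decide +kernel
  reg := by decide +kernel
  lead := by decide +kernel
  scal := by decide +kernel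
  wf := by decide +kernel
  conn := by decide +kernel
  top := ⟨⟨23, by decide⟩, by decide +kernel⟩

theorem twR_E6 : TwR (D := chevE6) ![28, 40, 55, 77, 55, 28] false flipE6 (rOf _ grE6) (eOf _ grE6) where
  sl := slE6
  inj := by decide +kernel
  sq := by decide +kernel
  rev := by decide +kernel
  wt := by decide +kernel
  simple := by decide +kernel
  fix := by decide +kernel
  ord := by decide +kernel
  orth := by decide +kernel
  pos := by decide +kernel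
  inv := by decide +kernel
  reg := by decide +kernel
  lead := by decide +kernel
  scal := by decide +kernel
  wf := by decide +kernel
  conn := by decide +kernel
  top := ⟨⟨71, by decide⟩, by decide +kernel⟩
variable {K : Type*} [Field K]

theorem wrap {D : ChevalleyDatum} [Good D] [Cert D] [Finite K] (p : ℕ) [Fact p.Prime] [CharP K p] {ψ b ρ R ε τ} {θ : K ≃+* K}
    (T : TwS (grpSys D K) ψ b ρ R ε τ (fieldAut D K θ) θ) {k q : ℕ} (F : FrF k q θ) (hk : 1 < k) {A : Set (List (ℕ × K))}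
    (hA : Subgroup.closure (wordG (grpSys D K).x '' A) = fixS τ)
    (full : ∀ H : Subgroup (D.group K), fixS τ ⊓ fixS (fieldAut D K θ) ≤ H →
      (∀ γ, R γ ≠ γ → ∃ t, Y (grpSys D K) b R τ γ t ∈ H ∧ θ t ≠ t) → ∀ w ∈ A, wordG (grpSys D K).x w ∈ H)
    {M : Subgroup (GL D.Idx K)} (hM : ∀ g : GL D.Idx K, g ∈ M ↔ g ∈ D.genSubgroup K A ∧ ∀ i j, g.1 i j ^ q = g.1 i j) :
    M ≠ D.genSubgroup K A ∧ ∀ H, M ≤ H → H ≤ D.genSubgroup K A → H = M ∨ H = D.genSubgroup K A := by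
  have h1 : ∀ g : D.group K, g.1 ∈ D.genSubgroup K A ↔ g ∈ fixS τ := fun g => by
    rw [genSubgroup_eq, hA]; exact Subgroup.mem_map_iff_mem Subtype.val_injective
  have h2 : ∀ g : D.group K, g.1 ∈ M ↔ g ∈ fixS τ ⊓ fixS (fieldAut D K θ) := fun g => by
    simp only [hM, h1, Subgroup.mem_inf, mem_fix_iff, F.eq]
  refine ⟨fun e => ?_, fun H a1 a2 => ?_⟩
  · obtain ⟨t, ht⟩ : ∃ t, θ t ≠ t := by
      by_contra! a
      have := Nat.card_congr (Equiv.subtypeUnivEquiv a)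
      rw [F.card_fix, F.card] at this
      exact (Nat.pow_lt_pow_right F.lt hk).ne (by rwa [pow_one])
    obtain ⟨-, -, -, -, i, a, -⟩ := T.top
    have c := T.Y_fix (r := sroot i) (t := t) fun e => absurd (sroot_injective ((T.simple i).1 ▸ e)) a
    have d := mem_fixS.1 ((h2 _).1 (by rw [e]; exact (h1 _).2 c)).2
    rw [T.σ_Y] at d
    exact ht ((T.co_Y T.inv _ _).uniq ((T.pos _).1 (isPos_sroot i)) (d ▸ T.co_Y T.inv _ t))
  have a3 := a2.trans (genSubgroup_le A)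
  have a4 : fixS τ ⊓ fixS (fieldAut D K θ) ≤ H.subgroupOf (D.group K) := fun g hg => a1 ((h2 g).2 hg)
  refine (T.main a4 p hMul_grp fun g hg => (h1 g).1 (a2 hg)).imp
    (fun h => le_antisymm (fun g hg => (h2 ⟨g, a3 hg⟩).2 ⟨(h1 _).1 (a2 hg), h hg⟩) a1) fun h => le_antisymm a2 ?_
  rw [genSubgroup_eq, Subgroup.map_le_iff_le_comap, Subgroup.closure_le]
  rintro _ ⟨w, hw, rfl⟩
  exact full _ a4 h w hw

theorem twS_of {D : ChevalleyDatum} [Good D] {ψ b ρ φ τ} {θ : K ≃+* K} (T : TwR ψ b ρ (rOf D φ) (eOf D φ))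
    (h : IsTw (grpSys D K) τ φ θ) (hφ : ∀ r : Root D, φ r = [((rOf D φ r).1, eOf D φ r, 1)])
    (fo : ∀ t, if b then θ (θ (θ t)) = t else θ (θ t) = t) :
    TwS (grpSys D K) ψ b ρ (rOf D φ) (eOf D φ) τ (fieldAut D K θ) θ :=
  ⟨T, grpSys_grp D K, grpSys_θ_injective D K, fun r t => by rw [h, hφ]; simp [appW, wordG_cons], fieldAut_x θ, fo⟩

section
variable {D : ChevalleyDatum} [Good D] {G : Type*} [Group G] {S : StSys D K G} {ψ b ρ R ε} {τ σ : MulAut G} {θ : K ≃+* K}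
  (T : TwS S ψ b ρ R ε τ σ θ) {H : Subgroup G} (hM : fixS τ ⊓ fixS σ ≤ H)
include T hM

theorem TwS.x_mem {a : ℕ} (h : ∃ r : Root D, r.1 = a ∧ R r = r) {t : K} (ht : θ t = t) : xNat S.x a t ∈ H := by
  obtain ⟨r, rfl, h⟩ := h
  simpa [Y, h] using hM (T.Y_mem r ht)

theorem TwS.lin [Cert D] {r : Root D} (h : R r ≠ r) {a c t u : K} (ha : θ a = a) (hc : θ c = c) (ht : Y S b R τ r t ∈ H)
    (hu : Y S b R τ r u ∈ H) : Y S b R τ r (a * t + c * u) ∈ H := by
  have := mul_mem (T.smul_mem hM h ha ht) (T.smul_mem hM h hc hu)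
  rw [Y, Y, if_neg h, if_neg h, ← T.Nm_add h] at this
  rwa [Y, if_neg h]

omit hM in
theorem TwS.Y_word {r : Root D} (h : R r ≠ r) (t : K) : Y S b R τ r t =
    wordG S.x [(r, t), (R r, ε r * θ t), (R (R r), e3 b R ε r * θ (θ t))] := by
  simp [Y, h, T.Nm_eq, wordG_cons]

end

theorem max_E6 [Fintype K] (p : ℕ) [Fact p.Prime] [CharP K p] {q : ℕ} (hq : IsPrimePow q) (hK : Fintype.card K = q ^ 2)
    {M : Subgroup (GL chevE6.Idx K)} (hM : ∀ g, g ∈ M ↔ g ∈ twistedE6 K q ∧ ∀ i j, g.1 i j ^ q = g.1 i j) :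
    M ≠ twistedE6 K q ∧ ∀ H, M ≤ H → H ≤ twistedE6 K q → H = M ∨ H = twistedE6 K q := by
  obtain ⟨θ, F⟩ := exists_frF hq two_ne_zero hK
  obtain ⟨τ, h⟩ := exists_isTw_E6 θ
  have fo : ∀ t, θ (θ t) = t := F.iter
  have T := twS_of twR_E6 h (by decide +kernel) fo
  refine wrap p T F one_lt_two (TE6.eq_fix F h (grpSys_θ_injective _ K) (grpSys_grp _ K)) (fun H a1 a2 w hw => ?_) hM
  rcases hw with ⟨t, ht, r, hr, rfl⟩ | ⟨t, r, hr, rfl⟩
  · simpa [wordG_cons] using T.x_mem a1 (by revert r; decide +kernel) ((F.eq t).trans ht)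
  obtain ⟨s, b1, b2, b3, b4⟩ : ∃ s : Root chevE6, r.1 = s ∧ r.2 = rOf _ grE6 s ∧ eOf _ grE6 s = 1 ∧ rOf _ grE6 s ≠ s := by
    revert r; decide +kernel
  obtain ⟨u, c1, c2⟩ := a2 s b4
  have c3 := sub_ne_zero.2 c2
  have c4 : θ ((θ t - t) / (θ u - u)) = (θ t - t) / (θ u - u) := by
    rw [map_div₀, map_sub, map_sub, fo, fo, ← neg_div_neg_eq, neg_sub, neg_sub]
  have := T.lin a1 b4 (a := t - (θ t - t) / (θ u - u) * u) (by rw [map_sub, map_mul, c4]; field_simp; ring) c4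
    (a1 (T.Y_mem s (map_one θ))) c1
  simpa [T.Y_word b4, wordG_cons, b1, b2, b3, e3, F.eq] using this

open Pol in
theorem idD4 {G : Type*} [Group G] {x : Root chevD4 → K → G} (hx : StRel x) (A B C : K) :
    wordG x [(18, A), (13, B), (12, C)] * wordG x [(14, 1)] = wordG x [(14, 1)] * wordG x [(19, -A), (16, B), (15, C)] *
      wordG x [(17, B * C), (20, -(C * A)), (21, -(A * B))] * wordG x [(22, -(A * B * C))] * wordG x [(23, -(A * B * C))] *
      wordG x [(18, A), (13, B), (12, C)] := by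
  have hp : ((0 : ℕ) : K) = 0 := Nat.cast_zero
  simp only [← wordG_append, List.cons_append, List.nil_append]
  simpa [ev_mul _ hp, ev_neg _ hp, ev_C _ hp, ev_X2, ev_X3, ev_X5, v6]
    using wordG_eq_of_col agreeD4 hx hp (v6 A B C 0 0 0) (f := 50) (k := 3)
      (w := [(18, X 2), (13, X 3), (12, X 5), (14, Pol.C 0 1)])
      (w' := [(14, Pol.C 0 1), (19, neg 0 (X 2)), (16, X 3), (15, X 5), (17, mul 0 (X 3) (X 5)), (20, neg 0 (mul 0 (X 5) (X 2))),
        (21, neg 0 (mul 0 (X 2) (X 3))), (22, neg 0 (mul 0 (mul 0 (X 2) (X 3)) (X 5))),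
        (23, neg 0 (mul 0 (mul 0 (X 2) (X 3)) (X 5))), (18, X 2), (13, X 3), (12, X 5)])
      (by decide +kernel)

theorem max_D4 [Fintype K] (p : ℕ) [Fact p.Prime] [CharP K p] {q : ℕ} (hq : IsPrimePow q) (hK : Fintype.card K = q ^ 3)
    {M : Subgroup (GL chevD4.Idx K)} (hM : ∀ g, g ∈ M ↔ g ∈ twistedD4 K q ∧ ∀ i j, g.1 i j ^ q = g.1 i j) :
    M ≠ twistedD4 K q ∧ ∀ H, M ≤ H → H ≤ twistedD4 K q → H = M ∨ H = twistedD4 K q := by
  obtain ⟨θ, F⟩ := exists_frF hq three_ne_zero hK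
  obtain ⟨τ, h⟩ := exists_isTw_D4 θ
  have fo : ∀ t, θ (θ (θ t)) = t := F.iter
  have T := twS_of twR_D4 h (by decide +kernel) fo
  refine wrap p T F (by decide) (TD4.eq_fix F h (grpSys_θ_injective _ K) (grpSys_grp _ K)) (fun H a1 a2 w hw => ?_) hM
  set S := grpSys chevD4 K
  have yw : ∀ (a b c : ℕ) (e e' : ℤ) (ha : a < 24), (rOf chevD4 grD4a ⟨a, ha⟩ ≠ ⟨a, ha⟩ ∧ (rOf chevD4 grD4a ⟨a, ha⟩).1 = b ∧
      (rOf chevD4 grD4a (rOf chevD4 grD4a ⟨a, ha⟩)).1 = c ∧ eOf chevD4 grD4a ⟨a, ha⟩ = e ∧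
      e3 true (rOf chevD4 grD4a) (eOf chevD4 grD4a) ⟨a, ha⟩ = e') → ∀ t, Y S true (rOf _ grD4a) τ ⟨a, ha⟩ t =
        wordG S.x [(a, t), (b, e * θ t), (c, e' * θ (θ t))] := by
    rintro a _ _ _ _ ha ⟨c, rfl, rfl, rfl, rfl⟩ t; exact T.Y_word c t
  have mv : ∀ (i : Node chevD4) (r s : Root chevD4), rOf _ grD4a r ≠ r ∧ sf true symD4a i r = s → ∀ t,
      Y S true (rOf _ grD4a) τ r t ∈ H ↔ Y S true (rOf _ grD4a) τ s t ∈ H := by
    rintro i r _ ⟨c, rfl⟩; exact (T.sf_mem a1 i c).2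
  have y1 := yw 18 13 12 1 1 (by decide) (by decide +kernel)
  have n1 : rOf chevD4 grD4a (rt _ 18) ≠ rt _ 18 := by decide +kernel
  have m1 := mv (nd _ 1) (rt _ 18) (rt _ 19) (by decide +kernel)
  obtain ⟨u, c1, c2⟩ := a2 _ n1
  have c3 : Y S true (rOf _ grD4a) τ (rt _ 18) (θ u * θ (θ u)) ∈ H := by
    have x1 : ∀ a t, (∃ r : Root chevD4, r.1 = a ∧ rOf _ grD4a r = r) → θ t = t → wordG S.x [(a, t)] ∈ H := fun a t c d => by
      simpa [wordG_cons] using T.x_mem a1 c d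
    have d1 := (m1 _).1 (T.smul_mem a1 n1 (c := -1) (by simp) c1)
    have d2 := x1 14 1 (by decide +kernel) (map_one θ)
    have d3 : θ (-(u * θ u * θ (θ u))) = -(u * θ u * θ (θ u)) := by simp only [map_neg, map_mul, fo]; ring
    rw [m1, mv (nd _ 0) (rt _ 19) (rt _ 17) (by decide +kernel), yw 17 20 21 (-1) (-1) (by decide) (by decide +kernel)]
    rw [yw 19 16 15 (-1) (-1) (by decide) (by decide +kernel)] at d1
    rw [y1] at c1
    simp only [Int.cast_one, one_mul, Int.cast_neg, neg_mul, map_neg, neg_neg, map_mul, fo] at c1 d1 ⊢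
    have d4 := mul_mem c1 d2
    rwa [idD4 S.rel, Subgroup.mul_mem_cancel_right _ c1, Subgroup.mul_mem_cancel_right _ (x1 _ _ (by decide +kernel) d3),
      Subgroup.mul_mem_cancel_right _ (x1 _ _ (by decide +kernel) d3), Subgroup.mul_mem_cancel_left _ (mul_mem d2 d1)] at d4
  have c4 : ∀ t, Y S true (rOf _ grD4a) τ (rt _ 18) t ∈ H := fun t => by
    let f : {t // θ t = t} × {t // θ t = t} × {t // θ t = t} → K := fun a => a.1 * 1 + 1 * (a.2.1 * u + a.2.2 * (θ u * θ (θ u)))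
    have hf : Function.Injective f := fun a c e => by
      have e' := congrArg θ e
      simp only [f, map_add, map_mul, a.1.2, a.2.1.2, a.2.2.2, c.1.2, c.2.1.2, c.2.2.2, fo, map_one] at e e'
      have e1 : (a.2.1 : K) - c.2.1 = (a.2.2 - c.2.2) * θ (θ u) :=
        mul_left_cancel₀ (sub_ne_zero.2 c2) (by linear_combination e' - e)
      have e2 : (a.2.2 : K) = c.2.2 := by
        have := congrArg θ e1
        simp only [map_sub, map_mul, a.2.1.2, a.2.2.2, c.2.1.2, c.2.2.2, fo] at this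
        by_contra e3
        exact c2 (θ.injective (θ.injective ((fo _).trans (mul_left_cancel₀ (sub_ne_zero.2 e3) (this.symm.trans e1)))))
      have e3 : (a.2.1 : K) = c.2.1 := by linear_combination e1 + θ (θ u) * e2
      exact Prod.ext (Subtype.ext (by rw [e2, e3] at e; simpa using e)) (Prod.ext (Subtype.ext e3) (Subtype.ext e2))
    obtain ⟨a, rfl⟩ := (hf.bijective_of_nat_card_le (by simp only [Nat.card_prod, F.card_fix, F.card]; exact le_of_eq (by ring))).2 t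
    exact T.lin a1 n1 a.1.2 (map_one θ) (a1 (T.Y_mem _ (map_one θ))) (T.lin a1 n1 a.2.1.2 a.2.2.2 c1 c3)
  rcases hw with ⟨t, ht, r, hr, rfl⟩ | ⟨t, r, hr, rfl⟩
  · simpa [wordG_cons] using T.x_mem a1 (by revert r; decide +kernel) ((F.eq t).trans ht)
  rw [pow_two, pow_mul, ← F.eq, ← F.eq]
  simp only [List.mem_cons, List.not_mem_nil, or_false] at hr
  rcases hr with rfl | rfl
  · simpa [y1, d4p1, d4p3, d4p4] using c4 t
  · simpa [yw 5 10 11 1 1 (by decide) (by decide +kernel), d4m1, d4m3, d4m4] using (mv (nd _ 0) _ (rt _ 5) (by decide +kernel) t).1 (c4 t)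

end H12.Lev
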