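import Cfsg.Agent.H12.Lev
import Cfsg.Agent.H11.CentExt2

/-! Weakly closed subgroups of `U` in a finite Chevalley group are unipotent radicals (`weakly_closed`). -/

namespace H12.Lev
open Cfsg Cfsg.Lie Equiv H11 H11.StSys

variable {D : ChevalleyDatum} [Good D] {K : Type*} [Field K] {G : Type*} [Group G] {S : StSys D K G}

theorem sum_sq [Finite K] (u : K) : ∃ a b : K, u = a ^ 2 + b ^ 2 := by
  have := Fintype.ofFinite K
  by_cases h : Fintype.card K % 2 = 1
  · obtain ⟨r, s, hrs⟩ := FiniteField.exists_root_sum_quadratic (f := Polynomial.X ^ 2)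
      (g := Polynomial.X ^ 2 - Polynomial.C u) (Polynomial.degree_X_pow 2) (Polynomial.degree_X_pow_sub_C (by decide) u) h
    exact ⟨r, s, by simp at hrs; linear_combination -hrs⟩
  · obtain ⟨r, rfl⟩ := FiniteField.isSquare_of_char_two (FiniteField.even_card_iff_char_two.2 (by omega)) u
    exact ⟨r, 0, by ring⟩

theorem comm_Ge' {m : Root D} (hm : IsPos m) (a : K) {g : G} (hg : g ∈ S.U) :
    g⁻¹ * (S.x m a)⁻¹ * g * S.x m a ∈ S.US (Ge D (m + 1)) := by
  have := inv_mem (comm_Ge hm (-a) (inv_mem hg))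
  rw [← x_inv] at this
  convert conj_Ge' (mul_mem hg (x_mem_U hm a)) this using 1; group

variable [Cert D] {X : Subgroup G}

theorem lead [Finite K] (hB : ∀ b ∈ S.B, ∀ x ∈ X, b * x * b⁻¹ ∈ X) {γ : Root D} (hγ : IsPos γ)
    (hs : ∀ δ, γ < δ → (∃ r c, c ≠ (0 : K) ∧ pair r δ = 0 ∧ c ^ pair r γ ≠ 1) ∨
      ∀ t ≠ 0, ∀ v ∈ S.US (Ge D δ), S.x γ t * v ∈ X → ∀ a, S.x δ a ∈ X) : Lead S X γ := by
  intro t ht v hv h
  have key : ∀ n, γ.1 + 1 ≤ n → ∃ t ≠ 0, ∃ v ∈ S.US (Ge D n), S.x γ t * v ∈ X := fun n hn => by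
    induction hn with
    | refl => exact ⟨t, ht, v, hv, h⟩
    | @step n hn ih =>
      obtain ⟨t, ht, v, hv, h⟩ := ih
      rcases step hv with h1 | ⟨m, rfl, hm, a, w, hw, rfl⟩
      · exact ⟨t, ht, v, h1, h⟩
      rcases hs m (Nat.lt_of_succ_le hn) with ⟨r, c, h0, h1, h2⟩ | h1
      · have hy := h_mem_H (S := S) r h0
        have h3 := mul_mem (inv_mem h) (hB _ (H_le_B hy) _ h)
        have h4 := (Subgroup.mem_normalizer_iff.1 (H_le_normalizer _ hy) w).1 hw
        rw [show S.h r c * (S.x γ t * (S.x m a * w)) * (S.h r c)⁻¹ = S.h r c * S.x γ t * (S.h r c)⁻¹ *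
          (S.h r c * S.x m a * (S.h r c)⁻¹) * (S.h r c * w * (S.h r c)⁻¹) by group, h_conj r γ h0, h_conj r m h0, h1,
          zpow_zero, one_mul] at h3
        have h5 : (S.x γ t)⁻¹ * S.x γ (c ^ pair r γ * t) = S.x γ ((c ^ pair r γ - 1) * t) := by
          rw [x_inv, S.add]; congr 1; ring
        have hy : S.x γ ((c ^ pair r γ - 1) * t) ∈ S.U := x_mem_U hγ _
        refine ⟨_, mul_ne_zero (sub_ne_zero.2 h2) ht, _, mul_mem (mul_mem (conj_Ge' hy (inv_mem hw))
          (comm_Ge' hm a hy)) h4, ?_⟩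
        convert h3 using 1
        generalize S.x γ ((c ^ pair r γ - 1) * t) = y at h5
        calc _ = w⁻¹ * (S.x m a)⁻¹ * y * S.x m a * (S.h r c * w * (S.h r c)⁻¹) := by group
          _ = _ := by rw [← h5]; group
      · refine ⟨t, ht, w, hw, ?_⟩
        convert mul_mem (hB _ (U_le_B (x_mem_U hγ t)) _ (inv_mem (h1 t ht _ hv h a))) h using 1; group
  obtain ⟨t, ht, v, hv, h⟩ := key D.nroots γ.2
  rw [Ge_top, Subgroup.mem_bot] at hv
  rw [hv, mul_one] at h
  have h2 : ∀ c : K, S.x γ (c ^ 2 * t) ∈ X := fun c => by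
    by_cases h0 : c = 0
    · simp [h0]
    have := hB _ (H_le_B (h_mem_H γ h0)) _ h
    rwa [h_conj γ γ h0, pair_self, zpow_two, ← sq] at this
  intro u
  obtain ⟨a, b, e⟩ := sum_sq (u / t)
  have := mul_mem (h2 a) (h2 b)
  rwa [S.add, ← add_mul, ← e, div_mul_cancel₀ _ ht] at this

/-- separation of the roots `γ < δ` -/
def Sep (k : ℤ) (γ δ : Root D) : Prop :=
  (∃ r, pair r δ = 0 ∧ pair r γ ∣ k) ∨ ∃ ε, Occ γ ε δ ∧ ∀ s, δ ≤ s → Nc ε s = 0

instance instDecSep (k : ℤ) (γ δ : Root D) : Decidable (Sep k γ δ) := by unfold Sep; infer_instance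

theorem all_lead [Finite K] (hB : ∀ b ∈ S.B, ∀ x ∈ X, b * x * b⁻¹ ∈ X) {k : ℤ} {c : K} (h0 : c ≠ 0) (hc : c ^ k ≠ 1)
    (h : ∀ γ δ : Root D, IsPos γ → γ < δ → Sep k γ δ) (γ : Root D) (hγ : IsPos γ) : Lead S X γ := by
  induction γ using WellFoundedGT.induction with
  | ind γ ih =>
    refine lead hB hγ fun δ hδ => (h γ δ hγ hδ).imp (fun ⟨r, h1, m, h2⟩ => ⟨r, c, h0, h1, fun e => hc ?_⟩)
      fun ⟨ε, h1, h2⟩ t ht v hv hx => ?_
    · rw [h2, zpow_mul, e, one_zpow]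
    have hU : ∀ b ∈ S.U, ∀ x ∈ X, b * x * b⁻¹ ∈ X := fun b hb => hB b (U_le_B hb)
    refine h1.mem hU hγ (fun r hr => ih r hr (isPos_of_le hγ hr.le)) ht ?_
    have h3 : S.x ε 1 * v = v * S.x ε 1 := (US_le (M := Subgroup.centralizer {S.x ε 1})).2 (fun s hs a => by
      rintro _ rfl
      exact (H12.Lie.x_comm (h2 s hs.2) (fun e => not_isPos_rev h1.1 (e ▸ hs.1)) _ _).eq) hv _ rfl
    have h4 := hU _ (Ge_le_U _ hv) _ (mul_mem (hU _ (inv_mem (x_mem_U h1.1 1)) _ (inv_mem hx)) hx)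
    convert h4 using 1
    have h5 : v * (S.x ε 1)⁻¹ * v⁻¹ = (S.x ε 1)⁻¹ := by rw [mul_assoc, ← mul_inv_rev, ← h3]; group
    conv_lhs => rw [← h5]
    group

theorem weakly_closed [Finite K] {k : ℤ} {c : K} (h0 : c ≠ 0) (hc : c ^ k ≠ 1)
    (h : ∀ γ δ : Root D, IsPos γ → γ < δ → Sep k γ δ)
    (h' : ∀ i (β : Root D), IsPos β → β ≠ sroot i → 0 < wt β i → ∃ ε, Occ (sroot i) ε β) (hX : X ≤ S.U)
    (hw : ∀ g ∈ S.grp, (∀ x ∈ X, g * x * g⁻¹ ∈ S.U) → ∀ x ∈ X, g * x * g⁻¹ ∈ X) : ∃ J, X = S.UJ J := by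
  have hB : ∀ b ∈ S.B, ∀ x ∈ X, b * x * b⁻¹ ∈ X := fun b hb => hw b (B_le_grp hb) fun x hx => by
    obtain ⟨u, hu, y, hy, rfl⟩ := exists_mul_of_mem_B hb
    have := mul_mem (mul_mem hu ((Subgroup.mem_normalizer_iff.1 (H_le_normalizer _ hy) x).1 (hX hx))) (inv_mem hu)
    convert this using 1; group
  have hU : ∀ b ∈ S.U, ∀ x ∈ X, b * x * b⁻¹ ∈ X := fun b hb => hB b (U_le_B hb)
  have hL := all_lead hB h0 hc h
  let T : Set (Root D) := {r | IsPos r ∧ ∀ a, S.x r a ∈ X}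
  have h1 : X ≤ S.US T := fun x hx => by
    have key : ∀ n ≤ D.nroots, ∀ x ∈ X, x ∈ S.US (Ge D n) → x ∈ S.US T := fun n hn => by
      induction hn using Nat.decreasingInduction with
      | self => intro x _ h; rw [Ge_top, Subgroup.mem_bot] at h; exact h ▸ one_mem _
      | of_succ n _ ih =>
        intro x hx h
        rcases step h with h1 | ⟨m, rfl, hm, a, w, hw, rfl⟩
        · exact ih x hx h1
        by_cases ha : a = 0
        · rw [ha, x_zero, one_mul] at hx ⊢; exact ih w hx hw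
        have h2 := hL m hm a ha w hw hx
        exact mul_mem (x_mem_US (T := T) ⟨hm, h2⟩ a) (ih w (by simpa using mul_mem (inv_mem (h2 a)) hx) hw)
    exact key 0 (Nat.zero_le _) x hx (Ge_zero (S := S) ▸ hX hx)
  have h2 : ∀ i, sroot i ∉ T → ∀ r ∈ T, refl (sroot i) r ∈ T := fun i hi r hr => by
    have h3 : ∀ r ∈ T, IsPos (refl (sroot i) r) := fun r hr => by
      by_contra e; exact hi (eq_sroot_of hr.1 e ▸ hr)
    refine ⟨h3 r hr, fun a => ?_⟩
    have := hw _ (n_mem_grp (sroot i) 1) (fun x hx => (acts_n _ one_ne_zero).conj_mem h3 (h1 hx)) _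
      (hr.2 (((eta (sroot i) r : K) * 1 ^ (-pair (sroot i) r))⁻¹ * a))
    rwa [n_conj _ _ one_ne_zero, mul_inv_cancel_left₀ (coef_ne_zero _ _ one_ne_zero)] at this
  refine ⟨{i | sroot i ∉ T}, le_antisymm (h1.trans (US_mono fun r hr => ⟨hr.1, fun e => ?_⟩)) (US_le.2 fun r hr => ?_)⟩
  · refine rootJ_induction (C := fun r => r ∉ T) (fun i hi => hi) (fun i hi s _ hs e => hs ?_) e hr
    simpa using h2 i hi _ e
  · suffices r ∈ T from this.2
    induction r using WellFoundedLT.induction with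
    | ind r ih =>
      obtain ⟨i, h3, -⟩ := exists_wt_pos hr.1
      by_cases e : r = sroot i
      · by_contra e'
        exact hr.2 (e ▸ inJ_sroot.2 (e ▸ e' : sroot i ∉ T))
      by_cases hi : sroot i ∈ T
      · obtain ⟨ε, h4⟩ := h' i r hr.1 e h3
        refine ⟨hr.1, h4.mem hU hi.1 (fun s hs => hL s (isPos_of_le hi.1 hs.le)) one_ne_zero ?_⟩
        simpa [mul_assoc] using mul_mem (hU _ (inv_mem (x_mem_U h4.1 1)) _ (inv_mem (hi.2 1))) (hi.2 1)
      have h4 : IsPos (refl (sroot i) r) := by by_contra e'; exact e (eq_sroot_of hr.1 e')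
      have h5 : refl (sroot i) r < r := by
        have := phi_lin (i := 1) (j := -wt r i) (r := r) (s := sroot i) (u := refl (sroot i) r)
          (by rw [wt_refl, pair_sroot]; simp [sub_eq_add_neg])
        have := isPos_iff_phi.1 (isPos_sroot i)
        exact phi_lt_iff.1 (by nlinarith)
      simpa using h2 i hi _ (ih _ h5 ⟨h4, fun e' => hr.2 (by simpa using (inJ_sroot.2 hi).refl e')⟩)

omit [Cert D] in
theorem occ_SL (h : SL D) (i : Node D) (β : Root D) (hβ : IsPos β) (e : β ≠ sroot i) (h1 : 0 < wt β i) :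
    ∃ ε, Occ (sroot i) ε β := by
  have h2 : pair (sroot i) β = 1 := by
    have := h.pair_cases e fun e' => not_isPos_rev (isPos_sroot i) (e' ▸ hβ)
    rw [pair_sroot] at this ⊢; omega
  obtain ⟨ε, h3, h4⟩ := h.commTerms (r := sroot i) (s := refl (sroot i) β) (by simp [h2])
  refine ⟨refl (sroot i) β, by by_contra e'; exact e (eq_sroot_of hβ e'), fun e' => ?_, by rw [h4]; simp, ?_⟩
  · have := congrArg (pair (sroot i)) e'
    simp [h2] at this
  · rw [h4]; rcases h3 with rfl | rfl <;> simp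

omit [Good D] [Cert D] in
theorem exists_of_allLt {n : ℕ} {f : ℕ → Bool} (h : allLt n f = false) : ∃ k < n, f k = false := by
  induction n with
  | zero => cases h
  | succ n ih =>
    rcases Bool.and_eq_false_iff.1 h with h | h
    exacts [⟨n, n.lt_succ_self, h⟩, (ih h).imp fun _ h => ⟨h.1.trans n.lt_succ_self, h.2⟩]

/-- fast check of separation from the simple roots -/
noncomputable def chkSep (F : Fast) (k : ℕ) : Bool := allLt F.l fun i => allLt F.n fun g =>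
  Nat.beq g (F.sim i) || Nat.beq g (F.ng (F.sim i)) || !allLt F.n fun r => !(Nat.beq (F.wt r i).natAbs 0 &&
    Nat.beq (k % (sumLt F.l fun j => Int.mul (F.cor r j) (F.wt g j)).natAbs) 0)

omit [Cert D] in
theorem sep_of {F : Fast} (A : Agree D F) {k : ℕ} (h : chkSep F k = true) (γ δ : Root D) (hγ : IsPos γ) (hδ : γ < δ) :
    Sep k γ δ := by
  obtain ⟨w, i, rfl⟩ := exists_weyl_sroot δ
  obtain ⟨g, rfl⟩ := w.1.surjective γ
  have := allLt_spec (allLt_spec h (A.lt_l i)) (A.lt_n g)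
  simp only [Bool.or_eq_true, Nat.beq_eq, ← A.simple_eq (A.lt_l i), Bool.not_eq_true'] at this
  rcases this with (e | e) | e
  · exact absurd (congrArg w.1 (Fin.ext e : g = sroot i)) hδ.ne
  · obtain rfl : g = (sroot i).rev := Fin.ext (e.trans (A.rev_val (sroot i)).symm)
    rw [RootAut.rev (Weyl.aut w)] at hγ hδ
    exact absurd hγ (not_isPos_rev (isPos_of_le hγ hδ.le))
  obtain ⟨r, h1, h2⟩ := exists_of_allLt e
  simp only [Bool.not_eq_false', Bool.and_eq_true, Nat.beq_eq, Int.natAbs_eq_zero] at h2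
  let r' : Root D := ⟨r, A.n_eq ▸ h1⟩
  refine .inl ⟨w.1 r', ?_, ?_⟩ <;> rw [RootAut.pair_eq (Weyl.aut w)]
  · rw [pair_eq_zero_comm, pair_sroot, A.wt_eq]; exact h2.1
  · rw [A.pair_eq]; exact Int.natAbs_dvd.1 (Int.natCast_dvd_natCast.2 (Nat.dvd_of_mod_eq_zero h2.2))

theorem sepG2 : ∀ γ δ : Root chevG2, IsPos γ → γ < δ → Sep 2 γ δ := by decide +kernel
theorem sepB2 : chkSep fastB2 2 = true := by decide +kernel
theorem sepD4 : chkSep fastD4 2 = true := by decide +kernel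
theorem sepF4 : chkSep fastF4 2 = true := by decide +kernel
theorem sepE6 : chkSep fastE6 1 = true := by decide +kernel
theorem sepE7 : chkSep fastE7 1 = true := by decide +kernel
theorem sepE8 : chkSep fastE8 1 = true := by decide +kernel
theorem occG2 : ∀ i (β : Root chevG2), IsPos β → β ≠ sroot i → 0 < wt β i → ∃ ε, Occ (sroot i) ε β := by decide +kernel
theorem occB2 : ∀ i (β : Root chevB2), IsPos β → β ≠ sroot i → 0 < wt β i → ∃ ε, Occ (sroot i) ε β := by decide +kernel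
theorem occF4 : ∀ i (β : Root chevF4), IsPos β → β ≠ sroot i → 0 < wt β i → ∃ ε, Occ (sroot i) ε β := by decide +kernel

end H12.Lev
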